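/-
Blocks relative to the Baumann subgroup, tools: fixed points of `p`-groups, invariant subgroups of
order `p ^ k`, the rank two count, the elementary abelian count for maximal subgroups, products over
a family of commuting subgroups.
-/
import Cfsg.Agent.Lib.BPair.Main
import Cfsg.Agent.Lib.PGroups.NormalRankTwo
import Cfsg.Agent.Lib.PGroups.MetabelianReplacement

set_option autoImplicit false
set_option linter.unusedSectionVars false
set_option linter.unusedVariables false

namespace Cfsg.Agent.Lib.BBlk.Tools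

open Subgroup Cfsg
open Cfsg.Agent.Lib.PLocal.Thompson
open Cfsg.Agent.Lib.LocalEven.Util
open Cfsg.Agent.Lib.LocalEven.Baumann
open Cfsg.Agent.Lib.LocalEven.BaumannBlock
open Cfsg.Agent.Lib.LocalStruct.PCoreOf
open Cfsg.Agent.Lib.FG85.BB
open Cfsg.Agent.Lib.BPair.Basic
open Cfsg.Agent.Lib.BPair.Conj
open scoped commutatorElement

universe u

variable {G : Type u} [Group G] [Finite G] {p : ℕ} [hp : Fact p.Prime]

/-- A `p`-group normalizing a `p`-subgroup whose order is divisible by `p ^ k` normalizes a subgroup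
of order `p ^ k` in it. -/
theorem exists_inv_sub {R Y : Subgroup G} (hR : IsPGroup p R) (hY : IsPGroup p Y)
    (hRY : R ≤ normalizer (Y : Set G)) {k : ℕ} (hk : p ^ k ∣ Nat.card Y) :
    ∃ X : Subgroup G, X ≤ Y ∧ Nat.card X = p ^ k ∧ R ≤ normalizer (X : Set G) := by
  set H : Subgroup G := Y ⊔ R with hH
  have hHp : IsPGroup p H := hY.to_sup_of_normal_left' hR hRY
  have hYH : Y ≤ H := le_sup_left
  have hRH : R ≤ H := le_sup_right
  have hHN : H ≤ normalizer (Y : Set G) := sup_le le_normalizer hRY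
  haveI hN : (Y.subgroupOf H).Normal := by
    constructor
    intro x hx g
    rw [mem_subgroupOf] at hx ⊢
    exact conj_mem_of_mem_normalizer (hHN g.2) hx
  have hc : Nat.card (Y.subgroupOf H) = Nat.card Y :=
    Nat.card_congr (subgroupOfEquivOfLe hYH).toEquiv
  obtain ⟨L, hLn, hLK, hL⟩ := Cfsg.Agent.Lib.PGroups.NormalRankTwo.exists_normal_le_card_eq
    hHp (Y.subgroupOf H) k (by rw [hc]; exact hk)
  refine ⟨L.map H.subtype, ?_, ?_, ?_⟩
  · rintro _ ⟨x, hx, rfl⟩
    exact mem_subgroupOf.1 (hLK hx)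
  · rw [Subgroup.card_map_of_injective H.subtype_injective, hL]
  · intro r hr
    apply mem_normalizer_of_conj_le
    rintro _ ⟨x, hx, rfl⟩
    refine ⟨⟨r, hRH hr⟩ * x * (⟨r, hRH hr⟩ : H)⁻¹, hLn.conj_mem x hx _, ?_⟩
    simp

/-- A `p`-group normalizing a nontrivial `p`-subgroup fixes a nontrivial element of it. -/
theorem exists_fixed {R Y : Subgroup G} (hR : IsPGroup p R) (hY : IsPGroup p Y)
    (hRY : R ≤ normalizer (Y : Set G)) (hne : Y ≠ ⊥) :
    ∃ y ∈ Y, y ≠ 1 ∧ ∀ r ∈ R, r * y * r⁻¹ = y := by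
  classical
  have hpp : p.Prime := Fact.out
  letI : MulAction ↥R ↥Y :=
    { smul := fun r y => ⟨(r : G) * y * (r : G)⁻¹, conj_mem_of_mem_normalizer (hRY r.2) y.2⟩
      one_smul := fun y => Subtype.ext (by
        show ((1 : R) : G) * y * ((1 : R) : G)⁻¹ = y
        simp)
      mul_smul := fun a b y => Subtype.ext (by
        show ((a * b : R) : G) * y * ((a * b : R) : G)⁻¹ = (a : G) * ((b : G) * y * (b : G)⁻¹) * (a : G)⁻¹
        simp only [Subgroup.coe_mul]
        group) }
  have h1 := hR.card_modEq_card_fixedPoints ↥Y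
  obtain ⟨n, hn⟩ := IsPGroup.iff_card.1 hY
  have hn0 : n ≠ 0 := by
    rintro rfl
    rw [pow_zero] at hn
    exact hne ((Subgroup.card_eq_one).1 hn)
  have hdvd : p ∣ Nat.card ↥Y := by
    rw [hn]
    exact dvd_pow_self p hn0
  have hdvd2 : p ∣ Nat.card (MulAction.fixedPoints ↥R ↥Y) :=
    (Nat.modEq_zero_iff_dvd.1 (h1.symm.trans (Nat.modEq_zero_iff_dvd.2 hdvd)))
  have hone : (1 : ↥Y) ∈ MulAction.fixedPoints ↥R ↥Y := by
    intro r
    apply Subtype.ext
    show (r : G) * ((1 : Y) : G) * (r : G)⁻¹ = ((1 : Y) : G)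
    simp
  have hpos : 0 < Nat.card (MulAction.fixedPoints ↥R ↥Y) := by
    rw [Nat.card_pos_iff]
    exact ⟨⟨⟨1, hone⟩⟩, inferInstance⟩
  have hgt : 1 < Nat.card (MulAction.fixedPoints ↥R ↥Y) :=
    lt_of_lt_of_le hpp.one_lt (Nat.le_of_dvd hpos hdvd2)
  haveI := Finite.one_lt_card_iff_nontrivial.1 hgt
  obtain ⟨⟨y, hy⟩, hne'⟩ := exists_ne (⟨1, hone⟩ : MulAction.fixedPoints ↥R ↥Y)
  refine ⟨y, y.2, ?_, ?_⟩
  · intro h
    apply hne'
    apply Subtype.ext
    exact Subtype.ext h
  · intro r hr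
    have := hy ⟨r, hr⟩
    exact congrArg Subtype.val this

/-- The elementary abelian count for a maximal subgroup. -/
theorem ff_ineq {T A U A' : Subgroup G} (hA : IsMaxIn p T A) (hU : IsAbExp p U) (hUT : U ≤ T)
    (hA'A : A' ≤ A) (hc : ∀ u ∈ U, ∀ a ∈ A', u * a = a * u) :
    Nat.card U * Nat.card A' ≤ Nat.card A * Nat.card (U ⊓ A' : Subgroup G) := by
  have h1 := Cfsg.Agent.Lib.PGroups.MetabelianReplacement.card_sup_of_comm hc
  have hA' : IsAbExp p A' := by
    refine ⟨?_, fun a ha => hA.2.1.2 a (hA'A ha)⟩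
    have := hA.2.1.1
    rw [mulComm_iff] at this ⊢
    exact fun a ha b hb => this a (hA'A ha) b (hA'A hb)
  have hS : IsAbExp p (U ⊔ A') := by
    have hsup := hU.sup hA' (by
      intro a ha b hb
      exact hc a ha b hb)
    exact hsup
  have h2 := hA.2.2 _ (sup_le hUT (hA'A.trans hA.1)) hS
  rw [← h1]
  exact Nat.mul_le_mul_right _ h2

/-- The rank two count. -/
theorem rank_two {D X : Subgroup G} (hD : IsPGroup p D) (hX : Nat.card X = p ^ 2)
    (hDX : D ≤ normalizer (X : Set G)) :
    Nat.card D * Nat.card (X ⊓ centralizer (D : Set G) : Subgroup G) ≤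
      p ^ 2 * Nat.card (D ⊓ centralizer (X : Set G) : Subgroup G) := by
  classical
  have hpp : p.Prime := Fact.out
  have hXp : IsPGroup p X := IsPGroup.of_card hX
  set C : Subgroup G := X ⊓ centralizer (D : Set G) with hC
  set A₂ : Subgroup G := D ⊓ centralizer (X : Set G) with hA₂
  by_cases htriv : D ≤ centralizer (X : Set G)
  · have e1 : A₂ = D := inf_eq_left.2 htriv
    rw [e1, mul_comm]
    apply Nat.mul_le_mul_right
    rw [← hX]
    exact Subgroup.card_le_of_le inf_le_left
  · obtain ⟨d₀, hd₀, hd₀c⟩ := SetLike.not_le_iff_exists.1 htriv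
    rw [mem_centralizer_iff] at hd₀c
    push Not at hd₀c
    obtain ⟨x₀, hx₀, hx₀c⟩ := hd₀c
    have hx₀C : x₀ ∉ C := by
      intro h
      exact hx₀c (mem_centralizer_iff.1 (mem_inf.1 h).2 d₀ hd₀).symm
    -- the order of `C`
    have hCX : C ≤ X := inf_le_left
    have hCcard : Nat.card C = p := by
      have hne : C ≠ ⊥ := by
        have hXne : X ≠ ⊥ := by
          intro h
          rw [h, Subgroup.card_bot] at hX
          have := Nat.one_lt_pow (two_ne_zero) hpp.one_lt
          omega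
        obtain ⟨y, hy, hy1, hfix⟩ := exists_fixed hD hXp hDX hXne
        intro h
        apply hy1
        have : y ∈ C := by
          refine mem_inf.2 ⟨hy, ?_⟩
          rw [mem_centralizer_iff]
          intro r hr
          calc r * y = (r * y * r⁻¹) * r := by group
            _ = y * r := by rw [hfix r hr]
        rw [h] at this
        exact this
      have hdvd : Nat.card C ∣ p ^ 2 := by
        rw [← hX]
        exact Subgroup.card_dvd_of_le hCX
      obtain ⟨j, hj, hje⟩ := (Nat.dvd_prime_pow hpp).1 hdvd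
      have hj2 : j ≠ 2 := by
        rintro rfl
        have : C = X := Subgroup.eq_of_le_of_card_ge hCX (by rw [hje, hX])
        exact hx₀C (this ▸ hx₀)
      have hj0 : j ≠ 0 := by
        rintro rfl
        rw [pow_zero] at hje
        exact hne ((Subgroup.card_eq_one).1 hje)
      have : j = 1 := by omega
      rw [hje, this, pow_one]
    -- `X = C ⟨x₀⟩`
    have hXC : X ≤ C ⊔ zpowers x₀ := by
      have hle : C ⊔ zpowers x₀ ≤ X := sup_le hCX (by rw [zpowers_le]; exact hx₀)
      have hdvd : Nat.card ↥(C ⊔ zpowers x₀) ∣ p ^ 2 := by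
        rw [← hX]
        exact Subgroup.card_dvd_of_le hle
      obtain ⟨j, hj, hje⟩ := (Nat.dvd_prime_pow hpp).1 hdvd
      have hgt : p < Nat.card ↥(C ⊔ zpowers x₀) := by
        rw [← hCcard]
        have hlt : C < C ⊔ zpowers x₀ := by
          refine lt_of_le_of_ne le_sup_left ?_
          intro h
          apply hx₀C
          rw [h]
          exact mem_sup_right (mem_zpowers x₀)
        exact lt_of_not_ge fun h => hlt.ne (Subgroup.eq_of_le_of_card_ge hlt.le h)
      have hj2 : j = 2 := by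
        have h1 : j ≠ 0 := by
          rintro rfl
          rw [hje, pow_zero] at hgt
          have := hpp.one_lt
          omega
        have h2 : j ≠ 1 := by
          rintro rfl
          rw [hje, pow_one] at hgt
          omega
        omega
      have : C ⊔ zpowers x₀ = X := Subgroup.eq_of_le_of_card_ge hle (by rw [hje, hj2, hX])
      rw [this]
    -- the stabilizer of `x₀`
    have hstab : ∀ d ∈ D, d * x₀ * d⁻¹ = x₀ → d ∈ A₂ := by
      intro d hd hfix
      refine mem_inf.2 ⟨hd, ?_⟩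
      have hle : C ⊔ zpowers x₀ ≤ centralizer ({d} : Set G) := by
        refine sup_le ?_ ?_
        · intro c hc
          rw [mem_centralizer_singleton_iff]
          exact mem_centralizer_iff.1 (mem_inf.1 hc).2 d hd |>.symm
        · rw [zpowers_le, mem_centralizer_singleton_iff]
          calc x₀ * d = (d * x₀ * d⁻¹) * d := by rw [hfix]
            _ = d * x₀ := by group
      rw [mem_centralizer_iff]
      intro x hx
      exact (mem_centralizer_singleton_iff.1 (hle (hXC hx)))
    -- the index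
    set K : Subgroup D := A₂.subgroupOf D with hK
    have hcardD : Nat.card D = K.index * Nat.card A₂ := by
      have h1 := Subgroup.card_mul_index K
      have h2 : Nat.card K = Nat.card A₂ :=
        Nat.card_congr (subgroupOfEquivOfLe inf_le_left).toEquiv
      rw [h2] at h1
      rw [← h1, mul_comm]
    have hindex : K.index ≤ p := by
      let φ : ↥D → ↥X := fun d => ⟨(d : G) * x₀ * (d : G)⁻¹,
        conj_mem_of_mem_normalizer (hDX d.2) hx₀⟩
      have hφ : ∀ a b : ↥D, (QuotientGroup.leftRel K) a b → φ a = φ b := by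
        intro a b hab
        rw [QuotientGroup.leftRel_apply] at hab
        have h3 : (a⁻¹ * b : ↥D) ∈ K := hab
        rw [hK, mem_subgroupOf] at h3
        have h4 := (mem_inf.1 h3).2
        rw [mem_centralizer_iff] at h4
        have h5 := h4 x₀ hx₀
        apply Subtype.ext
        show (a : G) * x₀ * (a : G)⁻¹ = (b : G) * x₀ * (b : G)⁻¹
        simp only [Subgroup.coe_mul, Subgroup.coe_inv] at h5
        calc (a : G) * x₀ * (a : G)⁻¹ = a * (x₀ * ((a : G)⁻¹ * b)) * ((a : G)⁻¹ * b)⁻¹ * (a : G)⁻¹ := by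
              group
          _ = a * (((a : G)⁻¹ * b) * x₀) * ((a : G)⁻¹ * b)⁻¹ * (a : G)⁻¹ := by rw [h5]
          _ = (b : G) * x₀ * (b : G)⁻¹ := by group
      let φ' : ↥D ⧸ K → ↥X := Quotient.lift φ hφ
      have hinj : Function.Injective φ' := by
        intro a b
        induction a using QuotientGroup.induction_on with
        | H a =>
          induction b using QuotientGroup.induction_on with
          | H b =>
            intro hab
            have h1 : (a : G) * x₀ * (a : G)⁻¹ = (b : G) * x₀ * (b : G)⁻¹ :=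
              congrArg Subtype.val hab
            rw [QuotientGroup.eq]
            rw [hK, mem_subgroupOf]
            apply hstab _ (a⁻¹ * b).2
            simp only [Subgroup.coe_mul, Subgroup.coe_inv]
            calc (a : G)⁻¹ * b * x₀ * ((a : G)⁻¹ * b)⁻¹ =
                (a : G)⁻¹ * ((b : G) * x₀ * (b : G)⁻¹) * a := by group
              _ = (a : G)⁻¹ * ((a : G) * x₀ * (a : G)⁻¹) * a := by rw [h1]
              _ = x₀ := by group
      have hx₀1 : x₀ ≠ 1 := by
        rintro rfl
        exact hx₀C (one_mem _)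
      have hle : K.index ≤ p ^ 2 := by
        rw [Subgroup.index, ← hX]
        exact Nat.card_le_card_of_injective φ' hinj
      have hne2 : K.index ≠ p ^ 2 := by
        intro h
        have hcard : Nat.card ↥X ≤ Nat.card (↥D ⧸ K) := by
          rw [hX]
          show p ^ 2 ≤ K.index
          rw [h]
        have hb := hinj.bijective_of_nat_card_le hcard
        obtain ⟨a, ha⟩ := hb.2 1
        induction a using QuotientGroup.induction_on with
        | H a =>
          have h1 : (a : G) * x₀ * (a : G)⁻¹ = 1 := congrArg Subtype.val ha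
          apply hx₀1
          have : x₀ = (a : G)⁻¹ * ((a : G) * x₀ * (a : G)⁻¹) * a := by group
          rw [this, h1]
          group
      have hdvd : K.index ∣ Nat.card D := Subgroup.index_dvd_card K
      obtain ⟨m, hm⟩ := IsPGroup.iff_card.1 hD
      rw [hm] at hdvd
      obtain ⟨j, hj, hje⟩ := (Nat.dvd_prime_pow hpp).1 hdvd
      rw [hje] at hle hne2 ⊢
      have hj2 : j < 2 := by
        by_contra hcon
        have h2 : p ^ 2 ≤ p ^ j := Nat.pow_le_pow_right hpp.pos (by omega)
        omega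
      calc p ^ j ≤ p ^ 1 := Nat.pow_le_pow_right hpp.pos (by omega)
        _ = p := pow_one p
    rw [hCcard, hcardD]
    calc K.index * Nat.card A₂ * p = K.index * (Nat.card A₂ * p) := by ring
      _ ≤ p * (Nat.card A₂ * p) := Nat.mul_le_mul_right _ hindex
      _ = p ^ 2 * Nat.card A₂ := by ring

/-- The numeric end of the count. -/
theorem pow_gt {p k : ℕ} (hp : 2 ≤ p) (hk : 2 ≤ k) : k * p ^ 2 < (p ^ 2) ^ k := by
  obtain ⟨j, rfl⟩ : ∃ j, k = j + 2 := ⟨k - 2, by omega⟩
  have h4 : 4 ≤ p ^ 2 := by nlinarith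
  have h1 : ∀ j : ℕ, j + 2 < 4 ^ (j + 1) := by
    intro j
    induction j with
    | zero => norm_num
    | succ j ih =>
      rw [pow_succ]
      omega
  have h2 : 4 ^ (j + 1) ≤ (p ^ 2) ^ (j + 1) := Nat.pow_le_pow_left h4 _
  have h3 : (p ^ 2) ^ (j + 2) = (p ^ 2) ^ (j + 1) * p ^ 2 := by rw [pow_succ]
  rw [h3]
  have hpos : 0 < p ^ 2 := by omega
  exact Nat.mul_lt_mul_of_pos_right (lt_of_lt_of_le (h1 j) h2) hpos

/-! ### Products -/

section Prod

variable {V X : Subgroup G} {ι : Type*} [Fintype ι]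

/-- The commutative structure. -/
@[reducible] def commOf (V : Subgroup G) (h : ∀ a ∈ V, ∀ b ∈ V, a * b = b * a) : CommGroup ↥V :=
  { (inferInstance : Group ↥V) with
    mul_comm := fun a b => Subtype.ext (h a a.2 b b.2) }

/-- The product over the family. -/
theorem prod_family (hV : ∀ a ∈ V, ∀ b ∈ V, a * b = b * a) (a : ι → G) (H : ι → Subgroup G)
    (hXV : ∀ i, ∀ x ∈ X, a i * x * (a i)⁻¹ ∈ V)
    (hXH : ∀ i, ∀ x ∈ X, a i * x * (a i)⁻¹ ∈ H i)
    (hcomm : ∀ i j, i ≠ j → ∀ h ∈ H i, ∀ h' ∈ H j, h * h' = h' * h)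
    (hinj : ∀ i, ∀ x ∈ X, a i * x * (a i)⁻¹ ∈ centralizer (H i : Set G) → x = 1) :
    ∃ U : Subgroup G, U ≤ V ∧ Nat.card U = Nat.card X ^ Fintype.card ι ∧
      (∀ u ∈ U, ∀ i, ∃ x ∈ X, ∃ v ∈ centralizer (H i : Set G), u = a i * x * (a i)⁻¹ * v) ∧
      (∀ u ∈ U, (∀ i, u ∈ centralizer (H i : Set G)) → u = 1) ∧
      ∀ c : G, (∀ i, ∀ x ∈ X, c * (a i * x * (a i)⁻¹) = (a i * x * (a i)⁻¹) * c) →
        ∀ u ∈ U, c * u = u * c := by
  classical
  letI iC : CommGroup ↥V := commOf V hV
  let φ : ι → ↥X →* ↥V := fun i =>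
    { toFun := fun x => ⟨a i * x * (a i)⁻¹, hXV i x x.2⟩
      map_one' := by
        apply Subtype.ext
        show a i * ((1 : X) : G) * (a i)⁻¹ = 1
        simp
      map_mul' := by
        intro x y
        apply Subtype.ext
        show a i * ((x * y : X) : G) * (a i)⁻¹ = (a i * x * (a i)⁻¹) * (a i * y * (a i)⁻¹)
        simp only [Subgroup.coe_mul]
        group }
  let Φ : (ι → ↥X) →* ↥V :=
    { toFun := fun f => ∏ i, φ i (f i)
      map_one' := by
        simp
      map_mul' := by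
        intro f g
        simp only [Pi.mul_apply, map_mul]
        exact Finset.prod_mul_distrib }
  have hsplit : ∀ (f : ι → ↥X) (i : ι), ∃ v ∈ centralizer (H i : Set G),
      ((Φ f : ↥V) : G) = a i * f i * (a i)⁻¹ * v := by
    intro f i
    have h1 : Φ f = φ i (f i) * ∏ j ∈ Finset.univ.erase i, φ j (f j) :=
      (Finset.mul_prod_erase _ _ (Finset.mem_univ i)).symm
    refine ⟨((∏ j ∈ Finset.univ.erase i, φ j (f j) : ↥V) : G), ?_, ?_⟩
    · have hmem : (∏ j ∈ Finset.univ.erase i, φ j (f j) : ↥V) ∈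
          (centralizer (H i : Set G)).subgroupOf V := by
        apply Subgroup.prod_mem
        intro j hj
        rw [mem_subgroupOf, mem_centralizer_iff]
        intro h hh
        have hji : j ≠ i := Finset.ne_of_mem_erase hj
        exact (hcomm j i hji _ (hXH j _ (f j).2) h hh).symm
      exact mem_subgroupOf.1 hmem
    · rw [h1]
      rfl
  have hΦc : ∀ (f : ι → ↥X) (i : ι), ((Φ f : ↥V) : G) ∈ centralizer (H i : Set G) → f i = 1 := by
    intro f i hc
    obtain ⟨v, hv, he⟩ := hsplit f i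
    apply Subtype.ext
    apply hinj i _ (f i).2
    have : a i * f i * (a i)⁻¹ = ((Φ f : ↥V) : G) * v⁻¹ := by
      rw [he]
      group
    rw [this]
    exact mul_mem hc (inv_mem hv)
  have hΦinj : Function.Injective Φ := by
    rw [injective_iff_map_eq_one]
    intro f hf
    funext i
    apply hΦc f i
    rw [hf]
    exact one_mem _
  let U : Subgroup G := (Φ.range).map V.subtype
  refine ⟨U, ?_, ?_, ?_, ?_, ?_⟩
  · rintro _ ⟨y, -, rfl⟩
    exact y.2
  · rw [Subgroup.card_map_of_injective V.subtype_injective, Nat.card_congr (MonoidHom.ofInjective hΦinj).symm.toEquiv]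
    rw [Nat.card_fun, Nat.card_eq_fintype_card (α := ι)]
  · rintro _ ⟨_, ⟨f, rfl⟩, rfl⟩ i
    obtain ⟨v, hv, he⟩ := hsplit f i
    exact ⟨f i, (f i).2, v, hv, he⟩
  · rintro _ ⟨_, ⟨f, rfl⟩, rfl⟩ hc
    have : f = 1 := by
      funext i
      exact hΦc f i (hc i)
    rw [this, map_one]
    rfl
  · rintro c hc _ ⟨_, ⟨f, rfl⟩, rfl⟩
    have hmem : Φ f ∈ (centralizer ({c} : Set G)).subgroupOf V := by
      apply Subgroup.prod_mem
      intro j _
      rw [mem_subgroupOf, mem_centralizer_singleton_iff]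
      exact (hc j _ (f j).2).symm
    have := mem_centralizer_singleton_iff.1 (mem_subgroupOf.1 hmem)
    exact this.symm

/-- A norm over the cosets of a stabilizer, fixed by the group. -/
theorem exists_norm (hV : ∀ a ∈ V, ∀ b ∈ V, a * b = b * a) {A A₁ : Subgroup G} {x : G}
    (hA₁ : A₁ ≤ A) (hfix : ∀ r ∈ A₁, r * x * r⁻¹ = x)
    (hxV : x ∈ V) (hAV : A ≤ normalizer (V : Set G)) (K : Subgroup G)
    (hK : ∀ t ∈ A, t ∉ A₁ → t * x * t⁻¹ ∈ K) :
    ∃ y : G, y ∈ V ∧ (∀ t ∈ A, t * y * t⁻¹ = y) ∧ ∃ v ∈ K, y = x * v := by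
  classical
  letI iC : CommGroup ↥V := commOf V hV
  set L : Subgroup ↥A := A₁.subgroupOf A with hL
  letI iF : Fintype (↥A ⧸ L) := Fintype.ofFinite _
  let rep : ↥A ⧸ L → ↥A := fun i => i.out
  have hrep : ∀ i : ↥A ⧸ L, ((rep i : ↥A) : ↥A ⧸ L) = i := fun i => Quotient.out_eq' i
  have hxt : ∀ t ∈ A, t * x * t⁻¹ ∈ V := fun t ht => conj_mem_of_mem_normalizer (hAV ht) hxV
  let g : ↥A ⧸ L → ↥V := fun i => ⟨(rep i : G) * x * (rep i : G)⁻¹, hxt _ (rep i).2⟩
  have hg_eq : ∀ (t : ↥A) (i : ↥A ⧸ L), ((t * rep i : ↥A) : G) * x * ((t * rep i : ↥A) : G)⁻¹ =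
      (rep (t • i) : G) * x * (rep (t • i) : G)⁻¹ := by
    intro t i
    have h1 : ((t * rep i : ↥A) : ↥A ⧸ L) = ((rep (t • i) : ↥A) : ↥A ⧸ L) := by
      rw [hrep]
      conv_rhs => rw [← hrep i]
      rfl
    rw [QuotientGroup.eq] at h1
    have h2 : (((t * rep i)⁻¹ * rep (t • i) : ↥A) : G) ∈ A₁ := mem_subgroupOf.1 h1
    have h3 := hfix _ h2
    set r : G := (((t * rep i)⁻¹ * rep (t • i) : ↥A) : G) with hr
    have e1 : ((rep (t • i) : ↥A) : G) = ((t * rep i : ↥A) : G) * r := by
      rw [hr]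
      simp only [Subgroup.coe_mul, Subgroup.coe_inv]
      group
    rw [e1]
    calc (((t * rep i : ↥A) : G)) * x * (((t * rep i : ↥A) : G))⁻¹
        = ((t * rep i : ↥A) : G) * (r * x * r⁻¹) * ((t * rep i : ↥A) : G)⁻¹ := by rw [h3]
      _ = _ := by group
  let y : ↥V := ∏ i, g i
  refine ⟨y, y.2, ?_, ?_⟩
  · intro t ht
    let c : ↥V →* ↥V :=
      { toFun := fun v => ⟨t * v * t⁻¹, conj_mem_of_mem_normalizer (hAV ht) v.2⟩
        map_one' := by
          apply Subtype.ext
          show t * ((1 : V) : G) * t⁻¹ = 1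
          simp
        map_mul' := by
          intro u v
          apply Subtype.ext
          show t * ((u * v : V) : G) * t⁻¹ = (t * u * t⁻¹) * (t * v * t⁻¹)
          simp only [Subgroup.coe_mul]
          group }
    have hc : ∀ i, c (g i) = g ((⟨t, ht⟩ : ↥A) • i) := by
      intro i
      apply Subtype.ext
      have := hg_eq ⟨t, ht⟩ i
      show t * ((rep i : G) * x * (rep i : G)⁻¹) * t⁻¹ = _
      show _ = (rep ((⟨t, ht⟩ : ↥A) • i) : G) * x * (rep ((⟨t, ht⟩ : ↥A) • i) : G)⁻¹
      rw [← this]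
      simp only [Subgroup.coe_mul]
      group
    have h1 : c y = y := by
      show c (∏ i, g i) = ∏ i, g i
      rw [map_prod]
      simp only [hc]
      exact Equiv.prod_comp (MulAction.toPerm (⟨t, ht⟩ : ↥A)) g
    exact congrArg Subtype.val h1
  · let i₀ : ↥A ⧸ L := ((1 : ↥A) : ↥A ⧸ L)
    have h0 : (rep i₀ : G) ∈ A₁ := by
      have h1 := hrep i₀
      rw [QuotientGroup.eq] at h1
      have h2 : (((rep i₀)⁻¹ * 1 : ↥A) : G) ∈ A₁ := mem_subgroupOf.1 h1
      have h3 := inv_mem h2
      simpa using h3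
    have hg₀ : ((g i₀ : ↥V) : G) = x := hfix _ h0
    have h1 : y = g i₀ * ∏ j ∈ Finset.univ.erase i₀, g j :=
      (Finset.mul_prod_erase _ _ (Finset.mem_univ i₀)).symm
    refine ⟨((∏ j ∈ Finset.univ.erase i₀, g j : ↥V) : G), ?_, ?_⟩
    · have hmem : (∏ j ∈ Finset.univ.erase i₀, g j : ↥V) ∈ K.subgroupOf V := by
        apply Subgroup.prod_mem
        intro j hj
        rw [mem_subgroupOf]
        apply hK _ (rep j).2
        intro hmem
        have hji : j ≠ i₀ := Finset.ne_of_mem_erase hj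
        apply hji
        rw [← hrep j]
        show ((rep j : ↥A) : ↥A ⧸ L) = ((1 : ↥A) : ↥A ⧸ L)
        rw [QuotientGroup.eq]
        show (((rep j)⁻¹ * 1 : ↥A)) ∈ L
        rw [hL, mem_subgroupOf]
        have := inv_mem hmem
        simpa using this
      exact mem_subgroupOf.1 hmem
    · rw [h1]
      show ((g i₀ : ↥V) : G) * _ = _
      rw [hg₀]

end Prod

end Cfsg.Agent.Lib.BBlk.Tools
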