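/-
Subnormal blocks: the maximal elementary abelian subgroups of a Sylow subgroup normalize them; the
Baumann subgroup normalizes them; being a block does not depend on the Sylow subgroup.
-/
import Cfsg.Agent.Lib.BBlk.Tools

set_option autoImplicit false
set_option linter.unusedSectionVars false
set_option linter.unusedVariables false

namespace Cfsg.Agent.Lib.BBlk.FF

open Subgroup Cfsg
open Cfsg.Agent.Lib.PLocal.Thompson
open Cfsg.Agent.Lib.LocalEven.Util
open Cfsg.Agent.Lib.LocalEven.Baumann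
open Cfsg.Agent.Lib.LocalEven.BaumannBlock
open Cfsg.Agent.Lib.LocalStruct.PCoreOf
open Cfsg.Agent.Lib.FG85.BB
open Cfsg.Agent.Lib.BPair.Basic
open Cfsg.Agent.Lib.BPair.Conj
open Cfsg.Agent.Lib.BBlk.Tools
open scoped commutatorElement

universe u

variable {G : Type u} [Group G] [Finite G] {p : ℕ} [hp : Fact p.Prime]

/-- The key property of a block. -/
def KeyP (p : ℕ) (E : Subgroup G) : Prop :=
  ∀ R : Subgroup G, IsPGroup p R → R ≤ normalizer (E : Set G) →
    ∃ X : Subgroup G, X ≤ WE p E ∧ Nat.card X = p ^ 2 ∧ R ≤ normalizer (X : Set G) ∧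
      ∀ x ∈ X, x ∈ centralizer (E : Set G) → x = 1

theorem cj_eq_of_mem {g : G} {E : Subgroup G} (hg : g ∈ normalizer (E : Set G)) : cj g E = E := by
  ext x
  rw [mem_cj]
  constructor
  · intro h
    have := conj_mem_of_mem_normalizer hg h
    have e : g * (g⁻¹ * x * g) * g⁻¹ = x := by group
    rwa [e] at this
  · intro h
    have := conj_mem_of_mem_normalizer (inv_mem hg) h
    have e : g⁻¹ * x * g⁻¹⁻¹ = g⁻¹ * x * g := by group
    rwa [e] at this

theorem mem_normalizer_of_cj_eq {g : G} {E : Subgroup G} (h : cj g E = E) : g ∈ normalizer (E : Set G) := by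
  apply mem_normalizer_of_conj_le
  intro x hx
  rw [← h]
  exact conj_mem_cj hx

theorem inv_mul_mem_of_cj_eq {g g' : G} {E : Subgroup G} (h : cj g E = cj g' E) :
    g⁻¹ * g' ∈ normalizer (E : Set G) := by
  apply mem_normalizer_of_conj_le
  intro x hx
  have h1 : g' * x * g'⁻¹ ∈ cj g E := by
    rw [h]
    exact conj_mem_cj hx
  have h2 := mem_cj.1 h1
  have e : g⁻¹ * g' * x * (g⁻¹ * g')⁻¹ = g⁻¹ * (g' * x * g'⁻¹) * g := by group
  rw [e]
  exact h2

theorem conj_cen {g x : G} {E : Subgroup G} (h : g * x * g⁻¹ ∈ centralizer (cj g E : Set G)) :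
    x ∈ centralizer (E : Set G) := by
  rw [← cj_centralizer, mem_cj] at h
  have e : g⁻¹ * (g * x * g⁻¹) * g = x := by group
  rwa [e] at h

theorem conj_mem_cen {g x : G} {E : Subgroup G} (h : x ∈ centralizer (E : Set G)) :
    g * x * g⁻¹ ∈ centralizer (cj g E : Set G) := by
  rw [← cj_centralizer]
  exact conj_mem_cj h

section Main

variable {T : Sylow p G} {E : Subgroup G}

theorem conj_or (hG : centralizer (pCore p G : Set G) ≤ pCore p G)
    (hE : IsBaumannBlock p (T : Subgroup G) E) (hEs : E.IsSubnormal) (g g' : G) :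
    cj g E = cj g' E ∨ ∀ h ∈ cj g E, ∀ h' ∈ cj g' E, h * h' = h' * h := by
  rcases Cfsg.Agent.Lib.BPair.Main.main hG (cj g E) (cj g' E) ⟨g • T, cj_sylow_block g hE⟩
    ⟨g' • T, cj_sylow_block g' hE⟩ (cj_isSubnormal g hEs) (cj_isSubnormal g' hEs) with h | h
  · exact Or.inl h
  · right
    intro a ha b hb
    have h1 := commutator_mem_commutator ha hb
    rw [h, mem_bot, commutatorElement_eq_one_iff_commute] at h1
    exact h1

/-- Elements moving a subnormal block map it into its centralizer. -/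
theorem conj_not_normalizer (hG : centralizer (pCore p G : Set G) ≤ pCore p G)
    (hE : IsBaumannBlock p (T : Subgroup G) E) (hEs : E.IsSubnormal) {g x : G}
    (hg : g ∉ normalizer (E : Set G)) (hx : x ∈ E) : g * x * g⁻¹ ∈ centralizer (E : Set G) := by
  rcases conj_or hG hE hEs g 1 with h | h
  · exfalso
    apply hg
    apply mem_normalizer_of_cj_eq
    rw [h]
    ext y
    rw [mem_cj]
    simp
  · rw [mem_centralizer_iff]
    intro e he
    refine (h _ (conj_mem_cj hx) e ?_).symm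
    rw [mem_cj]
    simpa using he

theorem wE_le_E (E : Subgroup G) : WE p E ≤ E :=
  (wE_le_omE E).trans ((omE_le_core E).trans (pCoreOf_le E))

theorem card_pos' (H : Subgroup G) : 0 < Nat.card H := Nat.card_pos

/-- **Maximal elementary abelian subgroups normalize subnormal blocks.** -/
theorem isMax_le_normalizer (hG : centralizer (pCore p G : Set G) ≤ pCore p G)
    (hE : IsBaumannBlock p (T : Subgroup G) E) (hEs : E.IsSubnormal) (hkey : KeyP p E)
    (T' : Sylow p G) {A : Subgroup G} (hA : IsMaxIn p (T' : Subgroup G) A) :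
    A ≤ normalizer (E : Set G) := by
  classical
  have hpp : p.Prime := Fact.out
  by_contra hne
  set N : Subgroup G := normalizer (E : Set G) with hN
  set A₁ : Subgroup G := A ⊓ N with hA₁
  have hAp : IsPGroup p A := T'.isPGroup'.to_le hA.1
  have hA₁p : IsPGroup p A₁ := hAp.to_le inf_le_left
  obtain ⟨X, hXW, hXc, hA₁X, hXC⟩ := hkey A₁ hA₁p inf_le_right
  have hAab : ∀ a ∈ A, ∀ b ∈ A, a * b = b * a := by
    have := hA.2.1.1
    rw [mulComm_iff] at this
    exact this
  have hVc : ∀ a ∈ VV₀ p G, ∀ b ∈ VV₀ p G, a * b = b * a := fun a ha b hb =>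
    vV₀_central ha (omegaOneCenter_le _ hb)
  have hWV := wE_le_vV₀ hG hE
  have hVT : VV₀ p G ≤ (T' : Subgroup G) :=
    (omegaOneCenter_le _).trans (Cfsg.Agent.Lib.Core.Basic.pCore_le_sylow T')
  set L : Subgroup ↥A := A₁.subgroupOf A with hL
  letI iF : Fintype (↥A ⧸ L) := Fintype.ofFinite _
  let rep : ↥A ⧸ L → ↥A := fun i => i.out
  have hrep : ∀ i : ↥A ⧸ L, ((rep i : ↥A) : ↥A ⧸ L) = i := fun i => Quotient.out_eq' i
  let a : ↥A ⧸ L → G := fun i => (rep i : G)
  have haA : ∀ i, a i ∈ A := fun i => (rep i).2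
  let H : ↥A ⧸ L → Subgroup G := fun i => cj (a i) E
  have hdist : ∀ i j, H i = H j → i = j := by
    intro i j hij
    have h1 := inv_mul_mem_of_cj_eq hij
    rw [← hrep i, ← hrep j, QuotientGroup.eq]
    show (((rep i)⁻¹ * rep j : ↥A)) ∈ L
    rw [hL, mem_subgroupOf]
    refine mem_inf.2 ⟨mul_mem (inv_mem (haA i)) (haA j), ?_⟩
    simpa using h1
  obtain ⟨U, hUV, hUc, hU1, hU2, hU3⟩ := prod_family (X := X) hVc a H
    (fun i x hx => conj_mem_of_mem_normalizer (vV₀_normal _) (hWV (hXW hx)))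
    (fun i x hx => conj_mem_cj (wE_le_E E (hXW hx)))
    (fun i j hij h hh h' hh' => by
      rcases conj_or hG hE hEs (a i) (a j) with h1 | h1
      · exact (hij (hdist i j h1)).elim
      · exact h1 h hh h' hh')
    (fun i x hx hc => hXC x hx (conj_cen hc))
  set k : ℕ := Fintype.card (↥A ⧸ L) with hk
  have hkindex : k = L.index := by
    rw [hk, Subgroup.index, Nat.card_eq_fintype_card]
  have hcardA : Nat.card A = k * Nat.card A₁ := by
    have h1 := Subgroup.card_mul_index L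
    have h2 : Nat.card L = Nat.card A₁ :=
      Nat.card_congr (subgroupOfEquivOfLe inf_le_left).toEquiv
    rw [h2] at h1
    rw [← h1, hkindex, mul_comm]
  have hk2 : 2 ≤ k := by
    have h0 : k ≠ 0 := by
      rw [hkindex]
      exact Subgroup.index_ne_zero_of_finite
    have h1 : k ≠ 1 := by
      intro h
      rw [hkindex, Subgroup.index_eq_one] at h
      apply hne
      intro x hx
      have : (⟨x, hx⟩ : ↥A) ∈ L := by rw [h]; trivial
      exact (mem_inf.1 (mem_subgroupOf.1 this)).2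
    omega
  set A₂ : Subgroup G := A₁ ⊓ centralizer (X : Set G) with hA₂
  have hA₂A : A₂ ≤ A := inf_le_left.trans inf_le_left
  have hA₂U : ∀ u ∈ U, ∀ c ∈ A₂, u * c = c * u := by
    intro u hu c hc
    refine (hU3 c ?_ u hu).symm
    intro i x hx
    have h1 : c * a i = a i * c := hAab c (hA₂A hc) (a i) (haA i)
    have h2 : x * c = c * x := mem_centralizer_iff.1 (mem_inf.1 hc).2 x hx
    calc c * (a i * x * (a i)⁻¹) = (c * a i) * x * (a i)⁻¹ := by group
      _ = a i * (c * x) * (a i)⁻¹ := by rw [h1]; group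
      _ = a i * (x * c) * (a i)⁻¹ := by rw [h2]
      _ = (a i * x * (a i)⁻¹) * ((a i) * c * (a i)⁻¹) := by group
      _ = (a i * x * (a i)⁻¹) * c := by rw [← h1]; group
  have hUab : IsAbExp p U := by
    refine ⟨?_, fun u hu => (mem_omegaOneCenter.1 (hUV hu)).2.2⟩
    rw [mulComm_iff]
    exact fun a ha b hb => hVc a (hUV ha) b (hUV hb)
  have hff := ff_ineq hA hUab (hUV.trans hVT) hA₂A hA₂U
  -- the intersection
  set C : Subgroup G := X ⊓ centralizer (A₁ : Set G) with hC
  set i₀ : ↥A ⧸ L := ((1 : ↥A) : ↥A ⧸ L) with hi₀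
  have hq : a i₀ ∈ A₁ := by
    have h1 := hrep i₀
    rw [hi₀, QuotientGroup.eq] at h1
    have h2 : (((rep ((1 : ↥A) : ↥A ⧸ L))⁻¹ * 1 : ↥A) : G) ∈ A₁ := mem_subgroupOf.1 h1
    have h3 := inv_mem h2
    simpa using h3
  have hHi₀ : H i₀ = E := cj_eq_of_mem (mem_inf.1 hq).2
  have hdec : ∀ u ∈ U ⊓ A₂, ∃ x ∈ C, x⁻¹ * u ∈ centralizer (E : Set G) := by
    intro u hu
    obtain ⟨huU, huA⟩ := mem_inf.1 hu
    obtain ⟨x, hx, v, hv, he⟩ := hU1 u huU i₀
    rw [show centralizer (H i₀ : Set G) = centralizer (E : Set G) by rw [hHi₀]] at hv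
    set x' := a i₀ * x * (a i₀)⁻¹ with hx'
    have hx'X : x' ∈ X := conj_mem_of_mem_normalizer (hA₁X hq) hx
    have hvE : x'⁻¹ * u = v := by
      rw [he]
      group
    refine ⟨x', mem_inf.2 ⟨hx'X, ?_⟩, by rw [hvE]; exact hv⟩
    rw [mem_centralizer_iff]
    intro r hr
    have hrA : r ∈ A := (mem_inf.1 hr).1
    have hrN : r ∈ N := (mem_inf.1 hr).2
    have hur : u * r = r * u := hAab u (hA₂A huA) r hrA
    have hrx : r * x' * r⁻¹ ∈ X := conj_mem_of_mem_normalizer (hA₁X hr) hx'X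
    have hrv : r * v * r⁻¹ ∈ centralizer (E : Set G) :=
      conj_mem_of_mem_normalizer (normalizer_le_centralizer _ hrN) hv
    have e1 : u = x' * v := by rw [← hvE]; group
    have e2 : u = (r * x' * r⁻¹) * (r * v * r⁻¹) := by
      calc u = r * u * r⁻¹ := by
            rw [← hur]
            group
        _ = r * (x' * v) * r⁻¹ := by rw [← e1]
        _ = _ := by group
    have e3 : x'⁻¹ * (r * x' * r⁻¹) = v * (r * v * r⁻¹)⁻¹ := by
      have : x' * v = (r * x' * r⁻¹) * (r * v * r⁻¹) := e1.symm.trans e2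
      calc x'⁻¹ * (r * x' * r⁻¹) = x'⁻¹ * ((r * x' * r⁻¹) * (r * v * r⁻¹)) * (r * v * r⁻¹)⁻¹ := by
            group
        _ = x'⁻¹ * (x' * v) * (r * v * r⁻¹)⁻¹ := by rw [this]
        _ = _ := by group
    have h1 : x'⁻¹ * (r * x' * r⁻¹) = 1 := by
      apply hXC _ (mul_mem (inv_mem hx'X) hrx)
      rw [e3]
      exact mul_mem hv (inv_mem hrv)
    have h2 : r * x' * r⁻¹ = x' := by
      calc r * x' * r⁻¹ = x' * (x'⁻¹ * (r * x' * r⁻¹)) := by group
        _ = x' := by rw [h1, mul_one]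
    calc r * x' = (r * x' * r⁻¹) * r := by group
      _ = x' * r := by rw [h2]
  have hDC : Nat.card ↥(U ⊓ A₂) ≤ Nat.card C := by
    choose θ hθ1 hθ2 using hdec
    apply Nat.card_le_card_of_injective
      (fun u : ↥(U ⊓ A₂) => (⟨θ u u.2, hθ1 u u.2⟩ : ↥C))
    intro u u' huu'
    have h0 : θ u u.2 = θ u' u'.2 := congrArg Subtype.val huu'
    have h1 := hθ2 u u.2
    have h2 := hθ2 u' u'.2
    rw [← h0] at h2
    set w : G := (u : G)⁻¹ * u' with hw
    have hwC : w ∈ centralizer (E : Set G) := by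
      have : w = ((θ u u.2)⁻¹ * u)⁻¹ * ((θ u u.2)⁻¹ * u') := by
        rw [hw]
        group
      rw [this]
      exact mul_mem (inv_mem h1) h2
    have hwU : w ∈ U ⊓ A₂ := mul_mem (inv_mem u.2) u'.2
    have hw1 : w = 1 := by
      apply hU2 w (mem_inf.1 hwU).1
      intro i
      have e : w = a i * w * (a i)⁻¹ := by
        rw [hAab (a i) (haA i) w (hA₂A (mem_inf.1 hwU).2)]
        group
      rw [e]
      exact conj_mem_cen hwC
    apply Subtype.ext
    exact mul_left_cancel (a := ((u : G))⁻¹) (by rw [← hw, hw1, inv_mul_cancel])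
  have hr2 := rank_two hA₁p hXc hA₁X
  have hpos : 0 < Nat.card A₂ := card_pos' _
  have hfinal : (p ^ 2) ^ k ≤ k * p ^ 2 := by
    apply Nat.le_of_mul_le_mul_right _ hpos
    calc (p ^ 2) ^ k * Nat.card A₂ = Nat.card U * Nat.card A₂ := by rw [hUc, hXc]
      _ ≤ Nat.card A * Nat.card ↥(U ⊓ A₂) := hff
      _ ≤ (k * Nat.card A₁) * Nat.card C := by
          rw [hcardA]
          exact Nat.mul_le_mul_left _ hDC
      _ = k * (Nat.card A₁ * Nat.card C) := by ring
      _ ≤ k * (p ^ 2 * Nat.card A₂) := Nat.mul_le_mul_left _ hr2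
      _ = k * p ^ 2 * Nat.card A₂ := by ring
  have := pow_gt hpp.two_le hk2
  omega

/-- The Thompson subgroup normalizes a subnormal block. -/
theorem jOf_le_normalizer (hG : centralizer (pCore p G : Set G) ≤ pCore p G)
    (hE : IsBaumannBlock p (T : Subgroup G) E) (hEs : E.IsSubnormal) (hkey : KeyP p E)
    (T' : Sylow p G) : jOf p (T' : Subgroup G) ≤ normalizer (E : Set G) :=
  sSup_le fun _ hA => isMax_le_normalizer hG hE hEs hkey T' hA

theorem not_cen_of_mem {X : Subgroup G} {x : G} (hXC : ∀ x ∈ X, x ∈ centralizer (E : Set G) → x = 1)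
    (hx : x ∈ X) (hx1 : x ≠ 1) : x ∉ centralizer (E : Set G) := fun h => hx1 (hXC x hx h)

theorem card_ne_bot {X : Subgroup G} (hX : Nat.card X = p ^ 2) : X ≠ ⊥ := by
  have hpp : p.Prime := Fact.out
  intro h
  rw [h, Subgroup.card_bot] at hX
  have := Nat.one_lt_pow (two_ne_zero) hpp.one_lt
  omega

/-- `B(T')` normalizes a subnormal block, for every Sylow subgroup `T'`. -/
theorem baumann_le_normalizer (hG : centralizer (pCore p G : Set G) ≤ pCore p G)
    (hE : IsBaumannBlock p (T : Subgroup G) E) (hEs : E.IsSubnormal) (hkey : KeyP p E)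
    (T' : Sylow p G) : baumannSubgroupOf p (T' : Subgroup G) ≤ normalizer (E : Set G) := by
  have hJp : IsPGroup p (jOf p (T' : Subgroup G)) := T'.isPGroup'.to_le (jOf_le p _)
  obtain ⟨X, hXW, hXc, hJX, hXC⟩ := hkey _ hJp (jOf_le_normalizer hG hE hEs hkey T')
  obtain ⟨x, hx, hx1, hfix⟩ := exists_fixed hJp (IsPGroup.of_card hXc) hJX (card_ne_bot hXc)
  have hxW := hXW hx
  have hxV := wE_le_vV₀ hG hE hxW
  have hxT : x ∈ (T' : Subgroup G) :=
    (omegaOneCenter_le _ |>.trans (Cfsg.Agent.Lib.Core.Basic.pCore_le_sylow T')) hxV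
  have hxp : x ^ p = 1 := (mem_omegaOneCenter.1 hxV).2.2
  have hcomm : ∀ j ∈ jOf p (T' : Subgroup G), j * x = x * j := by
    intro j hj
    calc j * x = (j * x * j⁻¹) * j := by group
      _ = x * j := by rw [hfix j hj]
  have hxA : ∀ A, IsMaxIn p (T' : Subgroup G) A → x ∈ A := fun A hA =>
    hA.mem_of_commute hxT hxp (fun a ha => hcomm a (hA.le_jOf ha))
  obtain ⟨A₀, hA₀⟩ := exists_isMaxIn p (T' : Subgroup G)
  have hxZ : x ∈ omegaOne p (zjOf p (T' : Subgroup G)) := by
    refine subset_closure ⟨?_, hxp⟩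
    refine mem_inf.2 ⟨hA₀.le_jOf (hxA A₀ hA₀), ?_⟩
    rw [mem_centralizer_iff]
    exact hcomm
  intro b hb
  rw [baumann_eq] at hb
  have hbx : x * b = b * x := mem_centralizer_iff.1 (mem_inf.1 hb).2 x hxZ
  by_contra hbN
  have h1 := conj_not_normalizer hG hE hEs hbN (wE_le_E E hxW)
  have h2 : b * x * b⁻¹ = x := by
    rw [← hbx]
    group
  rw [h2] at h1
  exact hx1 (hXC x hx h1)

theorem baumannSubgroup_le (hG : centralizer (pCore p G : Set G) ≤ pCore p G)
    (hE : IsBaumannBlock p (T : Subgroup G) E) (hEs : E.IsSubnormal) (hkey : KeyP p E) :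
    baumannSubgroup p G ≤ normalizer (E : Set G) :=
  iSup_le fun T' => baumann_le_normalizer hG hE hEs hkey T'

end Main

/-- Blocks lie in the Baumann subgroup. -/
theorem block_le_baumann {T : Sylow p G} {F : Subgroup G} (hF : IsBaumannBlock p (T : Subgroup G) F) :
    F ≤ baumannSubgroup p G := by
  have hle : ∀ T' : Sylow p G, baumannSubgroupOf p (T' : Subgroup G) ≤ baumannSubgroup p G :=
    fun T' => le_iSup (fun T' : Sylow p G => baumannSubgroupOf p (T' : Subgroup G)) T'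
  rw [← hF.2.1, commutator_le]
  intro f hf b hb
  rw [commutatorElement_def]
  refine mul_mem ?_ (inv_mem (hle T hb))
  have h1 : f * b * f⁻¹ ∈ cj f (baumannSubgroupOf p (T : Subgroup G)) := conj_mem_cj hb
  rw [cj_baumann] at h1
  exact hle (f • T) h1

/-- Two Sylow subgroups with the first Baumann subgroup in the second have equal Baumann subgroups. -/
theorem baumann_eq_of_le (T₁ T₂ : Sylow p G)
    (h : baumannSubgroupOf p (T₁ : Subgroup G) ≤ (T₂ : Subgroup G)) :
    baumannSubgroupOf p (T₂ : Subgroup G) = baumannSubgroupOf p (T₁ : Subgroup G) := by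
  have hJ : jOf p (T₁ : Subgroup G) ≤ (T₂ : Subgroup G) := (jOf_le_baumann _).trans h
  have hJJ : jOf p (T₂ : Subgroup G) = jOf p (T₁ : Subgroup G) := jOf_of_le T₁ T₂.isPGroup' hJ
  have hZ : zjOf p (T₂ : Subgroup G) = zjOf p (T₁ : Subgroup G) := by
    rw [zjOf, zjOf, hJJ]
  apply eq_baumann_of_le T₁ (T₂.isPGroup'.to_le (baumann_le _))
  · rw [← hJJ]
    exact (baumann_le _).trans (fun t ht => normalizer_le_jOf _ (le_normalizer ht))
  · rw [← hZ, baumann_eq]
    exact inf_le_right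
  · rw [baumann_eq (T := (T₂ : Subgroup G)), hZ]
    refine le_inf h ?_
    rw [baumann_eq]
    exact inf_le_right

/-- Two `p`-subgroups of a subgroup are conjugate into one Sylow. -/
theorem exists_conj_baumann {N : Subgroup G} (T₁ T₂ : Sylow p G)
    (h₁ : baumannSubgroupOf p (T₁ : Subgroup G) ≤ N)
    (h₂ : baumannSubgroupOf p (T₂ : Subgroup G) ≤ N) :
    ∃ h ∈ N, cj h (baumannSubgroupOf p (T₁ : Subgroup G)) = baumannSubgroupOf p (T₂ : Subgroup G) := by
  have hB₁ : IsPGroup p ((baumannSubgroupOf p (T₁ : Subgroup G)).subgroupOf N) :=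
    (T₁.isPGroup'.to_le (baumann_le _)).comap_subtype
  have hB₂ : IsPGroup p ((baumannSubgroupOf p (T₂ : Subgroup G)).subgroupOf N) :=
    (T₂.isPGroup'.to_le (baumann_le _)).comap_subtype
  obtain ⟨S₁, hS₁⟩ := hB₁.exists_le_sylow
  obtain ⟨S₂, hS₂⟩ := hB₂.exists_le_sylow
  obtain ⟨h, hh⟩ := MulAction.exists_smul_eq ↥N S₁ S₂
  refine ⟨h, h.2, ?_⟩
  have hmap : (S₂ : Subgroup ↥N).map N.subtype ≤ (S₂ : Subgroup ↥N).map N.subtype := le_rfl
  have hSp : IsPGroup p ((S₂ : Subgroup ↥N).map N.subtype) := S₂.isPGroup'.map _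
  obtain ⟨T'', hT''⟩ := hSp.exists_le_sylow
  have hle₂ : baumannSubgroupOf p (T₂ : Subgroup G) ≤ (T'' : Subgroup G) := by
    intro x hx
    apply hT''
    exact ⟨⟨x, h₂ hx⟩, hS₂ (mem_subgroupOf.2 hx), rfl⟩
  have hle₁ : cj (h : G) (baumannSubgroupOf p (T₁ : Subgroup G)) ≤ (T'' : Subgroup G) := by
    rintro _ ⟨x, hx, rfl⟩
    apply hT''
    have hxS : (⟨x, h₁ hx⟩ : ↥N) ∈ (S₁ : Subgroup ↥N) := hS₁ (mem_subgroupOf.2 hx)
    have h3 : h * ⟨x, h₁ hx⟩ * h⁻¹ ∈ (S₂ : Subgroup ↥N) := by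
      rw [← hh, Sylow.coe_subgroup_smul]
      exact ⟨_, hxS, rfl⟩
    exact ⟨_, h3, rfl⟩
  have e₁ : cj (h : G) (baumannSubgroupOf p (T₁ : Subgroup G)) =
      baumannSubgroupOf p (((h : G) • T₁ : Sylow p G) : Subgroup G) := cj_baumann _ _
  rw [e₁] at hle₁ ⊢
  rw [← baumann_eq_of_le T₂ T'' hle₂, baumann_eq_of_le _ T'' hle₁]

/-- Being a block depends on `T` only through `B(T)` and `Ω₁(Z(T))`. -/
theorem block_congr {T₁ T₂ E : Subgroup G} (h : IsBaumannBlock p T₁ E)
    (hB : baumannSubgroupOf p T₁ = baumannSubgroupOf p T₂)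
    (hd : ⁅E, omegaOneCenter p T₂⁆ ≠ ⊥) : IsBaumannBlock p T₂ E := by
  obtain ⟨h1, h2, h3, h4, h5⟩ := h
  refine ⟨h1, hB ▸ h2, h3, hd, ?_⟩
  rcases h5 with ⟨F, i1, i2, n, hF, hiso, hs, hq | ⟨hp, hs2, hQQ, hfr, hZ, hcard, hnq⟩⟩ | h
  · exact Or.inl ⟨F, i1, i2, n, hF, hiso, hs, Or.inl hq⟩
  · exact Or.inl ⟨F, i1, i2, n, hF, hiso, hs, Or.inr ⟨hp, hs2, hQQ, hfr, hZ, hcard,
      fun b hb => hnq b (hB ▸ hb)⟩⟩
  · exact Or.inr h

section Step3

variable {T : Sylow p G} {E : Subgroup G}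

theorem comm_center_ne (hG : centralizer (pCore p G : Set G) ≤ pCore p G)
    (hE : IsBaumannBlock p (T : Subgroup G) E) (hEs : E.IsSubnormal) (hkey : KeyP p E)
    (T' : Sylow p G) : ⁅E, omegaOneCenter p (T' : Subgroup G)⁆ ≠ ⊥ := by
  set R : Subgroup G := (T' : Subgroup G) ⊓ normalizer (E : Set G) with hR
  have hRp : IsPGroup p R := T'.isPGroup'.to_le inf_le_left
  obtain ⟨X, hXW, hXc, hRX, hXC⟩ := hkey R hRp inf_le_right
  obtain ⟨x, hx, hx1, hfix⟩ := exists_fixed hRp (IsPGroup.of_card hXc) hRX (card_ne_bot hXc)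
  have hxW := hXW hx
  have hxV := wE_le_vV₀ hG hE hxW
  have hVc : ∀ a ∈ VV₀ p G, ∀ b ∈ VV₀ p G, a * b = b * a := fun a ha b hb =>
    vV₀_central ha (omegaOneCenter_le _ hb)
  obtain ⟨y, hyV, hyfix, v, hv, hyv⟩ := exists_norm hVc (A := (T' : Subgroup G)) (A₁ := R) (x := x)
    inf_le_left hfix hxV (fun g _ => vV₀_normal g) (centralizer (E : Set G)) (fun t ht htR => by
      apply conj_not_normalizer hG hE hEs _ (wE_le_E E hxW)
      intro hN
      exact htR (mem_inf.2 ⟨ht, hN⟩))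
  have hVT : VV₀ p G ≤ (T' : Subgroup G) :=
    (omegaOneCenter_le _).trans (Cfsg.Agent.Lib.Core.Basic.pCore_le_sylow T')
  have hyZ : y ∈ omegaOneCenter p (T' : Subgroup G) := by
    refine mem_omegaOneCenter.2 ⟨hVT hyV, ?_, (mem_omegaOneCenter.1 hyV).2.2⟩
    rw [mem_centralizer_iff]
    intro t ht
    calc t * y = (t * y * t⁻¹) * t := by group
      _ = y * t := by rw [hyfix t ht]
  intro hbot
  rw [commutator_comm, commutator_eq_bot_iff_le_centralizer] at hbot
  have hyC : y ∈ centralizer (E : Set G) := by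
    have := hbot hyZ
    rw [mem_centralizer_iff] at this ⊢
    intro e he
    exact this e he
  apply hx1
  apply hXC x hx
  have e : x = y * v⁻¹ := by
    rw [hyv]
    group
  rw [e]
  exact mul_mem hyC (inv_mem hv)

/-- **Subnormal blocks are blocks for every Sylow subgroup.** -/
theorem block_all (hG : centralizer (pCore p G : Set G) ≤ pCore p G)
    (hE : IsBaumannBlock p (T : Subgroup G) E) (hEs : E.IsSubnormal) (hkey : KeyP p E)
    (T' : Sylow p G) : IsBaumannBlock p (T' : Subgroup G) E := by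
  obtain ⟨h, hh, hc⟩ := exists_conj_baumann T T' (baumann_le_normalizer hG hE hEs hkey T)
    (baumann_le_normalizer hG hE hEs hkey T')
  have h1 := cj_block h hE
  rw [cj_eq_of_mem hh] at h1
  refine block_congr h1 ?_ (comm_center_ne hG hE hEs hkey T')
  rw [← cj_baumann, hc]

/-- The first three assertions. -/
theorem first_three (hG : centralizer (pCore p G : Set G) ≤ pCore p G)
    (hE : IsBaumannBlock p (T : Subgroup G) E) (hEs : E.IsSubnormal) (hkey : KeyP p E) :
    E ≤ baumannSubgroup p G ∧ baumannSubgroup p G ≤ normalizer (E : Set G) ∧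
      ∀ T' : Sylow p G, IsBaumannBlock p (T' : Subgroup G) E :=
  ⟨block_le_baumann hE, baumannSubgroup_le hG hE hEs hkey, block_all hG hE hEs hkey⟩

end Step3

end Cfsg.Agent.Lib.BBlk.FF
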