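/-
Blocks: the even-weight section with total functions, the kernel of the action on `Ω / Z`, elements
acting trivially on `Ω / Z` centralize `W_E`.
-/
import Cfsg.Agent.Lib.BBlk.FF

set_option autoImplicit false
set_option linter.unusedSectionVars false
set_option linter.unusedVariables false

namespace Cfsg.Agent.Lib.BBlk.Sec

open Subgroup Cfsg Matrix
open Cfsg.Agent.Lib.LocalEven.Util
open Cfsg.Agent.Lib.LocalEven.Baumann
open Cfsg.Agent.Lib.LocalEven.BaumannBlock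
open Cfsg.Agent.Lib.LocalEven.SecIrr
open Cfsg.Agent.Lib.LocalStruct.PCoreOf
open Cfsg.Agent.Lib.FG85.BB
open Cfsg.Agent.Lib.BPair.Basic
open Cfsg.Agent.Lib.BPair.Types
open Cfsg.Agent.Lib.BPair.Comm
open scoped commutatorElement

universe u

variable {G : Type u} [Group G] [Finite G] {p : ℕ} [hp : Fact p.Prime]

/-- The even-weight module with total functions. -/
structure PermSec (n : ℕ) (E U U₀ : Subgroup G) where
  ρ : G → Equiv.Perm (Fin n)
  ψ : G → (Fin n → ZMod 2)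
  ρ_mul : ∀ x ∈ E, ∀ y ∈ E, ρ (x * y) = ρ x * ρ y
  ρ_mem : ∀ x ∈ E, ρ x ∈ alternatingGroup (Fin n)
  ρ_surj : ∀ s ∈ alternatingGroup (Fin n), ∃ x ∈ E, ρ x = s
  ψ_mul : ∀ x ∈ U, ∀ y ∈ U, ψ (x * y) = ψ x + ψ y
  ψ_sum : ∀ x ∈ U, ∑ i, ψ x i = 0
  ψ_surj : ∀ v : Fin n → ZMod 2, ∑ i, v i = 0 → ∃ x ∈ U, ψ x = v
  ψ_ker : ∀ x ∈ U, ψ x = 0 ↔ x ∈ U₀
  ψ_eq : ∀ e ∈ E, ∀ u ∈ U, ∀ i, ψ (e * u * e⁻¹) i = ψ u ((ρ e)⁻¹ i)

theorem exists_permSec {n : ℕ} {E U U₀ : Subgroup G}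
    (h : ActsAsOddPermModuleOnSection n (alternatingGroup (Fin n)) E U U₀) :
    Nonempty (PermSec n E U U₀) := by
  classical
  obtain ⟨hEU, hU₀, ρ, ψ, hρ, hsum, hsurj, hker, hact⟩ := h
  let ρ' : G → Equiv.Perm (Fin n) := fun x => if hx : x ∈ E then ρ ⟨x, hx⟩ else 1
  let ψ' : G → (Fin n → ZMod 2) := fun x => if hx : x ∈ U then Multiplicative.toAdd (ψ ⟨x, hx⟩) else 0
  have hρ' : ∀ x (hx : x ∈ E), ρ' x = ρ ⟨x, hx⟩ := fun x hx => by simp only [ρ', dif_pos hx]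
  have hψ' : ∀ x (hx : x ∈ U), ψ' x = Multiplicative.toAdd (ψ ⟨x, hx⟩) :=
    fun x hx => by simp only [ψ', dif_pos hx]
  refine ⟨⟨ρ', ψ', ?_, ?_, ?_, ?_, ?_, ?_, ?_, ?_⟩⟩
  · intro x hx y hy
    rw [hρ' _ (mul_mem hx hy), hρ' _ hx, hρ' _ hy, ← map_mul]
    rfl
  · intro x hx
    rw [hρ' _ hx, ← hρ]
    exact ⟨_, rfl⟩
  · intro s hs
    rw [← hρ] at hs
    obtain ⟨e, he⟩ := hs
    exact ⟨e, e.2, by rw [hρ' _ e.2]; exact he⟩
  · intro x hx y hy
    rw [hψ' _ (mul_mem hx hy), hψ' _ hx, hψ' _ hy]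
    have : (⟨x * y, mul_mem hx hy⟩ : ↥U) = ⟨x, hx⟩ * ⟨y, hy⟩ := rfl
    rw [this, map_mul]
    rfl
  · intro x hx
    rw [hψ' _ hx]
    exact hsum _
  · intro v hv
    obtain ⟨u, hu⟩ := hsurj v hv
    exact ⟨u, u.2, by rw [hψ' _ u.2]; exact hu⟩
  · intro x hx
    rw [hψ' _ hx, ← hker ⟨x, hx⟩]
    constructor
    · intro h
      exact Multiplicative.toAdd.injective h
    · intro h
      rw [h]
      rfl
  · intro e he u hu i
    obtain ⟨w, hw, hw'⟩ := hact ⟨e, he⟩ ⟨u, hu⟩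
    have hm : e * u * e⁻¹ ∈ U := conj_mem_of_mem_normalizer (hEU he) hu
    rw [hψ' _ hm, hρ' _ he, hψ' _ hu]
    have : (⟨e * u * e⁻¹, hm⟩ : ↥U) = w := Subtype.ext hw.symm
    rw [this, hw']

namespace PermSec

variable {n : ℕ} {E U U₀ : Subgroup G} (s : PermSec n E U U₀)

/-- The weight two vector. -/
def e₂ (i j : Fin n) : Fin n → ZMod 2 := Pi.single i 1 + Pi.single j 1

theorem sum_e₂ (i j : Fin n) : ∑ k, e₂ i j k = 0 := by
  simp only [e₂, Pi.add_apply, Finset.sum_add_distrib, Finset.sum_pi_single', Finset.mem_univ,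
    if_true]
  decide

theorem e₂_left {i j : Fin n} (h : i ≠ j) : e₂ i j i = 1 := by
  simp [e₂, Pi.single_eq_of_ne h]

theorem e₂_right {i j : Fin n} (h : i ≠ j) : e₂ i j j = 1 := by
  simp [e₂, Pi.single_eq_of_ne h.symm]

theorem e₂_other {i j k : Fin n} (h1 : k ≠ i) (h2 : k ≠ j) : e₂ i j k = 0 := by
  simp [e₂, Pi.single_eq_of_ne h1, Pi.single_eq_of_ne h2]

/-- A permutation fixing all even vectors is trivial. -/
theorem perm_eq_one (hn : 3 ≤ n) {σ : Equiv.Perm (Fin n)}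
    (h : ∀ v : Fin n → ZMod 2, ∑ i, v i = 0 → ∀ i, v (σ⁻¹ i) = v i) : σ = 1 := by
  classical
  ext1 i
  show σ i = i
  by_contra hne
  -- pick `j ≠ i, σ i`
  obtain ⟨j, hji, hjs⟩ : ∃ j : Fin n, j ≠ i ∧ j ≠ σ i := by
    have h3 : (({i, σ i} : Finset (Fin n)) : Set (Fin n)).ncard ≤ 2 := by
      rw [Set.ncard_coe_finset]
      exact Finset.card_le_two
    obtain ⟨k, -, hk⟩ := Set.exists_mem_notMem_of_ncard_lt_ncard
      (s := (({i, σ i} : Finset (Fin n)) : Set (Fin n))) (t := Set.univ)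
      (by rw [Set.ncard_univ, Nat.card_eq_fintype_card, Fintype.card_fin]; omega)
    simp only [Finset.coe_insert, Finset.coe_singleton, Set.mem_insert_iff, Set.mem_singleton_iff,
      not_or] at hk
    exact ⟨k, hk.1, hk.2⟩
  have h1 := h (e₂ i j) (sum_e₂ i j) (σ i)
  have e0 : σ⁻¹ (σ i) = i := by simp
  rw [e0, e₂_left hji.symm, e₂_other hne (Ne.symm hjs)] at h1
  exact one_ne_zero h1

theorem card_perm_block {n : ℕ} {E : Subgroup G}
    (hiso : Nonempty (↥E ⧸ pCore p ↥E ≃* ↥(alternatingGroup (Fin n)))) :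
    Nat.card E = Nat.card (pCoreOf p E) * Nat.card (alternatingGroup (Fin n)) := by
  obtain ⟨φ⟩ := hiso
  rw [Subgroup.card_eq_card_quotient_mul_card_subgroup (pCore p ↥E), Nat.card_congr φ.toEquiv]
  have h1 : Nat.card (pCoreOf p E) = Nat.card (pCore p ↥E) := by
    show Nat.card ((pCore p ↥E).map E.subtype) = _
    exact Subgroup.card_map_of_injective E.subtype_injective
  rw [h1, mul_comm]

theorem ker_iff {Q : Subgroup G} (hn : 3 ≤ n) (hQE : Q ≤ E)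
    (hcard : Nat.card E = Nat.card Q * Nat.card (alternatingGroup (Fin n)))
    (hQ : ∀ a ∈ Q, ∀ u ∈ U, a * u * a⁻¹ * u⁻¹ ∈ U₀) (hU₀U : U₀ ≤ U) :
    ∀ e ∈ E, s.ρ e = 1 ↔ e ∈ Q := by
  classical
  have hQ1 : ∀ a ∈ Q, s.ρ a = 1 := by
    intro a ha
    apply perm_eq_one hn
    intro v hv i
    obtain ⟨u, hu, rfl⟩ := s.ψ_surj v hv
    rw [← s.ψ_eq a (hQE ha) u hu]
    have hc := hQ a ha u hu
    have h1 : a * u * a⁻¹ = (a * u * a⁻¹ * u⁻¹) * u := by group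
    rw [h1, s.ψ_mul _ (hU₀U hc) _ hu, (s.ψ_ker _ (hU₀U hc)).2 hc, zero_add]
  let f : ↥E →* Equiv.Perm (Fin n) :=
    MonoidHom.mk' (fun x => s.ρ x) (fun x y => s.ρ_mul x x.2 y y.2)
  have hrange : f.range = alternatingGroup (Fin n) := by
    ext t
    constructor
    · rintro ⟨x, rfl⟩
      exact s.ρ_mem x x.2
    · intro ht
      obtain ⟨x, hx, h⟩ := s.ρ_surj t ht
      exact ⟨⟨x, hx⟩, h⟩
  have hle : Q.subgroupOf E ≤ f.ker := fun a ha => hQ1 a (mem_subgroupOf.1 ha)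
  have hcard2 : Nat.card f.ker * Nat.card (alternatingGroup (Fin n)) = Nat.card E := by
    rw [← hrange, ← Subgroup.index_ker, Subgroup.card_mul_index]
  have hcardQ : Nat.card (Q.subgroupOf E) = Nat.card Q :=
    Nat.card_congr (subgroupOfEquivOfLe hQE).toEquiv
  have heq : Q.subgroupOf E = f.ker := by
    apply Subgroup.eq_of_le_of_card_ge hle
    have hpos : 0 < Nat.card (alternatingGroup (Fin n)) := Nat.card_pos
    rw [hcardQ]
    apply Nat.le_of_mul_le_mul_right _ hpos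
    rw [hcard2, hcard]
  intro e he
  constructor
  · intro h
    have h' : (⟨e, he⟩ : E) ∈ f.ker := h
    rw [← heq] at h'
    exact mem_subgroupOf.1 h'
  · exact hQ1 e



theorem ρ_one : s.ρ 1 = 1 := by
  have := s.ρ_mul 1 (one_mem _) 1 (one_mem _)
  rw [mul_one] at this
  exact left_eq_mul.1 this

theorem ρ_inv {x : G} (hx : x ∈ E) : s.ρ x⁻¹ = (s.ρ x)⁻¹ := by
  have := s.ρ_mul x hx x⁻¹ (inv_mem hx)
  rw [mul_inv_cancel, s.ρ_one] at this
  exact eq_inv_of_mul_eq_one_right this.symm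

theorem ρ_pow {x : G} (hx : x ∈ E) (k : ℕ) : s.ρ (x ^ k) = s.ρ x ^ k := by
  induction k with
  | zero => simp [s.ρ_one]
  | succ k ih => rw [pow_succ, s.ρ_mul _ (pow_mem hx k) _ hx, ih, pow_succ]

theorem ψ_one : s.ψ 1 = 0 := by
  have := s.ψ_mul 1 (one_mem _) 1 (one_mem _)
  rw [mul_one] at this
  exact left_eq_add.1 this

theorem ψ_inv {x : G} (hx : x ∈ U) : s.ψ x⁻¹ = - s.ψ x := by
  have := s.ψ_mul x hx x⁻¹ (inv_mem hx)
  rw [mul_inv_cancel, s.ψ_one] at this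
  exact eq_neg_of_add_eq_zero_right this.symm

theorem ψ_sub_ker {x y : G} (hx : x ∈ U) (hy : y ∈ U) (h : s.ψ x = s.ψ y) : x * y⁻¹ ∈ U₀ := by
  refine (s.ψ_ker _ (mul_mem hx (inv_mem hy))).1 ?_
  rw [s.ψ_mul _ hx _ (inv_mem hy), s.ψ_inv hy, h, add_neg_cancel]


end PermSec

section Ker

variable {T E : Subgroup G}

theorem core_comm_mem (E : Subgroup G) {a u : G} (ha : a ∈ pCoreOf p E) (hu : u ∈ OmE p E) :
    a * u * a⁻¹ * u⁻¹ ∈ ZE p E := by
  rw [← omE_comm E hu ha]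
  have : u * a * a⁻¹ * u⁻¹ = 1 := by group
  rw [this]
  exact one_mem _

/-- The kernel of the action on `Ω / Z`. -/
theorem ker_sec (hE : IsBaumannBlock p T E) {e : G} (he : e ∈ E)
    (h : ∀ u ∈ OmE p E, e * u * e⁻¹ * u⁻¹ ∈ ZE p E) : e ∈ pCoreOf p E := by
  rcases hE.2.2.2.2 with ⟨F, i1, i2, m, hF, hiso, hs, -⟩ | ⟨hp2, m, hiso, hs, hq⟩
  · obtain ⟨n⟩ := exists_natSec hs
    haveI : Finite F := Finite.of_fintype F
    rw [← ker_om n hiso e he]
    apply Subtype.ext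
    apply matrix_eq_one_of_mulVec
    intro x
    obtain ⟨u, hu, rfl⟩ := n.ψ_surj x
    rw [← n.ψ_eq e he u hu]
    have hc := h u hu
    have h1 : e * u * e⁻¹ = (e * u * e⁻¹ * u⁻¹) * u := by group
    rw [h1, n.ψ_mul _ (zE_le_omE E hc) _ hu, (n.ψ_ker _ (zE_le_omE E hc)).2 hc, zero_add]
  · rcases Nat.eq_zero_or_pos m with rfl | hm
    · exact (alt_ne_zero hE hiso).elim
    · obtain ⟨s⟩ := exists_permSec hs
      have hker := s.ker_iff (Q := pCoreOf p E) (by omega) (pCoreOf_le E)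
        (PermSec.card_perm_block hiso) (fun a ha u hu => core_comm_mem E ha hu) (zE_le_omE E)
      rw [← hker e he]
      apply PermSec.perm_eq_one (n := 2 * m + 1) (by omega)
      intro v hv i
      obtain ⟨u, hu, rfl⟩ := s.ψ_surj v hv
      rw [← s.ψ_eq e he u hu]
      have hc := h u hu
      have h1 : e * u * e⁻¹ = (e * u * e⁻¹ * u⁻¹) * u := by group
      rw [h1, s.ψ_mul _ (zE_le_omE E hc) _ hu, (s.ψ_ker _ (zE_le_omE E hc)).2 hc, zero_add]

/-- Elements of `N(E)` acting trivially on `Ω / Z` centralize `W_E`. -/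
theorem cen_of_sec (hE : IsBaumannBlock p T E) {g : G} (hgN : g ∈ normalizer (E : Set G))
    (h : ∀ u ∈ OmE p E, g * u * g⁻¹ * u⁻¹ ∈ ZE p E) : g ∈ CW p E := by
  set C₂ : Subgroup G := normalizer (E : Set G) ⊓ secTriv (OmE p E) (ZE p E) with hC₂
  have hgC : g ∈ C₂ := mem_inf.2 ⟨hgN, normalizer_le_omE E hgN, normalizer_le_zE E hgN, h⟩
  have h1 : ⁅⁅E, C₂⁆, OmE p E⁆ = ⊥ := by
    rw [commutator_eq_bot_iff_le_centralizer, commutator_le]
    intro e he c hc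
    obtain ⟨hcN, hcs⟩ := mem_inf.1 hc
    rw [mem_centralizer_iff]
    intro u hu
    have hmem : ⁅e, c⁆ ∈ pCoreOf p E := by
      have h3 : ⁅e, c⁆ ∈ E := by
        have e1 : ⁅e, c⁆ = e * (c * e⁻¹ * c⁻¹) := by
          rw [commutatorElement_def]
          group
        rw [e1]
        exact mul_mem he (conj_mem_of_mem_normalizer hcN (inv_mem he))
      have h4 : ⁅e, c⁆ ∈ secTriv (OmE p E) (ZE p E) := by
        rw [commutatorElement_def]
        refine mul_mem ?_ (inv_mem hcs)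
        exact conj_mem_secTriv (le_normalizer_omE E he) (le_normalizer_zE E he) hcs
      exact ker_sec hE h3 h4.2.2
    exact omE_comm E hu hmem
  have h2 : ⁅⁅C₂, OmE p E⁆, E⁆ = ⊥ := by
    rw [commutator_eq_bot_iff_le_centralizer, commutator_le]
    intro c hc u hu
    have hcs := (mem_inf.1 hc).2
    have h3 := hcs.2.2 u hu
    have e1 : ⁅c, u⁆ = c * u * c⁻¹ * u⁻¹ := rfl
    rw [e1]
    exact (mem_inf.1 h3).2
  have h3 : ⁅⁅OmE p E, E⁆, C₂⁆ = ⊥ := commutator_commutator_eq_bot_of_rotate h1 h2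
  rw [commutator_eq_bot_iff_le_centralizer] at h3
  have h4 := h3
  rw [mem_centralizer_iff]
  intro w hw
  have := mem_centralizer_iff.1 (h3 hw) g hgC
  exact this.symm

end Ker

end Cfsg.Agent.Lib.BBlk.Sec
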