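/-
The even-weight module of an alternating group of odd degree does not extend nontrivially by a central
subgroup: `W_E ∩ C(E) = 1` for blocks of symmetric type.
-/
import Cfsg.Agent.Lib.BBlk.Sec

set_option autoImplicit false
set_option linter.unusedSectionVars false
set_option linter.unusedVariables false

namespace Cfsg.Agent.Lib.BBlk.AltZ

open Subgroup Cfsg Matrix
open Cfsg.Agent.Lib.LocalEven.Util
open Cfsg.Agent.Lib.LocalEven.Baumann
open Cfsg.Agent.Lib.LocalEven.BaumannBlock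
open Cfsg.Agent.Lib.LocalStruct.PCoreOf
open Cfsg.Agent.Lib.FG85.BB
open Cfsg.Agent.Lib.BPair.Basic
open Cfsg.Agent.Lib.BBlk.Tools
open Cfsg.Agent.Lib.BBlk.Sec
open scoped commutatorElement

universe u

variable {G : Type u} [Group G] [Finite G] {p : ℕ} [hp : Fact p.Prime]


/-- The weight `n - 1` vectors. -/
def uv {n : ℕ} (i : Fin n) : Fin n → ZMod 2 := fun j => 1 + (Pi.single i (1 : ZMod 2) : Fin n → ZMod 2) j

theorem sum_uv {n : ℕ} (hn : Odd n) (i : Fin n) : ∑ j, uv i j = 0 := by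
  simp only [uv, Finset.sum_add_distrib, Finset.sum_pi_single', Finset.mem_univ, if_true,
    Finset.sum_const, Finset.card_univ, Fintype.card_fin, nsmul_eq_mul, mul_one]
  obtain ⟨m, rfl⟩ := hn
  push_cast
  have h2 : (2 : ZMod 2) = 0 := by decide
  rw [h2, zero_mul, zero_add]
  decide

theorem uv_comp {n : ℕ} (σ : Equiv.Perm (Fin n)) (i j : Fin n) : uv i (σ⁻¹ j) = uv (σ i) j := by
  simp only [uv, Pi.single_apply]
  congr 1
  have : σ⁻¹ j = i ↔ j = σ i := by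
    constructor
    · rintro rfl
      simp
    · rintro rfl
      simp
  simp only [this]

theorem pow_val_add {X : Type*} [CommGroup X] {t : X} (ht : t ^ 2 = 1) (a b : ZMod 2) :
    t ^ (a + b).val = t ^ a.val * t ^ b.val := by
  have h0 : ∀ a : ZMod 2, a = 0 ∨ a = 1 := by decide
  have v0 : (0 : ZMod 2).val = 0 := rfl
  have v1 : (1 : ZMod 2).val = 1 := rfl
  rcases h0 a with rfl | rfl <;> rcases h0 b with rfl | rfl
  · simp [v0]
  · simp [v0, v1]
  · simp [v0, v1]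
  · have : (1 + 1 : ZMod 2) = 0 := by decide
    rw [this, v0, v1, pow_zero, pow_one, ← pow_two, ht]

section Main

variable {T E : Subgroup G}

/-- `W_E ∩ C(E) = 1`. -/
theorem alt_cen (hE : IsBaumannBlock p T E) (hp2 : p = 2) {n : ℕ} (hn : 3 ≤ n) (hodd : Odd n)
    (s : PermSec n E (OmE p E) (ZE p E))
    (hker : ∀ e ∈ E, s.ρ e = 1 ↔ e ∈ pCoreOf p E) {y : G} (hy : y ∈ WE p E)
    (hc : y ∈ centralizer (E : Set G)) : y = 1 := by
  classical
  have hΩ2 : ∀ w ∈ OmE p E, w ^ 2 = 1 := fun w hw => by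
    have := (mem_omegaOneCenter.1 hw).2.2
    rwa [hp2] at this
  have hΩinv : ∀ w ∈ OmE p E, w⁻¹ = w := fun w hw => by
    have := hΩ2 w hw
    rw [pow_two] at this
    exact inv_eq_of_mul_eq_one_left this
  have hΩc : ∀ a ∈ OmE p E, ∀ b ∈ OmE p E, a * b = b * a := fun a ha b hb =>
    omE_comm E ha (omE_le_core E hb)
  have hEΩ : ∀ g ∈ E, ∀ w ∈ OmE p E, g * w * g⁻¹ ∈ OmE p E := fun g hg w hw =>
    conj_mem_of_mem_normalizer (le_normalizer_omE E hg) hw
  have hZΩ := zE_le_omE (p := p) E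
  haveI : NeZero n := ⟨by omega⟩
  set i₀ : Fin n := 0 with hi₀
  obtain ⟨x, hxΩ, hxψ⟩ := s.ψ_surj (uv i₀) (sum_uv hodd i₀)
  -- the stabilizer
  have hstab1 : ∀ g ∈ E, s.ρ g i₀ = i₀ → g * x * g⁻¹ * x⁻¹ ∈ ZE p E := by
    intro g hg hgi
    apply s.ψ_sub_ker (hEΩ g hg x hxΩ) hxΩ
    funext j
    rw [s.ψ_eq g hg x hxΩ, hxψ, uv_comp, hgi]
  let D : Subgroup G :=
    { carrier := {g | g ∈ E ∧ g * x * g⁻¹ = x}
      mul_mem' := by
        rintro a b ⟨ha, ha'⟩ ⟨hb, hb'⟩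
        refine ⟨mul_mem ha hb, ?_⟩
        calc a * b * x * (a * b)⁻¹ = a * (b * x * b⁻¹) * a⁻¹ := by group
          _ = x := by rw [hb', ha']
      one_mem' := ⟨one_mem _, by group⟩
      inv_mem' := by
        rintro a ⟨ha, ha'⟩
        refine ⟨inv_mem ha, ?_⟩
        calc a⁻¹ * x * a⁻¹⁻¹ = a⁻¹ * (a * x * a⁻¹) * a := by rw [ha']; group
          _ = x := by group }
  have hcycle : ∀ σ' : Equiv.Perm {j : Fin n // j ≠ i₀}, σ' ∈ alternatingGroup {j : Fin n // j ≠ i₀} →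
      ∃ g ∈ D, s.ρ g = Equiv.Perm.ofSubtype σ' := by
    intro σ' hσ'
    rw [← Equiv.Perm.closure_three_cycles_eq_alternating] at hσ'
    induction hσ' using closure_induction with
    | mem c hc =>
      have hcA : Equiv.Perm.ofSubtype c ∈ alternatingGroup (Fin n) := by
        rw [Equiv.Perm.mem_alternatingGroup, Equiv.Perm.sign_ofSubtype]
        exact hc.sign
      obtain ⟨g, hg, hgρ⟩ := s.ρ_surj _ hcA
      have hgi : s.ρ g i₀ = i₀ := by
        rw [hgρ]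
        exact Equiv.Perm.ofSubtype_apply_of_not_mem _ (by simp)
      refine ⟨g, ⟨hg, ?_⟩, hgρ⟩
      set δ := g * x * g⁻¹ * x⁻¹ with hδ
      have hδZ : δ ∈ ZE p E := hstab1 g hg hgi
      have hδg : g * δ * g⁻¹ = δ := zE_conj E hδZ hg
      have hgx : g * x * g⁻¹ = δ * x := by rw [hδ]; group
      have h3 : g ^ 3 ∈ pCoreOf p E := by
        rw [← hker _ (pow_mem hg 3), s.ρ_pow hg, hgρ, ← map_pow]
        have : c ^ 3 = 1 := by
          have := pow_orderOf_eq_one c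
          rwa [hc.orderOf] at this
        rw [this, map_one]
      have h4 : g ^ 3 * x * (g ^ 3)⁻¹ = x := by
        rw [← omE_comm E hxΩ h3]
        group
      have h5 : g ^ 3 * x * (g ^ 3)⁻¹ = δ * (δ * (δ * x)) := by
        have e1 : g ^ 3 * x * (g ^ 3)⁻¹ = g * (g * (g * x * g⁻¹) * g⁻¹) * g⁻¹ := by
          simp only [pow_succ, pow_zero, one_mul]
          group
        have e2 : ∀ a : G, g * (δ * a) * g⁻¹ = δ * (g * a * g⁻¹) := by
          intro a
          calc g * (δ * a) * g⁻¹ = (g * δ * g⁻¹) * (g * a * g⁻¹) := by group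
            _ = _ := by rw [hδg]
        rw [e1, hgx, e2, hgx, e2, e2, hgx]
      rw [h4] at h5
      have h6 : δ ^ 2 = 1 := hΩ2 δ (hZΩ hδZ)
      have h7 : δ = 1 := by
        have e3 : δ * (δ * (δ * x)) = δ * x := by
          have : δ * δ = 1 := by rw [← pow_two, h6]
          calc δ * (δ * (δ * x)) = (δ * δ) * (δ * x) := by group
            _ = δ * x := by rw [this, one_mul]
        rw [e3] at h5
        exact (mul_eq_right.1 h5.symm)
      rw [hgx, h7, one_mul]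
    | one => exact ⟨1, one_mem _, by rw [s.ρ_one, map_one]⟩
    | mul a b _ _ ha hb =>
      obtain ⟨g, hg, hg'⟩ := ha
      obtain ⟨g₂, hg₂, hg₂'⟩ := hb
      exact ⟨g * g₂, mul_mem hg hg₂, by rw [s.ρ_mul _ hg.1 _ hg₂.1, hg', hg₂', map_mul]⟩
    | inv a _ ha =>
      obtain ⟨g, hg, hg'⟩ := ha
      exact ⟨g⁻¹, inv_mem hg, by rw [s.ρ_inv hg.1, hg', map_inv]⟩
  have hstab : ∀ g ∈ E, s.ρ g i₀ = i₀ → g * x * g⁻¹ = x := by
    intro g hg hgi
    have hfix : ∀ j : Fin n, s.ρ g j ≠ i₀ ↔ j ≠ i₀ := by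
      intro j
      constructor
      · intro hj h
        apply hj
        rw [h, hgi]
      · intro hj h
        apply hj
        apply (s.ρ g).injective
        rw [h, hgi]
    let σ' : Equiv.Perm {j : Fin n // j ≠ i₀} := (s.ρ g).subtypePerm hfix
    have h1 : Equiv.Perm.ofSubtype σ' = s.ρ g :=
      Equiv.Perm.ofSubtype_subtypePerm hfix (fun j hj h => hj (by rw [h, hgi]))
    have hσ' : σ' ∈ alternatingGroup {j : Fin n // j ≠ i₀} := by
      rw [Equiv.Perm.mem_alternatingGroup, ← Equiv.Perm.sign_ofSubtype, h1]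
      exact s.ρ_mem g hg
    obtain ⟨g', hg', hg'ρ⟩ := hcycle σ' hσ'
    have hq : g'⁻¹ * g ∈ pCoreOf p E := by
      rw [← hker _ (mul_mem (inv_mem hg'.1) hg), s.ρ_mul _ (inv_mem hg'.1) _ hg, s.ρ_inv hg'.1, hg'ρ,
        h1, inv_mul_cancel]
    have h2 : (g'⁻¹ * g) * x * (g'⁻¹ * g)⁻¹ = x := by
      rw [← omE_comm E hxΩ hq]
      group
    calc g * x * g⁻¹ = g' * ((g'⁻¹ * g) * x * (g'⁻¹ * g)⁻¹) * g'⁻¹ := by group
      _ = g' * x * g'⁻¹ := by rw [h2]
      _ = x := hg'.2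
  -- transitivity
  have htrans : ∀ i : Fin n, ∃ g ∈ E, s.ρ g i₀ = i := by
    intro i
    by_cases hi : i = i₀
    · exact ⟨1, one_mem _, by rw [s.ρ_one, hi]; rfl⟩
    · obtain ⟨k, hki, hki₀⟩ : ∃ k : Fin n, k ≠ i ∧ k ≠ i₀ := by
        have h3 : (({i, i₀} : Finset (Fin n)) : Set (Fin n)).ncard ≤ 2 := by
          rw [Set.ncard_coe_finset]
          exact Finset.card_le_two
        obtain ⟨k, -, hk⟩ := Set.exists_mem_notMem_of_ncard_lt_ncard
          (s := (({i, i₀} : Finset (Fin n)) : Set (Fin n))) (t := Set.univ)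
          (by rw [Set.ncard_univ, Nat.card_eq_fintype_card, Fintype.card_fin]; omega)
        simp only [Finset.coe_insert, Finset.coe_singleton, Set.mem_insert_iff,
          Set.mem_singleton_iff, not_or] at hk
        exact ⟨k, hk.1, hk.2⟩
      have hσ : Equiv.swap i₀ i * Equiv.swap i k ∈ alternatingGroup (Fin n) := by
        rw [Equiv.Perm.mem_alternatingGroup, Equiv.Perm.sign_mul, Equiv.Perm.sign_swap (Ne.symm hi),
          Equiv.Perm.sign_swap (Ne.symm hki)]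
        decide
      obtain ⟨g, hg, hgρ⟩ := s.ρ_surj _ hσ
      refine ⟨g, hg, ?_⟩
      rw [hgρ]
      show Equiv.swap i₀ i (Equiv.swap i k i₀) = i
      rw [Equiv.swap_apply_of_ne_of_ne (Ne.symm hi) (Ne.symm hki₀), Equiv.swap_apply_left]
  choose g hgE hgi using htrans
  let xx : Fin n → G := fun i => g i * x * (g i)⁻¹
  have hxxΩ : ∀ i, xx i ∈ OmE p E := fun i => hEΩ _ (hgE i) x hxΩ
  have hxxψ : ∀ i, s.ψ (xx i) = uv i := by
    intro i
    funext j
    show s.ψ (g i * x * (g i)⁻¹) j = _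
    rw [s.ψ_eq _ (hgE i) x hxΩ, hxψ, uv_comp, hgi]
  have hxxconj : ∀ h ∈ E, ∀ i, h * xx i * h⁻¹ = xx (s.ρ h i) := by
    intro h hh i
    have hm : (g (s.ρ h i))⁻¹ * (h * g i) ∈ E := mul_mem (inv_mem (hgE _)) (mul_mem hh (hgE i))
    have h1 := hstab _ hm (by
      rw [s.ρ_mul _ (inv_mem (hgE _)) _ (mul_mem hh (hgE i)), s.ρ_mul _ hh _ (hgE i), s.ρ_inv (hgE _)]
      show (s.ρ (g (s.ρ h i)))⁻¹ (s.ρ h (s.ρ (g i) i₀)) = i₀
      rw [hgi i, Equiv.Perm.inv_eq_iff_eq, hgi])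
    show h * (g i * x * (g i)⁻¹) * h⁻¹ = g (s.ρ h i) * x * (g (s.ρ h i))⁻¹
    calc h * (g i * x * (g i)⁻¹) * h⁻¹ =
        g (s.ρ h i) * (((g (s.ρ h i))⁻¹ * (h * g i)) * x * ((g (s.ρ h i))⁻¹ * (h * g i))⁻¹) *
          (g (s.ρ h i))⁻¹ := by group
      _ = _ := by rw [h1]
  -- the retraction
  letI iC : CommGroup ↥(OmE p E) := commOf (OmE p E) hΩc
  let xΩ : Fin n → ↥(OmE p E) := fun i => ⟨xx i, hxxΩ i⟩
  have hxΩ2 : ∀ i, xΩ i ^ 2 = 1 := fun i => Subtype.ext (hΩ2 _ (hxxΩ i))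
  let Y : G → ↥(OmE p E) := fun w => ∏ i, xΩ i ^ (s.ψ w i).val
  have hYmul : ∀ a ∈ OmE p E, ∀ b ∈ OmE p E, Y (a * b) = Y a * Y b := by
    intro a ha b hb
    show ∏ i, xΩ i ^ (s.ψ (a * b) i).val = (∏ i, xΩ i ^ (s.ψ a i).val) * ∏ i, xΩ i ^ (s.ψ b i).val
    rw [← Finset.prod_mul_distrib]
    apply Finset.prod_congr rfl
    intro i _
    rw [s.ψ_mul a ha b hb]
    exact pow_val_add (hxΩ2 i) _ _
  have hYker : ∀ a, s.ψ a = 0 → Y a = 1 := by
    intro a ha
    show ∏ i, xΩ i ^ (s.ψ a i).val = 1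
    rw [ha]
    apply Finset.prod_eq_one
    intro i _
    rw [Pi.zero_apply, ZMod.val_zero, pow_zero]
  have hψprod : ∀ (S : Finset (Fin n)) (t : Fin n → ↥(OmE p E)),
      s.ψ ((∏ i ∈ S, t i : ↥(OmE p E)) : G) = ∑ i ∈ S, s.ψ (t i : G) := by
    intro S t
    induction S using Finset.induction_on with
    | empty =>
      rw [Finset.prod_empty, Finset.sum_empty]
      exact s.ψ_one
    | insert a S ha ih =>
      rw [Finset.prod_insert ha, Finset.sum_insert ha, ← ih]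
      exact s.ψ_mul _ (t a).2 _ (∏ i ∈ S, t i : ↥(OmE p E)).2
  have hψY : ∀ w ∈ OmE p E, s.ψ (Y w : G) = s.ψ w := by
    intro w hw
    show s.ψ ((∏ i, xΩ i ^ (s.ψ w i).val : ↥(OmE p E)) : G) = _
    rw [hψprod]
    funext j
    rw [Finset.sum_apply]
    have hterm : ∀ i, s.ψ ((xΩ i ^ (s.ψ w i).val : ↥(OmE p E)) : G) j =
        s.ψ w i + s.ψ w i * (Pi.single i (1 : ZMod 2) : Fin n → ZMod 2) j := by
      intro i
      have h0 : ∀ a : ZMod 2, a = 0 ∨ a = 1 := by decide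
      rcases h0 (s.ψ w i) with h | h
      · rw [h]
        have : ((xΩ i ^ (0 : ZMod 2).val : ↥(OmE p E)) : G) = 1 := by
          rw [ZMod.val_zero, pow_zero]
          rfl
        rw [this, s.ψ_one]
        simp
      · rw [h]
        have : ((xΩ i ^ (1 : ZMod 2).val : ↥(OmE p E)) : G) = xx i := by
          show ((xΩ i ^ 1 : ↥(OmE p E)) : G) = xx i
          rw [pow_one]
        rw [this, hxxψ]
        simp [uv]
    simp only [hterm]
    rw [Finset.sum_add_distrib, s.ψ_sum w hw, zero_add]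
    have : ∀ i, s.ψ w i * (Pi.single i (1 : ZMod 2) : Fin n → ZMod 2) j = if i = j then s.ψ w i else 0 := by
      intro i
      by_cases hij : i = j
      · subst hij
        simp
      · have : (Pi.single i (1 : ZMod 2) : Fin n → ZMod 2) j = 0 := Pi.single_eq_of_ne (Ne.symm hij) _
        rw [this, mul_zero, if_neg hij]
    simp only [this]
    simp
  have hYdec : ∀ w ∈ OmE p E, ∃ ζ ∈ ZE p E, (Y w : G) = w * ζ := by
    intro w hw
    have h1 := s.ψ_sub_ker (Y w).2 hw (hψY w hw)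
    refine ⟨_, h1, ?_⟩
    rw [← mul_assoc, hΩc w hw _ (Y w).2]
    group
  have hYconj : ∀ h ∈ E, ∀ w ∈ OmE p E, (Y (h * w * h⁻¹) : G) = h * (Y w : G) * h⁻¹ := by
    intro h hh w hw
    let c : ↥(OmE p E) →* ↥(OmE p E) :=
      { toFun := fun v => ⟨h * v * h⁻¹, hEΩ h hh v v.2⟩
        map_one' := by
          apply Subtype.ext
          show h * ((1 : ↥(OmE p E)) : G) * h⁻¹ = 1
          simp
        map_mul' := by
          intro u v
          apply Subtype.ext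
          show h * ((u * v : ↥(OmE p E)) : G) * h⁻¹ = (h * u * h⁻¹) * (h * v * h⁻¹)
          simp only [Subgroup.coe_mul]
          group }
    have h1 : Y (h * w * h⁻¹) = c (Y w) := by
      show ∏ i, xΩ i ^ (s.ψ (h * w * h⁻¹) i).val = c (∏ i, xΩ i ^ (s.ψ w i).val)
      rw [map_prod]
      rw [← Equiv.prod_comp (s.ρ h)]
      apply Finset.prod_congr rfl
      intro i _
      rw [map_pow, s.ψ_eq h hh w hw]
      have e1 : (s.ρ h)⁻¹ (s.ρ h i) = i := by simp
      rw [e1]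
      congr 1
      apply Subtype.ext
      exact (hxxconj h hh i).symm
    rw [h1]
    rfl
  let K : Subgroup G :=
    { carrier := {w | w ∈ OmE p E ∧ (Y w : G) = w}
      mul_mem' := by
        rintro a b ⟨ha, ha'⟩ ⟨hb, hb'⟩
        refine ⟨mul_mem ha hb, ?_⟩
        rw [hYmul a ha b hb, Subgroup.coe_mul, ha', hb']
      one_mem' := ⟨one_mem _, by
        rw [hYker 1 s.ψ_one]
        rfl⟩
      inv_mem' := by
        rintro a ⟨ha, ha'⟩
        rw [Set.mem_setOf_eq, hΩinv a ha]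
        exact ⟨ha, ha'⟩ }
  have hWK : WE p E ≤ K := by
    rw [commutator_le]
    intro w hw h hh
    have e1 : ⁅w, h⁆ = w * (h * w * h⁻¹) := by
      rw [commutatorElement_def]
      have := hΩinv w hw
      calc w * h * w⁻¹ * h⁻¹ = w * (h * w⁻¹ * h⁻¹) := by group
        _ = w * (h * w * h⁻¹) := by rw [this]
    rw [e1]
    have hhw := hEΩ h hh w hw
    refine ⟨mul_mem hw hhw, ?_⟩
    obtain ⟨ζ, hζ, hY⟩ := hYdec w hw
    rw [hYmul w hw _ hhw, Subgroup.coe_mul, hYconj h hh w hw, hY]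
    have hζc : h * ζ * h⁻¹ = ζ := zE_conj E hζ hh
    have e2 : h * (w * ζ) * h⁻¹ = (h * w * h⁻¹) * ζ := by
      calc h * (w * ζ) * h⁻¹ = (h * w * h⁻¹) * (h * ζ * h⁻¹) := by group
        _ = _ := by rw [hζc]
    rw [e2]
    have hc1 : ζ * (h * w * h⁻¹) = (h * w * h⁻¹) * ζ := hΩc _ (hZΩ hζ) _ hhw
    have hζ2 : ζ * ζ = 1 := by rw [← pow_two, hΩ2 ζ (hZΩ hζ)]
    calc w * ζ * ((h * w * h⁻¹) * ζ) = w * (ζ * (h * w * h⁻¹)) * ζ := by group
      _ = w * ((h * w * h⁻¹) * ζ) * ζ := by rw [hc1]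
      _ = w * (h * w * h⁻¹) * (ζ * ζ) := by group
      _ = w * (h * w * h⁻¹) := by rw [hζ2, mul_one]
  obtain ⟨hyΩ, hyY⟩ := hWK hy
  have hyZ : y ∈ ZE p E := mem_inf.2 ⟨hyΩ, hc⟩
  have := hYker y ((s.ψ_ker y hyΩ).2 hyZ)
  rw [this] at hyY
  exact hyY.symm

end Main

end Cfsg.Agent.Lib.BBlk.AltZ
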