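/-
The key property for blocks in characteristic two of `SL₂` type: `p`-subgroups normalizing the block
normalize a four-subgroup of `W_E` meeting `C(E)` trivially.
-/
import Cfsg.Agent.Lib.BBlk.AltZ

set_option autoImplicit false
set_option linter.unusedSectionVars false
set_option linter.unusedVariables false
set_option maxHeartbeats 400000

namespace Cfsg.Agent.Lib.BBlk.Sl2X

open Subgroup Cfsg Matrix
open Cfsg.Agent.Lib.LocalEven.Util
open Cfsg.Agent.Lib.LocalEven.Baumann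
open Cfsg.Agent.Lib.LocalEven.BaumannBlock
open Cfsg.Agent.Lib.LocalEven.SecIrr
open Cfsg.Agent.Lib.LocalStruct.PCoreOf
open Cfsg.Agent.Lib.FG85.BB
open Cfsg.Agent.Lib.BPair.Basic
open Cfsg.Agent.Lib.BPair.Small
open Cfsg.Agent.Lib.BPair.Comm
open Cfsg.Agent.Lib.BBlk.Tools
open Cfsg.Agent.Lib.BBlk.FF
open Cfsg.Agent.Lib.PReduced.RelNorm (mem_normalizer_inf mem_normalizer_sup mem_normalizer_centralizer)
open scoped commutatorElement Pointwise

universe u

variable {G : Type u} [Group G] [Finite G] {p : ℕ} [hp : Fact p.Prime]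

/-- A norm argument: in a coprime action through a quotient, commutators which are fixed are trivial. -/
theorem norm_inf {Ω Y M S : Subgroup G} (hΩc : ∀ a ∈ Ω, ∀ b ∈ Ω, a * b = b * a)
    (hΩe : ∀ a ∈ Ω, a ^ p = 1) (hYΩ : Y ≤ Ω) (hMΩ : M ≤ normalizer (Ω : Set G))
    (hMY : M ≤ normalizer (Y : Set G)) (hSM : S ≤ M) (hMS : M ≤ normalizer (S : Set G))
    (hfix : ∀ s ∈ S, ∀ y ∈ Y, s * y * s⁻¹ = y) (hco : ¬ p ∣ (S.subgroupOf M).index) {y : G}
    (hy : y ∈ (⁅Y, M⁆ : Subgroup G)) (hyc : ∀ m ∈ M, m * y * m⁻¹ = y) : y = 1 := by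
  classical
  have hpp : p.Prime := Fact.out
  letI iC : CommGroup ↥Ω := commOf Ω hΩc
  set L : Subgroup ↥M := S.subgroupOf M with hL
  haveI hLn : L.Normal := by
    constructor
    intro x hx g
    rw [hL, mem_subgroupOf] at hx ⊢
    exact conj_mem_of_mem_normalizer (hMS g.2) hx
  letI iF : Fintype (↥M ⧸ L) := Fintype.ofFinite _
  let rep : ↥M ⧸ L → ↥M := fun i => i.out
  have hrep : ∀ i : ↥M ⧸ L, ((rep i : ↥M) : ↥M ⧸ L) = i := fun i => Quotient.out_eq' i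
  let c : ↥M → ↥Ω →* ↥Ω := fun m =>
    { toFun := fun v => ⟨(m : G) * v * (m : G)⁻¹, conj_mem_of_mem_normalizer (hMΩ m.2) v.2⟩
      map_one' := by
        apply Subtype.ext
        show (m : G) * ((1 : Ω) : G) * (m : G)⁻¹ = 1
        simp
      map_mul' := by
        intro u v
        apply Subtype.ext
        show (m : G) * ((u * v : Ω) : G) * (m : G)⁻¹ = ((m : G) * u * (m : G)⁻¹) * ((m : G) * v * (m : G)⁻¹)
        simp only [Subgroup.coe_mul]
        group }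
  let N : ↥Ω →* ↥Ω :=
    { toFun := fun v => ∏ i, c (rep i) v
      map_one' := by simp
      map_mul' := by
        intro u v
        simp only [map_mul]
        exact Finset.prod_mul_distrib }
  have hNconj : ∀ (m : ↥M) (w : ↥Ω), (w : G) ∈ Y → N (c m w) = N w := by
    intro m w hw
    show ∏ i, c (rep i) (c m w) = ∏ i, c (rep i) w
    rw [← Equiv.prod_comp (Equiv.mulRight ((m : ↥M) : ↥M ⧸ L)) (fun i => c (rep i) w)]
    apply Finset.prod_congr rfl
    intro i _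
    set j := (Equiv.mulRight ((m : ↥M) : ↥M ⧸ L)) i with hj
    have h1 : ((rep i * m : ↥M) : ↥M ⧸ L) = ((rep j : ↥M) : ↥M ⧸ L) := by
      rw [hrep, hj]
      conv_lhs => rw [QuotientGroup.mk_mul, hrep]
      rfl
    rw [QuotientGroup.eq] at h1
    have h2 : (((rep i * m)⁻¹ * rep j : ↥M) : G) ∈ S := mem_subgroupOf.1 h1
    set s : G := (((rep i * m)⁻¹ * rep j : ↥M) : G) with hs
    have h3 := hfix s⁻¹ (inv_mem h2) w hw
    apply Subtype.ext
    show (rep i : G) * ((m : G) * w * (m : G)⁻¹) * (rep i : G)⁻¹ = (rep j : G) * w * (rep j : G)⁻¹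
    have e1 : (rep j : G) = (rep i : G) * m * s := by
      rw [hs]
      simp only [Subgroup.coe_mul, Subgroup.coe_inv]
      group
    rw [e1]
    calc (rep i : G) * ((m : G) * w * (m : G)⁻¹) * (rep i : G)⁻¹
        = ((rep i : G) * m * s) * (s⁻¹ * w * s⁻¹⁻¹) * ((rep i : G) * m * s)⁻¹ := by group
      _ = _ := by rw [h3]
  have hYM : (⁅Y, M⁆ : Subgroup G) ≤ (N.ker).map Ω.subtype := by
    rw [commutator_le]
    intro w hw m hm
    have hwΩ := hYΩ hw
    have hinv : w⁻¹ ∈ Y := inv_mem hw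
    have hcm := conj_mem_of_mem_normalizer (hMΩ hm) (inv_mem hwΩ)
    have e1 : ⁅w, m⁆ = w * (m * w⁻¹ * m⁻¹) := by
      rw [commutatorElement_def]
      group
    rw [e1]
    refine ⟨⟨w, hwΩ⟩ * ⟨m * w⁻¹ * m⁻¹, hcm⟩, ?_, rfl⟩
    show N (⟨w, hwΩ⟩ * ⟨m * w⁻¹ * m⁻¹, hcm⟩) = 1
    rw [map_mul]
    have h2 : N ⟨m * w⁻¹ * m⁻¹, hcm⟩ = N ⟨w⁻¹, inv_mem hwΩ⟩ :=
      hNconj ⟨m, hm⟩ ⟨w⁻¹, inv_mem hwΩ⟩ hinv
    rw [h2]
    have e2 : (⟨w⁻¹, inv_mem hwΩ⟩ : ↥Ω) = (⟨w, hwΩ⟩ : ↥Ω)⁻¹ := rfl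
    rw [e2, map_inv, mul_inv_cancel]
  obtain ⟨⟨y', hy'⟩, hker, rfl⟩ := hYM hy
  have hker' : N ⟨y', hy'⟩ = 1 := hker
  have hprod : N ⟨y', hy'⟩ = ⟨y', hy'⟩ ^ (Fintype.card (↥M ⧸ L)) := by
    show ∏ i, c (rep i) ⟨y', hy'⟩ = _
    have : ∀ i, c (rep i) ⟨y', hy'⟩ = ⟨y', hy'⟩ := fun i =>
      Subtype.ext (hyc _ (rep i).2)
    simp only [this, Finset.prod_const, Finset.card_univ]
  rw [hker'] at hprod
  have h1 : y' ^ (Fintype.card (↥M ⧸ L)) = 1 := by
    have := congrArg Subtype.val hprod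
    simpa using this.symm
  have h2 : y' ^ p = 1 := hΩe y' hy'
  have hcop : Nat.Coprime (Fintype.card (↥M ⧸ L)) p := by
    rw [Nat.coprime_comm, Nat.Prime.coprime_iff_not_dvd hpp]
    rw [← Nat.card_eq_fintype_card]
    exact hco
  have h3 : orderOf y' ∣ Nat.gcd (Fintype.card (↥M ⧸ L)) p :=
    Nat.dvd_gcd (orderOf_dvd_of_pow_eq_one h1) (orderOf_dvd_of_pow_eq_one h2)
  rw [hcop] at h3
  exact orderOf_eq_one_iff.1 (Nat.dvd_one.1 h3)

/-- A `p`-group normalizing a subgroup normalizes a Sylow subgroup of it. -/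
theorem exists_sylow_fixed {R E : Subgroup G} (hR : IsPGroup p R) (hRE : R ≤ normalizer (E : Set G)) :
    ∃ S₀ : Subgroup G, S₀ ≤ E ∧ IsPGroup p S₀ ∧
      (∀ S₁ : Subgroup G, S₁ ≤ E → IsPGroup p S₁ → S₀ ≤ S₁ → S₁ ≤ S₀) ∧
      ¬ p ∣ S₀.relIndex E ∧ R ≤ normalizer (S₀ : Set G) := by
  classical
  have hpp : p.Prime := Fact.out
  letI act : MulDistribMulAction ↥R ↥E :=
    { smul := fun r e => ⟨(r : G) * e * (r : G)⁻¹, conj_mem_of_mem_normalizer (hRE r.2) e.2⟩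
      one_smul := fun e => Subtype.ext (by
        show ((1 : R) : G) * e * ((1 : R) : G)⁻¹ = e
        simp)
      mul_smul := fun a b e => Subtype.ext (by
        show ((a * b : R) : G) * e * ((a * b : R) : G)⁻¹ = (a : G) * ((b : G) * e * (b : G)⁻¹) * (a : G)⁻¹
        simp only [Subgroup.coe_mul]
        group)
      smul_mul := fun r a b => Subtype.ext (by
        show (r : G) * ((a * b : E) : G) * (r : G)⁻¹ = ((r : G) * a * (r : G)⁻¹) * ((r : G) * b * (r : G)⁻¹)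
        simp only [Subgroup.coe_mul]
        group)
      smul_one := fun r => Subtype.ext (by
        show (r : G) * ((1 : E) : G) * (r : G)⁻¹ = 1
        simp) }
  have h1 := hR.card_modEq_card_fixedPoints (Sylow p ↥E)
  have h2 : Nat.card (Sylow p ↥E) ≡ 1 [MOD p] := card_sylow_modEq_one p ↥E
  have h3 : Nat.card (MulAction.fixedPoints ↥R (Sylow p ↥E)) ≡ 1 [MOD p] := h1.symm.trans h2
  have hne : Nonempty (MulAction.fixedPoints ↥R (Sylow p ↥E)) := by
    by_contra hcon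
    rw [not_nonempty_iff] at hcon
    rw [Nat.card_of_isEmpty] at h3
    have h4 : p ∣ 1 := (Nat.modEq_zero_iff_dvd.1 h3.symm)
    exact hpp.one_lt.ne' (Nat.dvd_one.1 h4)
  obtain ⟨⟨P, hP⟩⟩ := hne
  refine ⟨(P : Subgroup ↥E).map E.subtype, ?_, P.isPGroup'.map _, ?_, ?_, ?_⟩
  · rintro _ ⟨x, -, rfl⟩
    exact x.2
  · intro S₁ hS₁E hS₁p hle x hx
    have hq : IsPGroup p (S₁.subgroupOf E) := hS₁p.comap_subtype
    have hle' : (P : Subgroup ↥E) ≤ S₁.subgroupOf E := by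
      intro y hy
      rw [mem_subgroupOf]
      exact hle ⟨y, hy, rfl⟩
    have heq := P.3 hq hle'
    have : (⟨x, hS₁E hx⟩ : ↥E) ∈ (P : Subgroup ↥E) := by
      rw [← heq]
      exact mem_subgroupOf.2 hx
    exact ⟨_, this, rfl⟩
  · have e1 : ((P : Subgroup ↥E).map E.subtype).subgroupOf E = (P : Subgroup ↥E) :=
      Subgroup.comap_map_eq_self_of_injective E.subtype_injective _
    rw [Subgroup.relIndex, e1]
    exact P.not_dvd_index
  · intro r hr
    apply mem_normalizer_of_conj_le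
    rintro _ ⟨x, hx, rfl⟩
    have h4 := hP ⟨r, hr⟩
    have h5 : (⟨r, hr⟩ : ↥R) • x ∈ (((⟨r, hr⟩ : ↥R) • P : Sylow p ↥E) : Subgroup ↥E) :=
      Subgroup.smul_mem_pointwise_smul x _ (P : Subgroup ↥E) hx
    rw [h4] at h5
    exact ⟨_, h5, rfl⟩

section Twist

variable {K : Type} [Field K] {E U U₀ : Subgroup G}

theorem inv_mulVec_cancel (r : SpecialLinearGroup (Fin 2) K) (x : Fin 2 → K) :
    ((r⁻¹ : SpecialLinearGroup (Fin 2) K) : Matrix (Fin 2) (Fin 2) K) *ᵥ ((r : Matrix (Fin 2) (Fin 2) K) *ᵥ x) = x := by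
  rw [Matrix.mulVec_mulVec, ← coe_mul', inv_mul_cancel]
  exact Matrix.one_mulVec x

theorem mulVec_inv_cancel (r : SpecialLinearGroup (Fin 2) K) (x : Fin 2 → K) :
    (r : Matrix (Fin 2) (Fin 2) K) *ᵥ (((r⁻¹ : SpecialLinearGroup (Fin 2) K) : Matrix (Fin 2) (Fin 2) K) *ᵥ x) = x := by
  rw [Matrix.mulVec_mulVec, ← coe_mul', mul_inv_cancel]
  exact Matrix.one_mulVec x

/-- Change of basis. -/
def twist (n : NatSec K E U U₀) (r : SpecialLinearGroup (Fin 2) K) : NatSec K E U U₀ where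
  ρ x := r * n.ρ x * r⁻¹
  ψ x := (r : Matrix (Fin 2) (Fin 2) K) *ᵥ n.ψ x
  ρ_mul x hx y hy := by
    rw [n.ρ_mul x hx y hy]
    group
  ρ_mem x hx := by
    have : (commutator (SpecialLinearGroup (Fin 2) K)).Normal := inferInstance
    exact this.conj_mem _ (n.ρ_mem x hx) r
  ρ_surj s hs := by
    have : (commutator (SpecialLinearGroup (Fin 2) K)).Normal := inferInstance
    have h1 : r⁻¹ * s * r⁻¹⁻¹ ∈ SS K := this.conj_mem _ hs r⁻¹
    obtain ⟨x, hx, he⟩ := n.ρ_surj _ h1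
    refine ⟨x, hx, ?_⟩
    rw [he]
    group
  ψ_mul x hx y hy := by
    rw [n.ψ_mul x hx y hy, Matrix.mulVec_add]
  ψ_surj a := by
    obtain ⟨x, hx, he⟩ := n.ψ_surj (((r⁻¹ : SpecialLinearGroup (Fin 2) K) : Matrix (Fin 2) (Fin 2) K) *ᵥ a)
    exact ⟨x, hx, by rw [he, mulVec_inv_cancel]⟩
  ψ_ker x hx := by
    rw [← n.ψ_ker x hx]
    constructor
    · intro h
      have := inv_mulVec_cancel r (n.ψ x)
      rw [h, Matrix.mulVec_zero] at this
      exact this.symm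
    · intro h
      rw [h, Matrix.mulVec_zero]
  ψ_eq e he u hu := by
    rw [n.ψ_eq e he u hu]
    show _ = ((r * n.ρ e * r⁻¹ : SpecialLinearGroup (Fin 2) K) : Matrix (Fin 2) (Fin 2) K) *ᵥ _
    rw [coe_mul', coe_mul', ← Matrix.mulVec_mulVec, inv_mulVec_cancel, ← Matrix.mulVec_mulVec]

end Twist

section Even

variable {K : Type} [Field K] [Finite K] {T E : Subgroup G}

theorem cast_zero_of_dvd (hpK : p ∣ Nat.card K) : (p : K) = 0 := by
  classical
  haveI := Fintype.ofFinite K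
  have hpp : p.Prime := Fact.out
  obtain ⟨x, hx⟩ : ∃ x : K, addOrderOf x = p :=
    exists_prime_addOrderOf_dvd_card p (by rwa [← Nat.card_eq_fintype_card])
  have h1 : p • x = 0 := by
    rw [← hx]
    exact addOrderOf_nsmul_eq_zero x
  rw [nsmul_eq_mul] at h1
  have hx0 : x ≠ 0 := by
    rintro rfl
    rw [addOrderOf_zero] at hx
    exact hpp.one_lt.ne hx
  exact (mul_eq_zero.1 h1).resolve_right hx0

/-- A fixed vector. -/
theorem exists_fixed_vec {S₀ : Subgroup G} (n : NatSec K E (OmE p E) (ZE p E)) (hS₀E : S₀ ≤ E)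
    (hS₀ : IsPGroup p S₀) (hpK : p ∣ Nat.card K) :
    ∃ v : Fin 2 → K, v ≠ 0 ∧ ∀ e ∈ S₀, (n.ρ e : Matrix (Fin 2) (Fin 2) K) *ᵥ v = v := by
  classical
  have hpp : p.Prime := Fact.out
  letI act : MulAction ↥S₀ (Fin 2 → K) :=
    { smul := fun e v => (n.ρ e : Matrix (Fin 2) (Fin 2) K) *ᵥ v
      one_smul := fun v => by
        show (n.ρ ((1 : S₀) : G) : Matrix (Fin 2) (Fin 2) K) *ᵥ v = v
        rw [Subgroup.coe_one, n.ρ_one]
        exact Matrix.one_mulVec v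
      mul_smul := fun a b v => by
        show (n.ρ ((a * b : S₀) : G) : Matrix (Fin 2) (Fin 2) K) *ᵥ v =
          (n.ρ a : Matrix (Fin 2) (Fin 2) K) *ᵥ ((n.ρ b : Matrix (Fin 2) (Fin 2) K) *ᵥ v)
        rw [Subgroup.coe_mul, n.ρ_mul _ (hS₀E a.2) _ (hS₀E b.2), coe_mul', Matrix.mulVec_mulVec] }
  have h1 := hS₀.card_modEq_card_fixedPoints (Fin 2 → K)
  have hcard : p ∣ Nat.card (Fin 2 → K) := by
    rw [Nat.card_fun]
    exact hpK.trans (dvd_pow_self _ (by simp))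
  have hdvd : p ∣ Nat.card (MulAction.fixedPoints ↥S₀ (Fin 2 → K)) :=
    Nat.modEq_zero_iff_dvd.1 (h1.symm.trans (Nat.modEq_zero_iff_dvd.2 hcard))
  have hzero : (0 : Fin 2 → K) ∈ MulAction.fixedPoints ↥S₀ (Fin 2 → K) := by
    intro e
    exact Matrix.mulVec_zero _
  haveI : Finite (Fin 2 → K) := inferInstance
  have hpos : 0 < Nat.card (MulAction.fixedPoints ↥S₀ (Fin 2 → K)) := by
    rw [Nat.card_pos_iff]
    exact ⟨⟨⟨0, hzero⟩⟩, inferInstance⟩
  have hgt : 1 < Nat.card (MulAction.fixedPoints ↥S₀ (Fin 2 → K)) :=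
    lt_of_lt_of_le hpp.one_lt (Nat.le_of_dvd hpos hdvd)
  haveI := Finite.one_lt_card_iff_nontrivial.1 hgt
  obtain ⟨⟨v, hv⟩, hne⟩ := exists_ne (⟨0, hzero⟩ : MulAction.fixedPoints ↥S₀ (Fin 2 → K))
  refine ⟨v, fun h => hne (Subtype.ext h), fun e he => hv ⟨e, he⟩⟩

/-- A matrix fixing the first basis vector. -/
theorem eq_uu_of_fix (M : SpecialLinearGroup (Fin 2) K)
    (h : (M : Matrix (Fin 2) (Fin 2) K) *ᵥ ![1, 0] = ![1, 0]) :
    M = uu ((M : Matrix (Fin 2) (Fin 2) K) 0 1) := by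
  have h0 := congrFun h 0
  have h1 := congrFun h 1
  simp [Matrix.mulVec, dotProduct, Fin.sum_univ_two] at h0 h1
  have hd := det_entries M
  rw [h0, h1, mul_zero, sub_zero, one_mul] at hd
  apply Subtype.ext
  show (M : Matrix (Fin 2) (Fin 2) K) = !![1, (M : Matrix (Fin 2) (Fin 2) K) 0 1; 0, 1]
  ext a b
  fin_cases a <;> fin_cases b <;> simp [h0, h1, hd]

/-- The key property in characteristic two for `|K| ≥ 4`. -/
theorem key_even (hE : IsBaumannBlock p T E) (hp2 : p = 2) (n : NatSec K E (OmE p E) (ZE p E))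
    (hiso : Nonempty (↥E ⧸ pCore p ↥E ≃* ↥(SS K))) (hq : pCoreOf p E = OmE p E)
    (h4 : 4 ≤ Nat.card K) (hpK : p ∣ Nat.card K) : KeyP p E := by
  classical
  intro R hR hRE
  have h2K : (2 : K) = 0 := by
    have := cast_zero_of_dvd (K := K) hpK
    rw [hp2] at this
    exact_mod_cast this
  have hΩ2 : ∀ w ∈ OmE p E, w ^ 2 = 1 := fun w hw => by
    have := (mem_omegaOneCenter.1 hw).2.2
    rwa [hp2] at this
  have hΩinv : ∀ w ∈ OmE p E, w⁻¹ = w := fun w hw => by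
    have := hΩ2 w hw
    rw [pow_two] at this
    exact inv_eq_of_mul_eq_one_left this
  have hΩc : ∀ a ∈ OmE p E, ∀ b ∈ OmE p E, a * b = b * a := fun a ha b hb =>
    omE_comm E ha (omE_le_core E hb)
  have hEΩ : ∀ g ∈ E, ∀ w ∈ OmE p E, g * w * g⁻¹ ∈ OmE p E := fun g hg w hw =>
    conj_mem_of_mem_normalizer (le_normalizer_omE E hg) hw
  obtain ⟨S₀, hS₀E, hS₀p, hmax, hidx, hRS⟩ := exists_sylow_fixed hR hRE
  obtain ⟨v, hv0, hvfix⟩ := exists_fixed_vec n hS₀E hS₀p hpK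
  obtain ⟨r₀, hr₀, hr₀v⟩ := exists_comm_mulVec v hv0
  -- the new coordinates
  let n' : NatSec K E (OmE p E) (ZE p E) := twist n r₀⁻¹
  have hfix' : ∀ e ∈ S₀, (n'.ρ e : Matrix (Fin 2) (Fin 2) K) *ᵥ ![1, 0] = ![1, 0] := by
    intro e he
    show ((r₀⁻¹ * n.ρ e * r₀⁻¹⁻¹ : SpecialLinearGroup (Fin 2) K) : Matrix (Fin 2) (Fin 2) K) *ᵥ _ = _
    rw [inv_inv, coe_mul', coe_mul', ← Matrix.mulVec_mulVec, hr₀v, ← Matrix.mulVec_mulVec, hvfix e he,
      ← hr₀v, inv_mulVec_cancel]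
  have hker := ker_om n' hiso
  have hSS : SS K = ⊤ := SS_eq_top h4
  -- `S₀` is the full stabilizer of the first basis vector
  have hρu : ∀ e ∈ E, (n'.ρ e : Matrix (Fin 2) (Fin 2) K) *ᵥ ![1, 0] = ![1, 0] → e ^ 2 ∈ pCoreOf p E := by
    intro e he hfix
    rw [← hker _ (pow_mem he 2), n'.ρ_pow he, eq_uu_of_fix _ hfix, pow_two, uu_mul]
    have : (n'.ρ e : Matrix (Fin 2) (Fin 2) K) 0 1 + (n'.ρ e : Matrix (Fin 2) (Fin 2) K) 0 1 = 0 := by
      linear_combination ((n'.ρ e : Matrix (Fin 2) (Fin 2) K) 0 1) * h2K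
    rw [this]
    apply Subtype.ext
    show !![1, 0; 0, 1] = (1 : Matrix (Fin 2) (Fin 2) K)
    rw [Matrix.one_fin_two]
  let S₁ : Subgroup G :=
    { carrier := {e | e ∈ E ∧ (n'.ρ e : Matrix (Fin 2) (Fin 2) K) *ᵥ ![1, 0] = ![1, 0]}
      mul_mem' := by
        rintro a b ⟨ha, ha'⟩ ⟨hb, hb'⟩
        refine ⟨mul_mem ha hb, ?_⟩
        rw [n'.ρ_mul a ha b hb, coe_mul', ← Matrix.mulVec_mulVec, hb', ha']
      one_mem' := ⟨one_mem _, by
        rw [n'.ρ_one]
        exact Matrix.one_mulVec _⟩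
      inv_mem' := by
        rintro a ⟨ha, ha'⟩
        refine ⟨inv_mem ha, ?_⟩
        rw [n'.ρ_inv ha]
        nth_rw 2 [← ha']
        conv_lhs => rw [← ha']
        rw [inv_mulVec_cancel, ha'] }
  have hS₁p : IsPGroup p S₁ := by
    rintro ⟨e, he, hfix⟩
    obtain ⟨k, hk⟩ := (isPGroup_pCoreOf (p := p) E) ⟨_, hρu e he hfix⟩
    refine ⟨k + 1, ?_⟩
    apply Subtype.ext
    have h3 : (e ^ 2) ^ (p ^ k) = 1 := by simpa using congrArg Subtype.val hk
    show e ^ (p ^ (k + 1)) = 1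
    rw [pow_succ', hp2, pow_mul]
    rw [hp2] at h3
    exact h3
  have hS₀S₁ : S₀ ≤ S₁ := fun e he => ⟨hS₀E he, hfix' e he⟩
  have hS₁S₀ : S₁ ≤ S₀ := hmax S₁ (fun e he => he.1) hS₁p hS₀S₁
  have hS₀mem : ∀ e, e ∈ S₀ ↔ e ∈ E ∧ (n'.ρ e : Matrix (Fin 2) (Fin 2) K) *ᵥ ![1, 0] = ![1, 0] :=
    fun e => ⟨fun h => hS₀S₁ h, fun h => hS₁S₀ h⟩
  -- Claim A
  have hA : ∀ y ∈ OmE p E, n'.ψ y 1 = 0 → ∀ u ∈ S₀, u * y * u⁻¹ = y := by
    intro y hy hy1 u hu
    obtain ⟨huE, hufix⟩ := (hS₀mem u).1 hu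
    set a := (n'.ρ u : Matrix (Fin 2) (Fin 2) K) 0 1 with ha
    have hρ : n'.ρ u = uu a := eq_uu_of_fix _ hufix
    by_cases ha0 : a = 0
    · have h1 : n'.ρ u = 1 := by
        rw [hρ, ha0]
        apply Subtype.ext
        show !![1, 0; 0, 1] = (1 : Matrix (Fin 2) (Fin 2) K)
        rw [Matrix.one_fin_two]
      have h2 : u ∈ pCoreOf p E := (hker u huE).1 h1
      rw [← omE_comm E hy h2]
      group
    · set c := n'.ψ y 0 with hc
      obtain ⟨y', hy', hy'ψ⟩ := n'.ψ_surj ![0, c / a]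
      set y₁ := u * y' * u⁻¹ with hy₁
      have hy₁Ω : y₁ ∈ OmE p E := hEΩ u huE y' hy'
      set τ := y₁ * y'⁻¹ with hτ
      have hτΩ : τ ∈ OmE p E := mul_mem hy₁Ω (inv_mem hy')
      have hψτ : n'.ψ τ = ![c, 0] := by
        rw [hτ, n'.ψ_mul _ hy₁Ω _ (inv_mem hy'), n'.ψ_eq u huE y' hy', hy'ψ, hρ]
        have hinv : n'.ψ y'⁻¹ = - ![0, c / a] := by
          rw [← hy'ψ]
          have := n'.ψ_mul y' hy' y'⁻¹ (inv_mem hy')
          rw [mul_inv_cancel, (n'.ψ_ker 1 (one_mem _)).2 (one_mem _)] at this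
          exact eq_neg_of_add_eq_zero_right this.symm
        rw [hinv]
        funext i
        fin_cases i
        · simp [uu, Matrix.mulVec, dotProduct, Fin.sum_univ_two]
          field_simp
        · simp [uu, Matrix.mulVec, dotProduct, Fin.sum_univ_two]
      have hψy : n'.ψ y = ![c, 0] := by
        funext i
        fin_cases i
        · rfl
        · exact hy1
      have hζ : y * τ⁻¹ ∈ ZE p E := by
        refine (n'.ψ_ker _ (mul_mem hy (inv_mem hτΩ))).1 ?_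
        rw [n'.ψ_mul _ hy _ (inv_mem hτΩ)]
        have := n'.ψ_mul τ hτΩ τ⁻¹ (inv_mem hτΩ)
        rw [mul_inv_cancel, (n'.ψ_ker 1 (one_mem _)).2 (one_mem _)] at this
        rw [hψy, ← hψτ]
        exact this.symm
      have hu2 : u ^ 2 ∈ pCoreOf p E := hρu u huE hufix
      have hu2' : u * y₁ * u⁻¹ = y' := by
        have h1 : u * y₁ * u⁻¹ = u ^ 2 * y' * (u ^ 2)⁻¹ := by
          rw [hy₁, pow_two]
          group
        rw [h1, ← omE_comm E hy' hu2]
        group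
      have huτ : u * τ * u⁻¹ = τ := by
        have h1 : u * τ * u⁻¹ = (u * y₁ * u⁻¹) * (u * y' * u⁻¹)⁻¹ := by
          rw [hτ]
          group
        rw [h1, hu2', ← hy₁]
        have h2 : y' * y₁⁻¹ = τ⁻¹ := by
          rw [hτ]
          group
        rw [h2, hΩinv τ hτΩ]
      have e1 : y = (y * τ⁻¹) * τ := by group
      rw [e1]
      calc u * (y * τ⁻¹ * τ) * u⁻¹ = (u * (y * τ⁻¹) * u⁻¹) * (u * τ * u⁻¹) := by group
        _ = (y * τ⁻¹) * τ := by rw [zE_conj E hζ huE, huτ]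
  -- the two groups
  set M : Subgroup G := E ⊓ normalizer (S₀ : Set G) with hM
  set Y : Subgroup G := OmE p E ⊓ centralizer (S₀ : Set G) with hY
  set Y₀ : Subgroup G := ⁅Y, M⁆ with hY₀
  have hMN : M ≤ normalizer (E : Set G) := inf_le_left.trans le_normalizer
  have hRM : R ≤ normalizer (M : Set G) := by
    intro r hr
    refine mem_normalizer_inf (hRE hr) ?_
    apply mem_normalizer_of_conj_le
    intro g hg
    exact mul_mem (mul_mem (hRS hr) hg) (inv_mem (hRS hr))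
  have hRY : R ≤ normalizer (Y : Set G) := fun r hr =>
    mem_normalizer_inf (normalizer_le_omE E (hRE hr)) (mem_normalizer_centralizer (hRS hr))
  have hRY₀ : R ≤ normalizer (Y₀ : Set G) := fun r hr =>
    mem_normalizer_commutator (hRY hr) (hRM hr)
  have hY₀W : Y₀ ≤ WE p E := commutator_mono inf_le_left inf_le_left
  have hY₀p : IsPGroup p Y₀ := (isPGroup_wE E).to_le hY₀W
  have hS₀M : S₀ ≤ M := fun s hs => mem_inf.2 ⟨hS₀E hs, le_normalizer hs⟩
  have hMY : M ≤ normalizer (Y : Set G) := fun m hm =>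
    mem_normalizer_inf (le_normalizer_omE E (mem_inf.1 hm).1) (mem_normalizer_centralizer (mem_inf.1 hm).2)
  have hidx' : ¬ p ∣ (S₀.subgroupOf M).index := by
    intro h
    apply hidx
    have h1 : S₀.relIndex E = S₀.relIndex M * M.relIndex E := (Subgroup.relIndex_mul_relIndex S₀ M E hS₀M inf_le_left).symm
    rw [h1]
    exact h.trans (dvd_mul_right _ _)
  have hD : ∀ x ∈ Y₀, x ∈ centralizer (E : Set G) → x = 1 := by
    intro x hx hc
    refine norm_inf (p := p) hΩc (fun a ha => (mem_omegaOneCenter.1 ha).2.2) inf_le_left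
      (hMN.trans (normalizer_le_omE E)) hMY hS₀M inf_le_right ?_ hidx' hx ?_
    · intro s hs y hy
      have : y * s = s * y := (mem_centralizer_iff.1 (mem_inf.1 hy).2 s hs).symm
      rw [← this]
      group
    · intro m hm
      have : m * x = x * m := mem_centralizer_iff.1 hc m (mem_inf.1 hm).1
      rw [this]
      group
  -- the size
  obtain ⟨t, ht0, ht1⟩ := Cfsg.Agent.Lib.Classical.NormalSL.exists_ne_zero_sq_ne_one h4
  have ht1' : t ≠ 1 := by
    rintro rfl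
    exact ht1 (one_pow 2)
  let dg : SpecialLinearGroup (Fin 2) K := ⟨!![t, 0; 0, t⁻¹], by
    rw [Matrix.det_fin_two_of]
    field_simp
    ring⟩
  have hdg : (dg : Matrix (Fin 2) (Fin 2) K) = !![t, 0; 0, t⁻¹] := rfl
  obtain ⟨h, hhE, hhρ⟩ := n'.ρ_surj dg (by rw [hSS]; trivial)
  have hdgv : ∀ c : K, (dg : Matrix (Fin 2) (Fin 2) K) *ᵥ ![c, 0] = ![t * c, 0] := by
    intro c
    rw [hdg]
    funext i
    fin_cases i <;> simp [Matrix.mulVec, dotProduct, Fin.sum_univ_two]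
  have hdgi : ∀ c : K, ((dg⁻¹ : SpecialLinearGroup (Fin 2) K) : Matrix (Fin 2) (Fin 2) K) *ᵥ ![c, 0] = ![t⁻¹ * c, 0] := by
    intro c
    have := inv_mulVec_cancel dg ![t⁻¹ * c, 0]
    rw [hdgv, mul_inv_cancel_left₀ ht0] at this
    exact this
  have hhM : h ∈ M := by
    refine mem_inf.2 ⟨hhE, ?_⟩
    apply mem_normalizer_of_conj_le
    intro e he
    obtain ⟨heE, hefix⟩ := (hS₀mem e).1 he
    refine (hS₀mem _).2 ⟨mul_mem (mul_mem hhE heE) (inv_mem hhE), ?_⟩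
    rw [n'.ρ_mul _ (mul_mem hhE heE) _ (inv_mem hhE), n'.ρ_mul _ hhE _ heE, n'.ρ_inv hhE, hhρ]
    have hρe := eq_uu_of_fix _ hefix
    rw [coe_mul', coe_mul', ← Matrix.mulVec_mulVec, ← Matrix.mulVec_mulVec]
    have e1 : ![(1 : K), 0] = ![1, 0] := rfl
    rw [hdgi, mul_one]
    have e2 : (n'.ρ e : Matrix (Fin 2) (Fin 2) K) *ᵥ ![t⁻¹, 0] = ![t⁻¹, 0] := by
      have := congrArg (fun x => t⁻¹ • x) hefix
      simp only [← Matrix.mulVec_smul] at this
      have e3 : t⁻¹ • ![(1 : K), 0] = ![t⁻¹, 0] := by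
        funext i
        fin_cases i <;> simp
      rw [e3] at this
      exact this
    rw [e2, hdgv, mul_inv_cancel₀ ht0]
  choose lift hl1 hl2 using n'.ψ_surj
  have hsub : (1 : K) - t ≠ 0 := fun h => ht1' (sub_eq_zero.1 h).symm
  have hY₀card : Nat.card K ≤ Nat.card Y₀ := by
    let w : K → ↥Y₀ := fun c => ⟨⁅lift ![c, 0], h⁆, commutator_mem_commutator
      (mem_inf.2 ⟨hl1 _, by
        rw [mem_centralizer_iff]
        intro s hs
        have h1 := hA (lift ![c, 0]) (hl1 _) (by rw [hl2]; rfl) s hs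
        calc s * lift ![c, 0] = (s * lift ![c, 0] * s⁻¹) * s := by group
          _ = lift ![c, 0] * s := by rw [h1]⟩) hhM⟩
    have hwψ : ∀ c, n'.ψ (w c) = ![((1 : K) - t) * c, 0] := by
      intro c
      show n'.ψ ⁅lift ![c, 0], h⁆ = _
      have e1 : ⁅lift ![c, 0], h⁆ = lift ![c, 0] * (h * (lift ![c, 0])⁻¹ * h⁻¹) := by
        rw [commutatorElement_def]
        group
      have hm := hEΩ h hhE _ (inv_mem (hl1 ![c, 0]))
      rw [e1, n'.ψ_mul _ (hl1 _) _ hm, n'.ψ_eq h hhE _ (inv_mem (hl1 _)), hhρ, hl2]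
      have hinv : n'.ψ (lift ![c, 0])⁻¹ = ![-c, 0] := by
        have := n'.ψ_mul _ (hl1 ![c, 0]) _ (inv_mem (hl1 ![c, 0]))
        rw [mul_inv_cancel, (n'.ψ_ker 1 (one_mem _)).2 (one_mem _), hl2] at this
        have e2 := eq_neg_of_add_eq_zero_right this.symm
        rw [e2]
        funext i
        fin_cases i <;> simp
      rw [hinv, hdgv]
      funext i
      fin_cases i
      · simp
        ring
      · simp
    apply Nat.card_le_card_of_injective w
    intro c c' hcc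
    have h1 := hwψ c
    rw [hcc, hwψ c'] at h1
    have h2 := congrFun h1 0
    simp only [Matrix.cons_val_zero] at h2
    exact (mul_left_cancel₀ hsub h2).symm
  have hdvd : p ^ 2 ∣ Nat.card Y₀ := by
    obtain ⟨k, hk⟩ := IsPGroup.iff_card.1 hY₀p
    rw [hk]
    apply pow_dvd_pow
    by_contra hcon
    have hk1 : k ≤ 1 := by omega
    have h3 : Nat.card Y₀ ≤ 2 := by
      rw [hk, hp2]
      calc 2 ^ k ≤ 2 ^ 1 := Nat.pow_le_pow_right (by norm_num) hk1
        _ = 2 := by norm_num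
    omega
  obtain ⟨X, hXY, hXc, hRX⟩ := exists_inv_sub hR hY₀p hRY₀ hdvd
  exact ⟨X, hXY.trans hY₀W, hXc, hRX, fun x hx hc => hD x (hXY hx) hc⟩

end Even

end Cfsg.Agent.Lib.BBlk.Sl2X
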