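/-
The key property of blocks: a `p`-group normalizing a block normalizes a subgroup of order `p²` of
`W_E` meeting `C(E)` trivially.
-/
import Cfsg.Agent.Lib.BBlk.Sl2X

set_option autoImplicit false
set_option linter.unusedSectionVars false
set_option linter.unusedVariables false

namespace Cfsg.Agent.Lib.BBlk.Key

open Subgroup Cfsg Matrix
open Cfsg.Agent.Lib.LocalEven.Util
open Cfsg.Agent.Lib.LocalEven.Baumann
open Cfsg.Agent.Lib.LocalEven.BaumannBlock
open Cfsg.Agent.Lib.LocalEven.SecIrr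
open Cfsg.Agent.Lib.LocalStruct.PCoreOf
open Cfsg.Agent.Lib.FG85.BB
open Cfsg.Agent.Lib.BPair.Basic
open Cfsg.Agent.Lib.BPair.Small
open Cfsg.Agent.Lib.BPair.Types
open Cfsg.Agent.Lib.BPair.Inv
open Cfsg.Agent.Lib.BPair.Comm
open Cfsg.Agent.Lib.BBlk.Tools
open Cfsg.Agent.Lib.BBlk.FF
open Cfsg.Agent.Lib.BBlk.Sec
open Cfsg.Agent.Lib.BBlk.AltZ
open Cfsg.Agent.Lib.BBlk.Sl2X
open scoped commutatorElement

universe u

variable {G : Type u} [Group G] [Finite G] {p : ℕ} [hp : Fact p.Prime] {T E : Subgroup G}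

theorem key_of_cen (hcen : ∀ y ∈ WE p E, y ∈ centralizer (E : Set G) → y = 1)
    (hdvd : p ^ 2 ∣ Nat.card (WE p E)) : KeyP p E := by
  intro R hR hRE
  obtain ⟨X, hXW, hXc, hRX⟩ := exists_inv_sub hR (isPGroup_wE E)
    (hRE.trans (normalizer_le_wE E)) hdvd
  exact ⟨X, hXW, hXc, hRX, fun x hx hc => hcen x (hXW hx) hc⟩

theorem key_of_three (hE : IsBaumannBlock p T E) (h : Three p E) : KeyP p E := by
  apply key_of_cen (fun y hy hc => three_cen hE h hy hc)
  rw [three_wE hE h, three_card hE h, h.1]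
  norm_num

/-- The key property for odd characteristic. -/
theorem key_odd {F₀ : Type} [Field F₀] [Fintype F₀] (hE : IsBaumannBlock p T E)
    (hodd : p ≠ 2) {m : ℕ} (hF : Fintype.card F₀ = p ^ m) (n : NatSec F₀ E (OmE p E) (ZE p E))
    (hiso : Nonempty (↥E ⧸ pCore p ↥E ≃* ↥(SS F₀))) : KeyP p E := by
  have hpp : p.Prime := Fact.out
  haveI : Finite F₀ := Finite.of_fintype F₀
  have hker := ker_om n hiso
  have hm : m ≠ 0 := by
    rintro rfl
    rw [pow_zero] at hF
    have := Fintype.one_lt_card (α := F₀)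
    omega
  have h2 : (2 : F₀) ≠ 0 := by
    intro h20
    have h3 : ((Fintype.card F₀ : ℕ) : F₀) = 0 := FiniteField.cast_card_eq_zero F₀
    have hdvd : p ∣ Fintype.card F₀ := by
      rw [hF]
      exact dvd_pow_self p hm
    have hcop : Nat.Coprime p 2 := (Nat.coprime_primes hpp Nat.prime_two).2 hodd
    obtain ⟨a, b, hab⟩ : ∃ a b : ℤ, a * (p : ℤ) + b * (2 : ℤ) = 1 := by
      have := Nat.isCoprime_iff_coprime.2 hcop
      obtain ⟨a, b, h⟩ := this
      exact ⟨a, b, by exact_mod_cast h⟩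
    have hpz : (p : F₀) = 0 := cast_zero_of_dvd (by rwa [Nat.card_eq_fintype_card])
    have := congrArg (Int.cast : ℤ → F₀) hab
    push_cast at this
    rw [hpz, h20, mul_zero, mul_zero, add_zero] at this
    exact zero_ne_one this
  obtain ⟨z, hz, hzm⟩ : ∃ z ∈ E, (n.ρ z : Matrix (Fin 2) (Fin 2) F₀) = -1 := by
    by_cases h4 : 4 ≤ Nat.card F₀
    · obtain ⟨z, hz, hzρ⟩ := n.ρ_surj (ww * ww) (by rw [SS_eq_top h4]; trivial)
      exact ⟨z, hz, by rw [hzρ]; exact ww_mul_ww⟩
    · have hc : Fintype.card F₀ = 3 := by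
        rw [Nat.card_eq_fintype_card] at h4
        have h5 : 2 < p := lt_of_le_of_ne hpp.two_le (Ne.symm hodd)
        have h6 : p ^ 1 ≤ p ^ m := Nat.pow_le_pow_right hpp.pos (by omega)
        rw [pow_one] at h6
        omega
      obtain ⟨i₁, hi₁, j₁, hj₁, hn⟩ := exists_neg (char3 hc) n
      exact ⟨_, mul_mem (mul_mem (mul_mem hi₁ hj₁) (inv_mem hi₁)) (inv_mem hj₁), hn⟩
  have hcen : ∀ y ∈ WE p E, y ∈ centralizer (E : Set G) → y = 1 := by
    intro y hy hc
    have h1 := inv_wE n hker hz hy hzm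
    have h3 : z * y = y * z := mem_centralizer_iff.1 hc z hz
    rw [h3] at h1
    have h4 : y = y⁻¹ := by
      rw [← h1]
      group
    have h5 : y ^ 2 = 1 := by
      rw [pow_two]
      nth_rw 1 [h4]
      group
    have h6 : y ^ p = 1 := wE_pow hy
    have hcop : Nat.gcd 2 p = 1 := (Nat.coprime_primes Nat.prime_two hpp).2 (Ne.symm hodd)
    have h7 : orderOf y ∣ Nat.gcd 2 p :=
      Nat.dvd_gcd (orderOf_dvd_of_pow_eq_one h5) (orderOf_dvd_of_pow_eq_one h6)
    rw [hcop] at h7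
    exact orderOf_eq_one_iff.1 (Nat.dvd_one.1 h7)
  apply key_of_cen hcen
  rw [card_wE_of_nat hE inferInstance n hcen, Nat.card_fun, Nat.card_eq_fintype_card, hF,
    Nat.card_eq_fintype_card, Fintype.card_fin]
  rw [← pow_mul]
  exact pow_dvd_pow p (by omega)

/-- The key property for the even-weight modules. -/
theorem key_perm (hE : IsBaumannBlock p T E) (hp2 : p = 2) {m : ℕ} (hm : m ≠ 0)
    (hiso : Nonempty (↥E ⧸ pCore p ↥E ≃* ↥(alternatingGroup (Fin (2 * m + 1)))))
    (s : PermSec (2 * m + 1) E (OmE p E) (ZE p E)) : KeyP p E := by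
  classical
  have hker := s.ker_iff (Q := pCoreOf p E) (by omega) (pCoreOf_le E)
    (PermSec.card_perm_block hiso) (fun a ha u hu => core_comm_mem E ha hu) (zE_le_omE E)
  have hcen : ∀ y ∈ WE p E, y ∈ centralizer (E : Set G) → y = 1 := fun y hy hc =>
    alt_cen hE hp2 (by omega) ⟨m, rfl⟩ s hker hy hc
  apply key_of_cen hcen
  -- three distinct elements
  let a : Fin (2 * m + 1) := ⟨0, by omega⟩
  let b : Fin (2 * m + 1) := ⟨1, by omega⟩
  let c : Fin (2 * m + 1) := ⟨2, by omega⟩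
  have hab : a ≠ b := by simp [a, b, Fin.ext_iff]
  have hac : a ≠ c := by simp [a, c, Fin.ext_iff]
  have hbc : b ≠ c := by simp [b, c, Fin.ext_iff]
  obtain ⟨u₁, hu₁, hu₁ψ⟩ := s.ψ_surj (PermSec.e₂ a b) (PermSec.sum_e₂ a b)
  obtain ⟨u₂, hu₂, hu₂ψ⟩ := s.ψ_surj (PermSec.e₂ a c) (PermSec.sum_e₂ a c)
  obtain ⟨w₁, hw₁, z₁, hz₁, rfl⟩ := exists_decomp hE hu₁
  obtain ⟨w₂, hw₂, z₂, hz₂, rfl⟩ := exists_decomp hE hu₂
  have hψ₁ : s.ψ w₁ = PermSec.e₂ a b := by
    rw [← hu₁ψ, s.ψ_mul _ (wE_le_omE E hw₁) _ (zE_le_omE E hz₁), (s.ψ_ker _ (zE_le_omE E hz₁)).2 hz₁,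
      add_zero]
  have hψ₂ : s.ψ w₂ = PermSec.e₂ a c := by
    rw [← hu₂ψ, s.ψ_mul _ (wE_le_omE E hw₂) _ (zE_le_omE E hz₂), (s.ψ_ker _ (zE_le_omE E hz₂)).2 hz₂,
      add_zero]
  have h1 : w₁ ≠ 1 := by
    rintro rfl
    rw [s.ψ_one] at hψ₁
    have := congrFun hψ₁ a
    rw [PermSec.e₂_left hab] at this
    exact zero_ne_one this
  have h2 : w₂ ≠ 1 := by
    rintro rfl
    rw [s.ψ_one] at hψ₂
    have := congrFun hψ₂ a
    rw [PermSec.e₂_left hac] at this
    exact zero_ne_one this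
  have h3 : w₁ ≠ w₂ := by
    rintro rfl
    rw [hψ₁] at hψ₂
    have := congrFun hψ₂ b
    rw [PermSec.e₂_right hab, PermSec.e₂_other hab.symm hbc] at this
    exact one_ne_zero this
  have hcard : 2 < Nat.card (WE p E) := by
    haveI := Fintype.ofFinite (WE p E)
    rw [Nat.card_eq_fintype_card]
    have h4 : ({1, ⟨w₁, hw₁⟩, ⟨w₂, hw₂⟩} : Finset ↥(WE p E)).card = 3 := by
      rw [Finset.card_insert_of_notMem, Finset.card_insert_of_notMem, Finset.card_singleton]
      · simp only [Finset.mem_singleton]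
        intro h
        exact h3 (congrArg Subtype.val h)
      · simp only [Finset.mem_insert, Finset.mem_singleton, not_or]
        refine ⟨fun h => h1 (congrArg Subtype.val h).symm, fun h => h2 (congrArg Subtype.val h).symm⟩
    have h5 := Finset.card_le_univ ({1, ⟨w₁, hw₁⟩, ⟨w₂, hw₂⟩} : Finset ↥(WE p E))
    omega
  obtain ⟨k, hk⟩ := IsPGroup.iff_card.1 (isPGroup_wE (p := p) E)
  rw [hk, hp2] at hcard ⊢
  apply pow_dvd_pow
  by_contra hcon
  have hk1 : k ≤ 1 := by omega
  have : 2 ^ k ≤ 2 ^ 1 := Nat.pow_le_pow_right (by norm_num) hk1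
  omega

/-- **The key property.** -/
theorem keyP (hE : IsBaumannBlock p T E) : KeyP p E := by
  have hpp : p.Prime := Fact.out
  rcases hE.2.2.2.2 with ⟨F, i1, i2, m, hF, hiso, hs, hcase⟩ | ⟨hp2, m, hiso, hs, hq⟩
  · obtain ⟨n⟩ := exists_natSec hs
    have hm : m ≠ 0 := by
      rintro rfl
      rw [pow_zero] at hF
      have := Fintype.one_lt_card (α := F)
      omega
    by_cases hp2 : p = 2
    · have hq : pCoreOf p E = OmE p E := by
        rcases hcase with hq | ⟨hp3, -⟩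
        · exact hq
        · omega
      haveI : Finite F := Finite.of_fintype F
      by_cases hc2 : Fintype.card F = 2
      · obtain ⟨φ⟩ := hiso
        apply key_of_three hE
        refine ⟨hp2, ?_, hq, ?_⟩
        · rw [Nat.card_congr φ.toEquiv]
          exact card_SS_two hc2
        · rw [card_of_sl2 hs, hc2]
          norm_num
      · have h4 : 4 ≤ Nat.card F := by
          rw [Nat.card_eq_fintype_card, hF, hp2]
          have hm2 : 2 ≤ m := by
            by_contra hcon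
            have : m = 1 := by omega
            rw [this, hp2, pow_one] at hF
            exact hc2 hF
          calc 4 = 2 ^ 2 := by norm_num
            _ ≤ 2 ^ m := Nat.pow_le_pow_right (by norm_num) hm2
        exact key_even hE hp2 n hiso hq h4 (by
          rw [Nat.card_eq_fintype_card, hF]
          exact dvd_pow_self p hm)
    · exact key_odd hE hp2 hF n hiso
  · have hm : m ≠ 0 := by
      rintro rfl
      exact alt_ne_zero hE hiso
    obtain ⟨s⟩ := exists_permSec hs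
    exact key_perm hE hp2 hm hiso s

end Cfsg.Agent.Lib.BBlk.Key
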