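/-
Blocks: `F` normalizing a subnormal block `E` and acting trivially on `Ω / Z`.
-/
import Cfsg.Agent.Lib.BBlk.Key

set_option autoImplicit false
set_option linter.unusedSectionVars false
set_option linter.unusedVariables false

namespace Cfsg.Agent.Lib.BBlk.CaseA

open Subgroup Cfsg Matrix
open Cfsg.Agent.Lib.LocalEven.Util
open Cfsg.Agent.Lib.LocalEven.Baumann
open Cfsg.Agent.Lib.LocalEven.BaumannBlock
open Cfsg.Agent.Lib.LocalEven.SecIrr
open Cfsg.Agent.Lib.LocalStruct.PCoreOf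
open Cfsg.Agent.Lib.FG85.BB
open Cfsg.Agent.Lib.BPair.Basic
open Cfsg.Agent.Lib.BPair.Small
open Cfsg.Agent.Lib.BPair.Types
open Cfsg.Agent.Lib.BPair.Sec
open Cfsg.Agent.Lib.BPair.Inv
open Cfsg.Agent.Lib.BPair.Comm
open Cfsg.Agent.Lib.BBlk.Sec
open Cfsg.Agent.Lib.Components.Basic
open Cfsg.Agent.Lib.PReduced.RelNorm (mem_normalizer_inf mem_normalizer_sup mem_normalizer_centralizer)
open scoped commutatorElement

universe u

variable {G : Type u} [Group G] [Finite G] {p : ℕ} [Fact p.Prime]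

/-- A subnormal block `E` and a block `F` normalizing it. -/
structure Pr0 (p : ℕ) [Fact p.Prime] (T : Sylow p G) (E F : Subgroup G) : Prop where
  hG : centralizer (pCore p G : Set G) ≤ pCore p G
  hE : IsBaumannBlock p (T : Subgroup G) E
  hF : IsBaumannBlock p (T : Subgroup G) F
  hEs : E.IsSubnormal
  FE : F ≤ normalizer (E : Set G)

namespace Pr0

variable {T : Sylow p G} {E F : Subgroup G} (X : Pr0 p T E F)

include X

theorem coreE_le : pCoreOf p E ≤ pCore p G := core_le X.hEs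

theorem FQ : F ≤ normalizer (pCoreOf p E : Set G) := X.FE.trans (normalizer_le_normalizer_pCoreOf E)
theorem FO : F ≤ normalizer (OmE p E : Set G) := X.FE.trans (normalizer_le_omE E)
theorem FZ : F ≤ normalizer (ZE p E : Set G) := X.FE.trans (normalizer_le_zE E)
theorem FW : F ≤ normalizer (WE p E : Set G) := X.FE.trans (normalizer_le_wE E)

theorem not_om : ¬ OmE p E ≤ ZE p E := fun h =>
  block_not_central X.hE (h.trans inf_le_right)

theorem OZ : OmE p E ≤ normalizer (ZE p E : Set G) := fun x hx =>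
  le_normalizer_zE E (pCoreOf_le E (omE_le_core E hx))

theorem core_comm {q u : G} (hq : q ∈ pCoreOf p E) (hu : u ∈ OmE p E) : q * u * q⁻¹ * u⁻¹ = 1 := by
  rw [← omE_comm E hu hq]
  group

end Pr0

/-- In addition `[E, F] ≤ O_p(E)`. -/
structure Pr1 (p : ℕ) [Fact p.Prime] (T : Sylow p G) (E F : Subgroup G) extends Pr0 p T E F : Prop where
  hc : ∀ e ∈ E, ∀ f ∈ F, e * f * e⁻¹ * f⁻¹ ∈ pCoreOf p E

namespace Pr1

variable {T : Sylow p G} {E F : Subgroup G} (X : Pr1 p T E F)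

include X

theorem comm {e f : G} (he : e ∈ E) (hf : f ∈ F) : e * f * e⁻¹ * f⁻¹ ∈ pCoreOf p E := X.hc e he f hf

theorem comm' {e f : G} (he : e ∈ E) (hf : f ∈ F) : f * e * f⁻¹ * e⁻¹ ∈ pCoreOf p E := by
  have := inv_mem (X.comm he hf)
  have e1 : (e * f * e⁻¹ * f⁻¹)⁻¹ = f * e * f⁻¹ * e⁻¹ := by group
  rwa [e1] at this

theorem coreE_le : pCoreOf p E ≤ pCore p G := X.toPr0.coreE_le
theorem FQ : F ≤ normalizer (pCoreOf p E : Set G) := X.toPr0.FQ
theorem FO : F ≤ normalizer (OmE p E : Set G) := X.toPr0.FO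
theorem FZ : F ≤ normalizer (ZE p E : Set G) := X.toPr0.FZ
theorem FW : F ≤ normalizer (WE p E : Set G) := X.toPr0.FW
theorem not_om : ¬ OmE p E ≤ ZE p E := X.toPr0.not_om
theorem OZ : OmE p E ≤ normalizer (ZE p E : Set G) := X.toPr0.OZ
theorem core_comm {q u : G} (hq : q ∈ pCoreOf p E) (hu : u ∈ OmE p E) : q * u * q⁻¹ * u⁻¹ = 1 :=
  X.toPr0.core_comm hq hu

/-- If `[W_E, F]` is central in `E` it is trivial. -/
theorem comm_bot (h : ⁅WE p E, F⁆ ≤ ZE p E) : ⁅WE p E, F⁆ = ⊥ := by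
  have h1 : ⁅⁅E, F⁆, WE p E⁆ = ⊥ := by
    rw [commutator_eq_bot_iff_le_centralizer, commutator_le]
    intro e he f hf
    rw [mem_centralizer_iff]
    intro w hw
    exact omE_comm E (wE_le_omE E hw) (X.comm he hf)
  have h2 : ⁅⁅F, WE p E⁆, E⁆ = ⊥ := by
    rw [commutator_eq_bot_iff_le_centralizer, commutator_comm]
    exact h.trans inf_le_right
  have h3 := commutator_commutator_eq_bot_of_rotate h1 h2
  rwa [wE_idem X.hE] at h3

/-- If the `p'`-elements of `F` fix `O_p(E)` pointwise, `F` commutes with `E`. -/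
theorem comm_bot_of_fix (hfix : ∀ f ∈ F, (orderOf f).Coprime p → ∀ q ∈ pCoreOf p E, f * q * f⁻¹ = q) :
    ⁅E, F⁆ = ⊥ := by
  rw [commutator_comm, commutator_eq_bot_iff_le_centralizer]
  conv_lhs => rw [← block_gen X.hF]
  rw [closure_le]
  rintro f ⟨hf, hco⟩
  rw [SetLike.mem_coe, mem_centralizer_iff]
  intro e he
  have hbot : ∀ g : G, g ∈ normalizer ((⊥ : Subgroup G) : Set G) := fun g => by
    rw [normalizer_eq_top_iff.2 (inferInstance : (⊥ : Subgroup G).Normal)]
    trivial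
  have hx := X.comm' he hf
  have h0 : f * e * f⁻¹ * e⁻¹ ∈ (⊥ : Subgroup G) := by
    apply mem_of_coprime_comm hco (hbot _) (hbot _)
    · obtain ⟨k, hk⟩ := (isPGroup_pCoreOf (p := p) E) ⟨_, hx⟩
      exact ⟨k, by simpa using congrArg Subtype.val hk⟩
    · rw [hfix f hf hco _ hx]
      simp
  rw [mem_bot] at h0
  have h1 : f * e * f⁻¹ = e := mul_inv_eq_one.1 h0
  calc e * f = (f * e * f⁻¹) * f := by rw [h1]
    _ = f * e := by group


/-- `E` with `O_p(E)` abelian. -/
theorem of_gen (hq : pCoreOf p E = OmE p E) (hb : ⁅WE p E, F⁆ = ⊥) : ⁅E, F⁆ = ⊥ := by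
  apply X.comm_bot_of_fix
  intro f hf _ q hq'
  have hW : WE p E = pCoreOf p E := by
    show ⁅OmE p E, E⁆ = pCoreOf p E
    rw [← hq]
    exact X.hE.2.2.1
  rw [← hW] at hq'
  have h1 : ⁅q, f⁆ ∈ (⁅WE p E, F⁆ : Subgroup G) := commutator_mem_commutator hq' hf
  rw [hb, mem_bot, commutatorElement_eq_one_iff_commute] at h1
  rw [← h1.eq]
  group


/-- Central-by-abelian action: `F` fixes `Z_E = [Q, Q]` when `[Q, F] ≤ Ω`. -/
theorem of_ex_fix {F₁ : Type} [Field F₁] [Fintype F₁] (n : ExD p F₁ (T : Subgroup G) E)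
    (hb : ⁅WE p E, F⁆ = ⊥) (hY : ⁅pCoreOf p E, F⁆ ≤ OmE p E) : ⁅E, F⁆ = ⊥ := by
  apply X.comm_bot_of_fix
  intro f hf hco
  have hfa : ∀ a ∈ pCoreOf p E, f * a * f⁻¹ * a⁻¹ ∈ OmE p E := by
    intro a ha
    have h1 : ⁅a, f⁆ ∈ OmE p E := hY (commutator_mem_commutator ha hf)
    have e1 : f * a * f⁻¹ * a⁻¹ = ⁅a, f⁆⁻¹ := by
      rw [commutatorElement_def]
      group
    rw [e1]
    exact inv_mem h1
  have hfW : ∀ w ∈ WE p E, f * w * f⁻¹ = w := by
    intro w hw
    have h1 : ⁅w, f⁆ ∈ (⁅WE p E, F⁆ : Subgroup G) := commutator_mem_commutator hw hf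
    rw [hb, mem_bot, commutatorElement_eq_one_iff_commute] at h1
    rw [← h1.eq]
    group
  have hfZ : ∀ z ∈ ZE p E, f * z * f⁻¹ = z := by
    intro z hz
    have hz' : z ∈ (⁅pCoreOf p E, pCoreOf p E⁆ : Subgroup G) := by
      rw [n.hQQ]
      exact hz
    have hle : ⁅pCoreOf p E, pCoreOf p E⁆ ≤ centralizer ({f} : Set G) := by
      rw [commutator_le]
      intro a ha b hb'
      rw [mem_centralizer_singleton_iff]
      set v := f * a * f⁻¹ * a⁻¹ with hv
      set v' := f * b * f⁻¹ * b⁻¹ with hv'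
      have hvO : v ∈ OmE p E := hfa a ha
      have hv'O : v' ∈ OmE p E := hfa b hb'
      have e1 : f * a * f⁻¹ = v * a := by rw [hv]; group
      have e2 : f * b * f⁻¹ = v' * b := by rw [hv']; group
      have e3 : f * ⁅a, b⁆ * f⁻¹ = (v * a) * (v' * b) * (v * a)⁻¹ * (v' * b)⁻¹ := by
        rw [← e1, ← e2, commutatorElement_def]
        group
      have e4 := comm_mul_central (omE_comm E hvO ha) (omE_comm E hvO hb')
        (omE_comm E hvO (omE_le_core E hv'O)) (omE_comm E hv'O ha) (omE_comm E hv'O hb')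
      rw [e4] at e3
      have e5 : ⁅a, b⁆ * f = f * ⁅a, b⁆ := by
        have e6 : ⁅a, b⁆ = a * b * a⁻¹ * b⁻¹ := rfl
        rw [← e6] at e3
        calc ⁅a, b⁆ * f = (f * ⁅a, b⁆ * f⁻¹) * f := by rw [e3]
          _ = f * ⁅a, b⁆ := by group
      exact e5
    have := mem_centralizer_singleton_iff.1 (hle hz')
    rw [← this]
    group
  have hfO : ∀ w ∈ OmE p E, f * w * f⁻¹ = w := by
    intro w hw
    obtain ⟨v, hv, z, hz, rfl⟩ := exists_decomp X.hE hw
    have e1 : f * (v * z) * f⁻¹ = (f * v * f⁻¹) * (f * z * f⁻¹) := by group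
    rw [e1, hfW v hv, hfZ z hz]
  exact fixes_of_secTriv (isPGroup_omE E) hco ⟨X.FQ hf, X.FO hf, hfa⟩ hfO



/-- A group acting trivially on `Ω/Z` when `F` is quasisimple modulo its core. -/
theorem quasi_triv (hq : Quasi p F) : ∀ f ∈ F, ∀ u ∈ OmE p E, f * u * f⁻¹ * u⁻¹ ∈ ZE p E := by
  have hle : F ≤ secTriv (OmE p E) (ZE p E) := by
    apply le_of_quasi hq
    · intro f hf
      apply mem_normalizer_of_conj_le
      intro y hy
      exact conj_mem_secTriv (X.FO hf) (X.FZ hf) hy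
    · intro f hf hfp
      exact ⟨X.FO hf, X.FZ hf, sec_p_trivial (block_secIrr X.hE) (isPGroup_omE E) (zE_le_omE E)
        X.OZ (le_normalizer_omE E) (le_normalizer_zE E) X.FO X.FZ
        (fun e he a ha => X.comm he ha)
        (fun q hq u hu => by rw [X.core_comm hq hu]; exact one_mem _) X.not_om hf hfp⟩
  exact fun f hf => (hle hf).2.2


/-- `[O_p(E), F] ≤ Ω` for exceptional `E`. -/
theorem false_of_g3 {F₁ : Type} [Field F₁] [Fintype F₁] (n : ExD p F₁ (T : Subgroup G) E)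
    (hY : ¬ ⁅pCoreOf p E, F⁆ ≤ OmE p E) : False := by
  have hp3 := n.hp
  obtain ⟨u, hu, huO⟩ := SetLike.not_le_iff_exists.1 hY
  set Y : Subgroup G := ⁅pCoreOf p E, F⁆ with hYd
  have hYQ : Y ≤ pCoreOf p E := Cfsg.Agent.Lib.QuadAct.Basic.commutator_le_of_le_normalizer X.FQ
  have hYF : Y ≤ pCoreOf p F := by
    rw [hYd, commutator_le]
    intro a ha f hf
    exact comm_core' X.hF (X.coreE_le ha) hf
  have hFY : F ≤ normalizer (Y : Set G) := fun f hf =>
    mem_normalizer_commutator (X.FQ hf) (le_normalizer hf)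
  have hQQ' : ∀ q ∈ pCoreOf p E, ∀ v ∈ pCoreOf p E, q * v * q⁻¹ * v⁻¹ ∈ OmE p E := by
    intro q hq v hv
    have h1 : q * v * q⁻¹ * v⁻¹ ∈ (⁅pCoreOf p E, pCoreOf p E⁆ : Subgroup G) :=
      commutator_mem_commutator hq hv
    rw [n.hQQ] at h1
    exact zE_le_omE E h1
  have hEY : E ≤ normalizer ((Y ⊔ OmE p E : Subgroup G) : Set G) :=
    le_normalizer_comm_sup (le_normalizer_pCoreOf E) (le_normalizer_omE E) X.FQ
      (fun e he f hf => X.comm he hf) hQQ'
  have hD : pCoreOf p E ≤ Y ⊔ OmE p E :=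
    n.hirr₂ _ le_sup_right (sup_le hYQ (omE_le_core E)) hEY ⟨u, mem_sup_left hu, huO⟩
  have hOY : OmE p E ≤ normalizer (Y : Set G) := by
    intro w hw
    apply mem_normalizer_of_conj_le
    intro y hy
    rw [omE_comm E hw (hYQ hy)]
    simpa using hy
  have hdec : ∀ a ∈ pCoreOf p E, ∃ v ∈ OmE p E, ∃ y ∈ Y, v * y = a := by
    intro a ha
    have := hD ha
    rw [sup_comm] at this
    exact mem_sup_of_le_normalizer hOY this
  have hZY : ZE p E ≤ ⁅Y, Y⁆ := by
    rw [← n.hQQ, commutator_le]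
    intro a ha b hb
    obtain ⟨v, hv, y, hy, rfl⟩ := hdec a ha
    obtain ⟨v', hv', y', hy', rfl⟩ := hdec b hb
    rw [commutatorElement_def, comm_mul_central (omE_comm E hv (hYQ hy)) (omE_comm E hv (hYQ hy'))
      (omE_comm E hv (omE_le_core E hv')) (omE_comm E hv' (hYQ hy)) (omE_comm E hv' (hYQ hy'))]
    exact commutator_mem_commutator hy hy'
  have hZne : ZE p E ≠ ⊥ := by
    intro h
    have h1 := n.hcardZ
    rw [h, Subgroup.card_bot] at h1
    have := Fintype.one_lt_card (α := F₁)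
    omega
  have hYO : ¬ Y ≤ OmE p F := by
    intro h
    apply hZne
    rw [eq_bot_iff]
    refine hZY.trans ?_
    rw [commutator_le]
    intro a ha b hb
    rw [commutatorElement_def, omE_comm F (h ha) (omE_le_core F (h hb))]
    have : b * a * a⁻¹ * b⁻¹ = 1 := by group
    rw [this]
    exact one_mem _
  have hQFO : pCoreOf p F ≠ OmE p F := fun h => hYO (hYF.trans h.le)
  rcases block_types X.hF with hq | tF | ⟨F₂, i1, i2, ⟨q⟩⟩
  · -- `F` quasisimple
    apply hY
    have hle : F ≤ secTriv (pCoreOf p E) (OmE p E) := by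
      apply le_of_quasi hq
      · intro f hf
        apply mem_normalizer_of_conj_le
        intro y hy
        exact conj_mem_secTriv (X.FQ hf) (X.FO hf) hy
      · intro f hf hfp
        refine ⟨X.FQ hf, X.FO hf, sec_p_trivial n.hirr₂ (isPGroup_pCoreOf E) (omE_le_core E)
          (fun a ha => le_normalizer_omE E (pCoreOf_le E ha)) (le_normalizer_pCoreOf E)
          (le_normalizer_omE E) X.FQ X.FO (fun e he a ha => X.comm he ha) hQQ' ?_ hf hfp⟩
        intro h
        apply hZne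
        rw [eq_bot_iff, ← n.hQQ, commutator_le]
        intro a ha b hb
        rw [commutatorElement_def, omE_comm E (h ha) hb]
        have : b * a * a⁻¹ * b⁻¹ = 1 := by group
        rw [this]
        exact one_mem _
    rw [hYd, commutator_le]
    intro a ha f hf
    have h1 := (hle hf).2.2 a ha
    have e : ⁅a, f⁆ = (f * a * f⁻¹ * a⁻¹)⁻¹ := by
      rw [commutatorElement_def]
      group
    rw [e]
    exact inv_mem h1
  · exact hQFO tF.2.2.1
  · rcases q.hex with hq | ⟨⟨m⟩⟩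
    · exact hQFO hq
    · have hcard₁ : Fintype.card F₁ = 3 := by
        have h1 : ZE p E ≤ ZE p F := by
          rw [← m.hQQ]
          exact hZY.trans (commutator_mono hYF hYF)
        have h2 := Subgroup.card_dvd_of_le h1
        rw [n.hcardZ, m.hcardZ, q.hF] at h2
        rcases (Nat.dvd_prime Nat.prime_three).1 h2 with h3 | h3
        · have := Fintype.one_lt_card (α := F₁)
          omega
        · exact h3
      have h3₁ := char3 hcard₁
      have hsm₁ := small3 hcard₁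
      have h3₂ := char3 q.hF
      obtain ⟨i₂, hi₂, j₂, hj₂, hf⟩ := exists_neg h3₂ m.n₂
      have hfF : i₂ * j₂ * i₂⁻¹ * j₂⁻¹ ∈ F :=
        mul_mem (mul_mem (mul_mem hi₂ hj₂) (inv_mem hi₂)) (inv_mem hj₂)
      have hs := scalar_comm' h3₁ hsm₁ n.n₂ X.FQ X.FO (le_normalizer_pCoreOf E)
        (le_normalizer_omE E) (fun e he f hf => X.comm he hf) hQQ' hi₂ hj₂
      set f₀ := i₂ * j₂ * i₂⁻¹ * j₂⁻¹ with hf₀
      have hFD : F ≤ normalizer ((Y ⊔ OmE p F : Subgroup G) : Set G) := fun f hf =>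
        mem_normalizer_sup (hFY hf) (le_normalizer_omE F hf)
      obtain ⟨u', hu', hu'O⟩ := SetLike.not_le_iff_exists.1 hYO
      have hD' : pCoreOf p F ≤ Y ⊔ OmE p F :=
        m.hirr₂ _ le_sup_right (sup_le hYF (omE_le_core F)) hFD ⟨u', mem_sup_left hu', hu'O⟩
      have hOY' : OmE p F ≤ normalizer (Y : Set G) := by
        intro w hw
        apply mem_normalizer_of_conj_le
        intro y hy
        rw [omE_comm F hw (hYF hy)]
        simpa using hy
      apply hYO
      intro y hy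
      have hyE := hYQ hy
      have hyF := hYF hy
      set y₁ := f₀ * y * f₀⁻¹ * y⁻¹ with hy₁
      have h1 : y₁ ∈ OmE p E := hs y hyE
      have h2 : y₁ ∈ pCoreOf p F :=
        mul_mem (conj_mem_of_mem_normalizer (le_normalizer_pCoreOf F hfF) hyF) (inv_mem hyF)
      have h3 : y₁ ∈ OmE p F := by
        refine mem_omegaOneCenter.2 ⟨h2, ?_, (mem_omegaOneCenter.1 h1).2.2⟩
        rw [mem_centralizer_iff]
        intro a ha
        have ha' := hD' ha
        rw [sup_comm] at ha'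
        obtain ⟨v, hv, y', hy', rfl⟩ := mem_sup_of_le_normalizer hOY' ha'
        have c1 : v * y₁ = y₁ * v := omE_comm F hv h2
        have c2 : y₁ * y' = y' * y₁ := omE_comm E h1 (hYQ hy')
        calc (v * y') * y₁ = v * (y' * y₁) := by group
          _ = v * (y₁ * y') := by rw [c2]
          _ = (v * y₁) * y' := by group
          _ = (y₁ * v) * y' := by rw [c1]
          _ = y₁ * (v * y') := by group
      have h4 : f₀ * y * f₀⁻¹ * y ∈ OmE p F :=
        sec_neg m.n₂ (le_normalizer_pCoreOf F) hfF hyF hf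
      have h5 : y * y ∈ OmE p F := by
        have e : y * y = y₁⁻¹ * (f₀ * y * f₀⁻¹ * y) := by
          rw [hy₁]
          group
        rw [e]
        exact mul_mem (inv_mem h3) h4
      have h6 : m.n₂.ψ y + m.n₂.ψ y = 0 := by
        rw [← m.n₂.ψ_mul y hyF y hyF]
        exact (m.n₂.ψ_ker _ (mul_mem hyF hyF)).2 h5
      exact (m.n₂.ψ_ker y hyF).1 (two_zero h3₂ h6)


/-- Acting trivially on `Ω / Z`: `E` and `F` commute. -/
theorem comm_eq_bot (hb : ⁅WE p E, F⁆ = ⊥) : ⁅E, F⁆ = ⊥ := by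
  rcases gen_or_ex X.hE with hq | ⟨F₁, i1, i2, ⟨n⟩⟩
  · exact X.of_gen hq hb
  · by_cases hY : ⁅pCoreOf p E, F⁆ ≤ OmE p E
    · exact X.of_ex_fix n hb hY
    · exact (X.false_of_g3 n hY).elim

end Pr1

namespace Pr0

variable {T : Sylow p G} {E F : Subgroup G} (X : Pr0 p T E F)

include X

/-- Acting trivially on `Ω / Z` gives `[E, F] ≤ O_p(E)`. -/
theorem hc_of_triv (h : F ≤ secTriv (OmE p E) (ZE p E)) :
    ∀ e ∈ E, ∀ f ∈ F, e * f * e⁻¹ * f⁻¹ ∈ pCoreOf p E := by
  intro e he f hf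
  apply ker_sec X.hE
  · have h1 : f * e⁻¹ * f⁻¹ ∈ E := conj_mem_of_mem_normalizer (X.FE hf) (inv_mem he)
    have e1 : e * f * e⁻¹ * f⁻¹ = e * (f * e⁻¹ * f⁻¹) := by group
    rw [e1]
    exact mul_mem he h1
  · have h2 : e * f * e⁻¹ * f⁻¹ ∈ secTriv (OmE p E) (ZE p E) :=
      mul_mem (conj_mem_secTriv (le_normalizer_omE E he) (le_normalizer_zE E he) (h hf))
        (inv_mem (h hf))
    exact h2.2.2

/-- **The case of trivial action on `Ω / Z`.** -/
theorem case_A (h : F ≤ secTriv (OmE p E) (ZE p E)) : ⁅E, F⁆ = ⊥ := by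
  have Y : Pr1 p T E F := { X with hc := X.hc_of_triv h }
  apply Y.comm_eq_bot
  apply Y.comm_bot
  rw [commutator_le]
  intro w hw f hf
  have h2 := (h hf).2.2 w (wE_le_omE E hw)
  have e : ⁅w, f⁆ = (f * w * f⁻¹ * w⁻¹)⁻¹ := by
    rw [commutatorElement_def]
    group
  rw [e]
  exact inv_mem h2

end Pr0

end Cfsg.Agent.Lib.BBlk.CaseA
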