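/-
Blocks: `F` normalizing a subnormal block `E`, acting nontrivially on `Ω / Z`. Then `W_F = [W_E, F]`.
-/
import Cfsg.Agent.Lib.BBlk.CaseA

set_option autoImplicit false
set_option linter.unusedSectionVars false
set_option linter.unusedVariables false

namespace Cfsg.Agent.Lib.BBlk

open Subgroup Cfsg Matrix
open Cfsg.Agent.Lib.LocalEven.Util
open Cfsg.Agent.Lib.LocalEven.Baumann
open Cfsg.Agent.Lib.LocalEven.BaumannBlock
open Cfsg.Agent.Lib.LocalEven.SecIrr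
open Cfsg.Agent.Lib.LocalStruct.PCoreOf
open Cfsg.Agent.Lib.FG85.BB
open Cfsg.Agent.Lib.BPair.Basic
open Cfsg.Agent.Lib.BPair.Types
open Cfsg.Agent.Lib.BPair.Comm
open Cfsg.Agent.Lib.BBlk.Sec
open Cfsg.Agent.Lib.BBlk.CaseA
open Cfsg.Agent.Lib.Components.Basic
open Cfsg.Agent.Lib.PReduced.RelNorm (mem_normalizer_inf mem_normalizer_sup mem_normalizer_centralizer)
open scoped commutatorElement

universe u

variable {G : Type u} [Group G] [Finite G] {p : ℕ} [Fact p.Prime]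

namespace B0

/-- An invariant subgroup of `O_p(F)` of an exceptional block `F`, not in `Ω`. -/
theorem exc_dec {T F : Subgroup G} {K : Type} [Field K] [Fintype K] (n : ExD p K T F) {D : Subgroup G}
    (hDQ : D ≤ pCoreOf p F) (hFD : F ≤ normalizer (D : Set G)) (hne : ¬ D ≤ OmE p F) :
    (∀ a ∈ pCoreOf p F, ∃ v ∈ OmE p F, ∃ y ∈ D, v * y = a) ∧ ZE p F ≤ ⁅D, D⁆ := by
  obtain ⟨u, hu, huO⟩ := SetLike.not_le_iff_exists.1 hne
  have hD : pCoreOf p F ≤ D ⊔ OmE p F :=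
    n.hirr₂ _ le_sup_right (sup_le hDQ (omE_le_core F))
      (fun f hf => mem_normalizer_sup (hFD hf) (le_normalizer_omE F hf)) ⟨u, mem_sup_left hu, huO⟩
  have hOY : OmE p F ≤ normalizer (D : Set G) := by
    intro w hw
    apply mem_normalizer_of_conj_le
    intro y hy
    rw [omE_comm F hw (hDQ hy)]
    simpa using hy
  have hdec : ∀ a ∈ pCoreOf p F, ∃ v ∈ OmE p F, ∃ y ∈ D, v * y = a := by
    intro a ha
    have := hD ha
    rw [sup_comm] at this
    exact mem_sup_of_le_normalizer hOY this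
  refine ⟨hdec, ?_⟩
  rw [← n.hQQ, commutator_le]
  intro a ha b hb
  obtain ⟨v, hv, y, hy, rfl⟩ := hdec a ha
  obtain ⟨v', hv', y', hy', rfl⟩ := hdec b hb
  rw [commutatorElement_def, comm_mul_central (omE_comm F hv (hDQ hy)) (omE_comm F hv (hDQ hy'))
    (omE_comm F hv (omE_le_core F hv')) (omE_comm F hv' (hDQ hy)) (omE_comm F hv' (hDQ hy'))]
  exact commutator_mem_commutator hy hy'

theorem zE_ne_bot {T F : Subgroup G} {K : Type} [Field K] [Fintype K] (n : ExD p K T F) :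
    ZE p F ≠ ⊥ := by
  intro h
  have h1 := n.hcardZ
  rw [h, Subgroup.card_bot] at h1
  have := Fintype.one_lt_card (α := K)
  omega

section

variable {T : Sylow p G} {E F : Subgroup G}

/-- Elements of `Ω₁(Z(O_p(G)))` in `O_p(F)` lie in `Ω_F`, for every block `F`. -/
theorem vcore_le_om (hF : IsBaumannBlock p (T : Subgroup G) F) {y : G} (hyV : y ∈ VV₀ p G)
    (hyQ : y ∈ pCoreOf p F) : y ∈ OmE p F := by
  rcases gen_or_ex hF with hq | ⟨K, i1, i2, ⟨n⟩⟩
  · rw [← hq]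
    exact hyQ
  · by_contra hy
    set D : Subgroup G := VV₀ p G ⊓ pCoreOf p F with hD
    have hne : ¬ D ≤ OmE p F := fun h => hy (h (mem_inf.2 ⟨hyV, hyQ⟩))
    have hFD : F ≤ normalizer (D : Set G) := fun f hf =>
      mem_normalizer_inf (vV₀_normal f) (le_normalizer_pCoreOf F hf)
    obtain ⟨-, h2⟩ := exc_dec n inf_le_right hFD hne
    apply zE_ne_bot n
    rw [eq_bot_iff]
    refine h2.trans ?_
    rw [commutator_le]
    intro a ha b hb
    have hab := vV₀_central (mem_inf.1 ha).1 (omegaOneCenter_le _ (mem_inf.1 hb).1)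
    rw [commutatorElement_def, hab]
    have : b * a * a⁻¹ * b⁻¹ = 1 := by group
    rw [this]
    exact one_mem _

end

end B0

open B0

namespace CaseA.Pr0

variable {T : Sylow p G} {E F : Subgroup G} (X : Pr0 p T E F)

include X

/-- `[W_E, F] ≤ Ω_F`. -/
theorem Y_le_om : ⁅WE p E, F⁆ ≤ OmE p F := by
  rw [commutator_le]
  intro w hw f hf
  have hwV := wE_le_vV₀ X.hG X.hE hw
  have hwP : w ∈ pCore p G := omegaOneCenter_le _ hwV
  apply vcore_le_om X.hF
  · have e1 : ⁅w, f⁆ = w * (f * w⁻¹ * f⁻¹) := by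
      rw [commutatorElement_def]
      group
    rw [e1]
    exact mul_mem hwV (conj_mem_of_mem_normalizer (vV₀_normal f) (inv_mem hwV))
  · have h1 := comm_core' X.hF hwP hf
    exact h1

theorem Y_le_W : ⁅WE p E, F⁆ ≤ WE p E :=
  Cfsg.Agent.Lib.QuadAct.Basic.commutator_le_of_le_normalizer X.FW

theorem Y_le_comm : ⁅WE p E, F⁆ ≤ ⁅⁅WE p E, F⁆, F⁆ :=
  comm_le_comm_comm (block_gen X.hF) (isPGroup_wE E)
    (fun a ha b hb => omE_comm E (wE_le_omE E ha) (omE_le_core E (wE_le_omE E hb))) X.FW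

theorem Y_le_wF : ⁅WE p E, F⁆ ≤ WE p F :=
  X.Y_le_comm.trans (commutator_mono X.Y_le_om le_rfl)

theorem FY : F ≤ normalizer ((⁅WE p E, F⁆ : Subgroup G) : Set G) := fun f hf =>
  mem_normalizer_commutator (X.FW hf) (le_normalizer hf)

/-- If `[W_E, F]` is central in `E`, `F` acts trivially on `Ω / Z`. -/
theorem triv_of_le (h : ⁅WE p E, F⁆ ≤ ZE p E) : F ≤ secTriv (OmE p E) (ZE p E) := by
  intro f hf
  refine ⟨X.FO hf, X.FZ hf, fun u hu => ?_⟩
  obtain ⟨v, hv, z, hz, rfl⟩ := exists_decomp X.hE hu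
  have h1 : f * v * f⁻¹ * v⁻¹ ∈ ZE p E := by
    have h2 : ⁅v, f⁆ ∈ ZE p E := h (commutator_mem_commutator hv hf)
    have e : f * v * f⁻¹ * v⁻¹ = ⁅v, f⁆⁻¹ := by
      rw [commutatorElement_def]
      group
    rw [e]
    exact inv_mem h2
  have h3 : f * z * f⁻¹ * z⁻¹ ∈ ZE p E :=
    mul_mem (conj_mem_of_mem_normalizer (X.FZ hf) hz) (inv_mem hz)
  have e : f * (v * z) * f⁻¹ * (v * z)⁻¹ =
      (f * v * f⁻¹ * v⁻¹) * (v * (f * z * f⁻¹ * z⁻¹) * v⁻¹) := by group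
  rw [e]
  exact mul_mem h1 (conj_mem_of_mem_normalizer (X.OZ (wE_le_omE E hv)) h3)

/-- `F` acts nontrivially: `W_F = [W_E, F]`. -/
theorem wF_eq (h : ¬ F ≤ secTriv (OmE p E) (ZE p E)) : WE p F = ⁅WE p E, F⁆ := by
  apply le_antisymm _ X.Y_le_wF
  apply wE_le_of_inv X.hF X.Y_le_om X.FY
  intro hle
  apply h
  apply X.triv_of_le
  have h1 : ⁅⁅WE p E, F⁆, F⁆ = ⊥ := by
    rw [commutator_eq_bot_iff_le_centralizer]
    exact hle.trans inf_le_right
  have h2 := X.Y_le_comm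
  rw [h1, le_bot_iff] at h2
  rw [h2]
  exact bot_le

theorem wF_le_wE (h : ¬ F ≤ secTriv (OmE p E) (ZE p E)) : WE p F ≤ WE p E := by
  rw [X.wF_eq h]
  exact X.Y_le_W

theorem wF_not_le (h : ¬ F ≤ secTriv (OmE p E) (ZE p E)) : ¬ WE p F ≤ ZE p E := by
  rw [X.wF_eq h]
  exact fun h2 => h (X.triv_of_le h2)

end CaseA.Pr0

end Cfsg.Agent.Lib.BBlk
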