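/-
Blocks: semilinear action of the normalizer of a block on a natural section.
-/
import Cfsg.Agent.Lib.BBlk.B0

set_option autoImplicit false
set_option linter.unusedSectionVars false
set_option linter.unusedVariables false

namespace Cfsg.Agent.Lib.BBlk.Semi

open Subgroup Cfsg Matrix
open Cfsg.Agent.Lib.LocalEven.Util
open Cfsg.Agent.Lib.LocalEven.Baumann
open Cfsg.Agent.Lib.LocalEven.BaumannBlock
open Cfsg.Agent.Lib.LocalEven.SecIrr
open Cfsg.Agent.Lib.LocalStruct.PCoreOf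
open Cfsg.Agent.Lib.FG85.BB
open Cfsg.Agent.Lib.BPair.Basic
open Cfsg.Agent.Lib.BPair.Small
open Cfsg.Agent.Lib.BPair.Types
open Cfsg.Agent.Lib.BPair.Sec
open Cfsg.Agent.Lib.BPair.Inv
open Cfsg.Agent.Lib.BPair.Comm
open Cfsg.Agent.Lib.BBlk.Sec
open Cfsg.Agent.Lib.BBlk.CaseA
open Cfsg.Agent.Lib.BBlk.B0
open Cfsg.Agent.Lib.Components.Basic
open Cfsg.Agent.Lib.PReduced.RelNorm (mem_normalizer_inf mem_normalizer_sup mem_normalizer_centralizer)
open scoped commutatorElement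

universe u

section Field

variable {K : Type} [Field K]

/-- An additive map commuting with the derived group of `SL₂(K)`, containing the root elements, is
a scalar. -/
theorem scalar_of_comm (huu : ∀ a : K, uu a ∈ SS K) (L : AddMonoid.End (Fin 2 → K))
    (hL : ∀ s ∈ SS K, ∀ x, L ((s : SpecialLinearGroup (Fin 2) K) *ᵥ x) =
      (s : SpecialLinearGroup (Fin 2) K) *ᵥ L x) :
    ∃ τ : K, ∀ x, L x = τ • x := by
  set v := L ![1, 0] with hv
  have h1 : ((uu 1 : SpecialLinearGroup (Fin 2) K) : Matrix (Fin 2) (Fin 2) K) *ᵥ v = v := by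
    rw [hv, ← hL _ (huu 1), uu_mulVec]
  have h2 : v 1 = 0 := by
    have := congrFun h1 0
    rw [Cfsg.Agent.Lib.FG85.BB.mulVec_fin_two] at this
    simpa [uu] using this
  have h3 : v = v 0 • ![1, 0] := by
    ext i
    fin_cases i
    · simp
    · simp [h2]
  refine ⟨v 0, fun x => ?_⟩
  by_cases hx : x = 0
  · rw [hx, map_zero, smul_zero]
  obtain ⟨r, hr, hrx⟩ := exists_comm_mulVec x hx
  rw [← hrx, hL r hr, ← hv]
  conv_lhs => rw [h3]
  rw [Matrix.mulVec_smul]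

/-- Ring endomorphisms of a finite field commute. -/
theorem ringHom_comm [Finite K] (σ τ : K →+* K) (c : K) : σ (τ c) = τ (σ c) := by
  by_cases hc : c = 0
  · rw [hc, map_zero, map_zero, map_zero]
  obtain ⟨γ, hγ⟩ := IsCyclic.exists_generator (α := Kˣ)
  have hpow : ∀ u : Kˣ, ∃ k : ℕ, γ ^ k = u := by
    intro u
    have h1 : u ∈ zpowers γ := hγ u
    have h2 := (isOfFinOrder_of_finite γ).mem_powers_iff_mem_zpowers.2 h1
    exact h2
  have hpow' : ∀ x : K, x ≠ 0 → ∃ k : ℕ, (γ : K) ^ k = x := by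
    intro x hx
    obtain ⟨k, hk⟩ := hpow (Units.mk0 x hx)
    refine ⟨k, ?_⟩
    have := congrArg Units.val hk
    simpa using this
  obtain ⟨k, rfl⟩ := hpow' c hc
  have hγ0 : (γ : K) ≠ 0 := γ.ne_zero
  obtain ⟨a, ha⟩ := hpow' (σ γ) ((map_ne_zero σ).2 hγ0)
  obtain ⟨b, hb⟩ := hpow' (τ γ) ((map_ne_zero τ).2 hγ0)
  simp only [map_pow]
  rw [← ha, ← hb]
  simp only [map_pow]
  rw [← ha, ← hb]
  simp only [← pow_mul]
  congr 1
  ring

/-- A `K`-linear additive map is given by a matrix. -/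
theorem exists_matrix_of_lin (φ : AddMonoid.End (Fin 2 → K))
    (hs : ∀ (a : K) (y : Fin 2 → K), φ (a • y) = a • φ y) :
    ∃ M : Matrix (Fin 2) (Fin 2) K, ∀ x, φ x = M *ᵥ x := by
  refine ⟨Matrix.of ![![(φ ![1, 0]) 0, (φ ![0, 1]) 0], ![(φ ![1, 0]) 1, (φ ![0, 1]) 1]], fun x => ?_⟩
  have h1 : x = x 0 • ![1, 0] + x 1 • ![0, 1] := by
    ext i
    fin_cases i <;> simp
  conv_lhs => rw [h1, map_add, hs, hs]
  rw [Cfsg.Agent.Lib.FG85.BB.mulVec_fin_two]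
  ext i
  fin_cases i <;> simp [mul_comm]

/-- `p`-th powers in characteristic `p`. -/
theorem eq_one_of_pow_prime {p : ℕ} [hp : Fact p.Prime] (hpK : (p : K) = 0) {x : K} {k : ℕ}
    (h : x ^ (p ^ k) = 1) : x = 1 := by
  haveI : CharP K p := (CharP.charP_iff_prime_eq_zero hp.out).2 hpK
  have h1 : (x - 1) ^ (p ^ k) = 0 := by
    rw [sub_pow_char_pow, h, one_pow, sub_self]
  exact sub_eq_zero.1 (pow_eq_zero_iff (pow_ne_zero _ hp.out.ne_zero) |>.1 h1)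

/-- Powers of the additive map of a matrix. -/
theorem hat_pow_mat {φ : AddMonoid.End (Fin 2 → K)} {M : Matrix (Fin 2) (Fin 2) K}
    (hM : ∀ x, φ x = M *ᵥ x) (k : ℕ) (x : Fin 2 → K) : (φ ^ k) x = (M ^ k) *ᵥ x := by
  induction k generalizing x with
  | zero => simp
  | succ k ih =>
    rw [pow_succ, pow_succ]
    show (φ ^ k) (φ x) = _
    rw [ih, hM, Matrix.mulVec_mulVec]

/-- The matrix of a power. -/
theorem det_eq_one_of_pow {p : ℕ} [hp : Fact p.Prime] (hpK : (p : K) = 0)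
    {φ : AddMonoid.End (Fin 2 → K)} {M : Matrix (Fin 2) (Fin 2) K}
    (hM : ∀ x, φ x = M *ᵥ x) {k : ℕ} (h : φ ^ (p ^ k) = 1) : M.det = 1 := by
  have h1 : M ^ (p ^ k) = 1 := by
    apply matrix_eq_one_of_mulVec
    intro x
    rw [← hat_pow_mat hM, h]
    rfl
  have h2 : M.det ^ (p ^ k) = 1 := by
    rw [← Matrix.det_pow, h1, Matrix.det_one]
  exact eq_one_of_pow_prime hpK h2

end Field

variable {G : Type u} [Group G] [Finite G] {p : ℕ} [hp : Fact p.Prime]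

section Sec

variable {K : Type} [Field K] {E U U₀ : Subgroup G} (n : NatSec K E U U₀)
  (hN₁ : normalizer (E : Set G) ≤ normalizer (U : Set G))
  (hN₂ : normalizer (E : Set G) ≤ normalizer (U₀ : Set G))

/-- The action of the normalizer. -/
noncomputable abbrev hat₀ : SecData (normalizer (E : Set G)) U U₀ (Fin 2 → K) := n.sec hN₁ hN₂

theorem hat_pr {g u : G} (hg : g ∈ normalizer (E : Set G)) (hu : u ∈ U) :
    n.ψ (g * u * g⁻¹) = (hat₀ n hN₁ hN₂).hat g (n.ψ u) := by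
  have := (hat₀ n hN₁ hN₂).hat_spec g hg u hu
  rwa [NatSec.sec_pr] at this

theorem hat_mem {e : G} (he : e ∈ E) (x : Fin 2 → K) :
    (hat₀ n hN₁ hN₂).hat e x = (n.ρ e : Matrix (Fin 2) (Fin 2) K) *ᵥ x :=
  hat_eq_mulVec n hN₁ hN₂ he x

/-- Conjugation of the matrices of `E`. -/
theorem hat_comm {g e : G} (hg : g ∈ normalizer (E : Set G)) (he : e ∈ E) (x : Fin 2 → K) :
    (hat₀ n hN₁ hN₂).hat g ((n.ρ e : Matrix (Fin 2) (Fin 2) K) *ᵥ x) =
      (n.ρ (g * e * g⁻¹) : Matrix (Fin 2) (Fin 2) K) *ᵥ (hat₀ n hN₁ hN₂).hat g x := by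
  set d := hat₀ n hN₁ hN₂ with hd
  have he' : g * e * g⁻¹ ∈ E := conj_mem_of_mem_normalizer hg he
  have hen : e ∈ normalizer (E : Set G) := le_normalizer he
  have h1 : d.hat (g * e) = d.hat (g * e * g⁻¹) * d.hat g := by
    rw [← d.hat_mul _ (le_normalizer he') _ hg]
    congr 1
    group
  have h2 := congrArg (fun f : AddMonoid.End (Fin 2 → K) => f x) h1
  simp only [d.hat_mul _ hg _ hen] at h2
  rw [← hat_mem n hN₁ hN₂ he, ← hat_mem n hN₁ hN₂ he']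
  exact h2

/-- Semilinearity. -/
theorem semi_exists (huu : ∀ a : K, uu a ∈ SS K) {g : G} (hg : g ∈ normalizer (E : Set G)) (c : K) :
    ∃ τ : K, ∀ x, (hat₀ n hN₁ hN₂).hat g (c • x) = τ • (hat₀ n hN₁ hN₂).hat g x := by
  set d := hat₀ n hN₁ hN₂ with hd
  have hgi := inv_mem hg
  -- the conjugate of the scalar
  let sc : AddMonoid.End (Fin 2 → K) :=
    { toFun := fun x => c • x
      map_zero' := smul_zero c
      map_add' := fun x y => smul_add c x y }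
  have hsc : ∀ x, sc x = c • x := fun x => rfl
  obtain ⟨τ, hτ⟩ := scalar_of_comm huu (d.hat g * sc * d.hat g⁻¹) (by
    intro s hs x
    obtain ⟨e, he, rfl⟩ := n.ρ_surj s hs
    show d.hat g (c • d.hat g⁻¹ ((n.ρ e : Matrix (Fin 2) (Fin 2) K) *ᵥ x)) =
      (n.ρ e : Matrix (Fin 2) (Fin 2) K) *ᵥ d.hat g (c • d.hat g⁻¹ x)
    have he₂ : g⁻¹ * e * g⁻¹⁻¹ ∈ E := conj_mem_of_mem_normalizer hgi he
    rw [hat_comm n hN₁ hN₂ hgi he, ← Matrix.mulVec_smul, hat_comm n hN₁ hN₂ hg he₂]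
    have e1 : g * (g⁻¹ * e * g⁻¹⁻¹) * g⁻¹ = e := by group
    rw [e1])
  refine ⟨τ, fun x => ?_⟩
  have := hτ (d.hat g x)
  have e1 : (d.hat g * sc * d.hat g⁻¹) (d.hat g x) = d.hat g (c • d.hat g⁻¹ (d.hat g x)) := rfl
  rw [e1, d.hat_inv_apply hg] at this
  exact this

/-- The field automorphism of an element of the normalizer. -/
theorem exists_ringHom (huu : ∀ a : K, uu a ∈ SS K) {g : G} (hg : g ∈ normalizer (E : Set G)) :
    ∃ σ : K →+* K, ∀ (c : K) x, (hat₀ n hN₁ hN₂).hat g (c • x) = σ c • (hat₀ n hN₁ hN₂).hat g x := by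
  set d := hat₀ n hN₁ hN₂ with hd
  choose τ hτ using fun c => semi_exists n hN₁ hN₂ huu hg c
  set y₀ : Fin 2 → K := d.hat g⁻¹ ![1, 0] with hy₀
  have hy : d.hat g y₀ = ![1, 0] := d.hat_apply_inv hg _
  have hval : ∀ c, τ c = (d.hat g (c • y₀)) 0 := by
    intro c
    rw [hτ c, hy]
    simp
  refine ⟨{ toFun := τ, map_one' := ?_, map_mul' := ?_, map_zero' := ?_, map_add' := ?_ }, hτ⟩
  · rw [hval, one_smul, hy]
    simp
  · intro a b
    rw [hval, mul_smul, hτ a, hτ b, hy]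
    simp [mul_comm]
  · rw [hval, zero_smul, map_zero]
    rfl
  · intro a b
    rw [hval, hval, hval, add_smul, map_add]
    rfl

/-- Elements of the normalizer acting `K`-linearly. -/
def Lin : Subgroup G where
  carrier := {g | g ∈ normalizer (E : Set G) ∧ ∀ (c : K) x,
    (hat₀ n hN₁ hN₂).hat g (c • x) = c • (hat₀ n hN₁ hN₂).hat g x}
  mul_mem' := by
    rintro a b ⟨ha, ha'⟩ ⟨hb, hb'⟩
    refine ⟨mul_mem ha hb, fun c x => ?_⟩
    rw [(hat₀ n hN₁ hN₂).hat_mul _ ha _ hb]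
    show (hat₀ n hN₁ hN₂).hat a ((hat₀ n hN₁ hN₂).hat b (c • x)) = c • (hat₀ n hN₁ hN₂).hat a ((hat₀ n hN₁ hN₂).hat b x)
    rw [hb', ha']
  one_mem' := by
    refine ⟨one_mem _, fun c x => ?_⟩
    rw [(hat₀ n hN₁ hN₂).hat_one]
    rfl
  inv_mem' := by
    rintro a ⟨ha, ha'⟩
    refine ⟨inv_mem ha, fun c x => ?_⟩
    set d := hat₀ n hN₁ hN₂ with hd
    have h1 : d.hat a (d.hat a⁻¹ (c • x)) = d.hat a (c • d.hat a⁻¹ x) := by
      rw [ha', d.hat_apply_inv ha, d.hat_apply_inv ha]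
    have h2 := congrArg (d.hat a⁻¹) h1
    rw [d.hat_inv_apply ha, d.hat_inv_apply ha] at h2
    exact h2

theorem mem_Lin {g : G} : g ∈ Lin n hN₁ hN₂ ↔ g ∈ normalizer (E : Set G) ∧ ∀ (c : K) x,
    (hat₀ n hN₁ hN₂).hat g (c • x) = c • (hat₀ n hN₁ hN₂).hat g x := Iff.rfl

/-- Commutators act linearly. -/
theorem comm_mem_Lin [Finite K] (huu : ∀ a : K, uu a ∈ SS K) {g h : G}
    (hg : g ∈ normalizer (E : Set G)) (hh : h ∈ normalizer (E : Set G)) :
    g * h * g⁻¹ * h⁻¹ ∈ Lin n hN₁ hN₂ := by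
  set d := hat₀ n hN₁ hN₂ with hd
  refine ⟨mul_mem (mul_mem (mul_mem hg hh) (inv_mem hg)) (inv_mem hh), fun c x => ?_⟩
  obtain ⟨s₁, h₁⟩ := exists_ringHom n hN₁ hN₂ huu hg
  obtain ⟨s₂, h₂⟩ := exists_ringHom n hN₁ hN₂ huu hh
  obtain ⟨s₃, h₃⟩ := exists_ringHom n hN₁ hN₂ huu (inv_mem hg)
  obtain ⟨s₄, h₄⟩ := exists_ringHom n hN₁ hN₂ huu (inv_mem hh)
  have inv₁ : ∀ a, s₁ (s₃ a) = a := by
    intro a
    have h5 := h₁ (s₃ a) (d.hat g⁻¹ ![1, 0])
    rw [← h₃, d.hat_apply_inv hg, d.hat_apply_inv hg] at h5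
    have := congrFun h5 0
    simpa using this.symm
  have inv₂ : ∀ a, s₂ (s₄ a) = a := by
    intro a
    have h5 := h₂ (s₄ a) (d.hat h⁻¹ ![1, 0])
    rw [← h₄, d.hat_apply_inv hh, d.hat_apply_inv hh] at h5
    have := congrFun h5 0
    simpa using this.symm
  rw [d.hat_mul _ (mul_mem (mul_mem hg hh) (inv_mem hg)) _ (inv_mem hh),
    d.hat_mul _ (mul_mem hg hh) _ (inv_mem hg), d.hat_mul _ hg _ hh]
  show d.hat g (d.hat h (d.hat g⁻¹ (d.hat h⁻¹ (c • x)))) =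
    c • d.hat g (d.hat h (d.hat g⁻¹ (d.hat h⁻¹ x)))
  rw [h₄, h₃, h₂, h₁, ringHom_comm s₂ s₃, inv₁, inv₂]

/-- The block `F` acts linearly. -/
theorem block_le_Lin [Finite K] (huu : ∀ a : K, uu a ∈ SS K) {T F : Subgroup G}
    (hF : IsBaumannBlock p T F) (hFE : F ≤ normalizer (E : Set G))
    (hBE : baumannSubgroupOf p T ≤ normalizer (E : Set G)) : F ≤ Lin n hN₁ hN₂ := by
  rw [← hF.2.1, commutator_le]
  intro f hf b hb
  exact comm_mem_Lin n hN₁ hN₂ huu (hFE hf) (hBE hb)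

/-- Commutators of linear elements have determinant one. -/
theorem det_comm {g h : G} (hg : g ∈ Lin n hN₁ hN₂) (hh : h ∈ Lin n hN₁ hN₂) :
    ∃ M : Matrix (Fin 2) (Fin 2) K, (∀ x, (hat₀ n hN₁ hN₂).hat (g * h * g⁻¹ * h⁻¹) x = M *ᵥ x) ∧
      M.det = 1 := by
  set d := hat₀ n hN₁ hN₂ with hd
  obtain ⟨A, hA⟩ := exists_matrix_of_lin (d.hat g) hg.2
  obtain ⟨B, hB⟩ := exists_matrix_of_lin (d.hat h) hh.2
  obtain ⟨C, hC⟩ := exists_matrix_of_lin (d.hat g⁻¹) (inv_mem hg).2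
  obtain ⟨D, hD⟩ := exists_matrix_of_lin (d.hat h⁻¹) (inv_mem hh).2
  have hAC : A * C = 1 := by
    apply matrix_eq_one_of_mulVec
    intro x
    rw [← Matrix.mulVec_mulVec, ← hC, ← hA, d.hat_apply_inv hg.1]
  have hBD : B * D = 1 := by
    apply matrix_eq_one_of_mulVec
    intro x
    rw [← Matrix.mulVec_mulVec, ← hD, ← hB, d.hat_apply_inv hh.1]
  refine ⟨A * B * C * D, fun x => ?_, ?_⟩
  · rw [d.hat_mul _ (mul_mem (mul_mem hg.1 hh.1) (inv_mem hg.1)) _ (inv_mem hh.1),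
      d.hat_mul _ (mul_mem hg.1 hh.1) _ (inv_mem hg.1), d.hat_mul _ hg.1 _ hh.1]
    show d.hat g (d.hat h (d.hat g⁻¹ (d.hat h⁻¹ x))) = _
    rw [hD, hC, hB, hA]
    simp only [Matrix.mulVec_mulVec, Matrix.mul_assoc]
  · have h1 : A.det * C.det = 1 := by rw [← Matrix.det_mul, hAC, Matrix.det_one]
    have h2 : B.det * D.det = 1 := by rw [← Matrix.det_mul, hBD, Matrix.det_one]
    rw [Matrix.det_mul, Matrix.det_mul, Matrix.det_mul]
    calc A.det * B.det * C.det * D.det = (A.det * C.det) * (B.det * D.det) := by ring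
      _ = 1 := by rw [h1, h2, one_mul]

/-- A matrix of determinant one in `SS` comes from `E`. -/
theorem exists_of_det {g : G} {M : Matrix (Fin 2) (Fin 2) K} (hS : SS K = ⊤)
    (hM : ∀ x, (hat₀ n hN₁ hN₂).hat g x = M *ᵥ x) (hd : M.det = 1) :
    ∃ e ∈ E, ∀ x, (hat₀ n hN₁ hN₂).hat g x = (hat₀ n hN₁ hN₂).hat e x := by
  obtain ⟨e, he, hee⟩ := n.ρ_surj ⟨M, hd⟩ (by rw [hS]; trivial)
  refine ⟨e, he, fun x => ?_⟩
  rw [hM, hat_mem n hN₁ hN₂ he, hee]

end Sec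

end Cfsg.Agent.Lib.BBlk.Semi
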