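/-
Blocks: `F` normalizing a block with natural section of `SL₂(K)`, `|K| ≥ 4`.
-/
import Cfsg.Agent.Lib.BBlk.Semi

set_option autoImplicit false
set_option linter.unusedSectionVars false
set_option linter.unusedVariables false

namespace Cfsg.Agent.Lib.BBlk.SemiF

open Subgroup Cfsg Matrix
open Cfsg.Agent.Lib.LocalEven.Util
open Cfsg.Agent.Lib.LocalEven.Baumann
open Cfsg.Agent.Lib.LocalEven.BaumannBlock
open Cfsg.Agent.Lib.LocalEven.SecIrr
open Cfsg.Agent.Lib.LocalStruct.PCoreOf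
open Cfsg.Agent.Lib.FG85.BB
open Cfsg.Agent.Lib.BPair.Basic
open Cfsg.Agent.Lib.BPair.Small
open Cfsg.Agent.Lib.BPair.Types
open Cfsg.Agent.Lib.BPair.Sec
open Cfsg.Agent.Lib.BPair.Inv
open Cfsg.Agent.Lib.BPair.Comm
open Cfsg.Agent.Lib.BBlk.Sec
open Cfsg.Agent.Lib.BBlk.CaseA
open Cfsg.Agent.Lib.BBlk.B0
open Cfsg.Agent.Lib.BBlk.Semi
open Cfsg.Agent.Lib.Components.Basic
open Cfsg.Agent.Lib.PReduced.RelNorm (mem_normalizer_inf mem_normalizer_sup mem_normalizer_centralizer)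
open scoped commutatorElement

universe u

variable {G : Type u} [Group G] [Finite G] {p : ℕ} [hp : Fact p.Prime]

variable {K : Type} [Field K] {T₀ E F : Subgroup G}

/-- The action on `Ω / Z`. -/
noncomputable abbrev dd (n : NatSec K E (OmE p E) (ZE p E)) :
    SecData (normalizer (E : Set G)) (OmE p E) (ZE p E) (Fin 2 → K) :=
  hat₀ n (normalizer_le_omE E) (normalizer_le_zE E)

theorem cw_of_hat (hE : IsBaumannBlock p T₀ E) (n : NatSec K E (OmE p E) (ZE p E)) {g : G}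
    (hg : g ∈ normalizer (E : Set G)) (h : ∀ x, (dd n).hat g x = x) : g ∈ CW p E :=
  cen_of_sec hE hg (((dd n).hat_eq_one_iff hg (normalizer_le_omE E hg)).1 (AddMonoidHom.ext h))

theorem sup_of_hat (hE : IsBaumannBlock p T₀ E) (n : NatSec K E (OmE p E) (ZE p E)) {g e : G}
    (hg : g ∈ normalizer (E : Set G)) (he : e ∈ E) (h : ∀ x, (dd n).hat g x = (dd n).hat e x) :
    g ∈ E ⊔ CW p E := by
  have hen : e ∈ normalizer (E : Set G) := le_normalizer he
  have hk : e⁻¹ * g ∈ CW p E := by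
    apply cw_of_hat hE n (mul_mem (inv_mem hen) hg)
    intro x
    rw [(dd n).hat_mul _ (inv_mem hen) _ hg]
    show (dd n).hat e⁻¹ ((dd n).hat g x) = x
    rw [h, (dd n).hat_inv_apply hen]
  have e1 : g = e * (e⁻¹ * g) := by group
  rw [e1]
  exact mul_mem (mem_sup_left he) (mem_sup_right hk)

theorem sup_norm (E : Subgroup G) : normalizer (E : Set G) ≤ normalizer ((E ⊔ CW p E : Subgroup G) : Set G) :=
  fun g hg => mem_normalizer_sup hg (normalizer_le_cW E hg)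

section

variable {T : Sylow p G} (X : Pr0 p T E F)

include X

theorem le_Lin [Finite K] (n : NatSec K E (OmE p E) (ZE p E)) (hS : SS K = ⊤) :
    F ≤ Lin n (normalizer_le_omE E) (normalizer_le_zE E) :=
  block_le_Lin n _ _ (fun a => by rw [hS]; trivial) X.hF X.FE (baumann_le_normalizer_block X.hE)

/-- `F` quasisimple: it induces inner automorphisms on `Ω / Z`. -/
theorem semi_quasi [Finite K] (hq : Quasi p F) (n : NatSec K E (OmE p E) (ZE p E)) (hS : SS K = ⊤)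
    (hpK : (p : K) = 0) : F ≤ E ⊔ CW p E := by
  have hL := le_Lin X n hS
  apply le_of_quasi hq (X.FE.trans (sup_norm E))
  rintro f hf ⟨k, hk⟩
  obtain ⟨M, hM⟩ := exists_matrix_of_lin ((dd n).hat f) (hL hf).2
  have hN := X.FE hf
  have h1 : ((dd n).hat f) ^ (p ^ k) = 1 := by
    rw [← (dd n).hat_pow hN, hk, (dd n).hat_one]
  have hd := det_eq_one_of_pow hpK hM h1
  obtain ⟨e, he, hee⟩ := exists_of_det n _ _ hS hM hd
  exact sup_of_hat X.hE n hN he hee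

/-- `F` with quaternion quotient cannot act nontrivially for `|K| ≥ 4`. -/
theorem semi_qb [Finite K] {K₂ : Type} [Field K₂] [Fintype K₂] (hne : ¬ F ≤ secTriv (OmE p E) (ZE p E))
    (q : QB p K₂ (T : Subgroup G) F) (n : NatSec K E (OmE p E) (ZE p E)) (h4 : 4 ≤ Nat.card K)
    (hpK : (p : K) = 0) : False := by
  classical
  have hS : SS K = ⊤ := SS_eq_top h4
  have hL := le_Lin X n hS
  have hp3 : p = 3 := q.hp
  have h3K : (3 : K) = 0 := by
    rw [hp3] at hpK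
    exact_mod_cast hpK
  have h3 := char3 q.hF
  have hker := ker_om q.n₁ q.hiso
  obtain ⟨i, hi, j, hj, hf⟩ := exists_neg h3 q.n₁
  set f₀ := i * j * i⁻¹ * j⁻¹ with hf₀
  have hf₀F : f₀ ∈ F := mul_mem (mul_mem (mul_mem hi hj) (inv_mem hi)) (inv_mem hj)
  have hf₀N : f₀ ∈ normalizer (E : Set G) := X.FE hf₀F
  obtain ⟨M, hM, hd⟩ := det_comm n _ _ (hL hi) (hL hj)
  rw [← hf₀] at hM
  obtain ⟨y₀, hy₀, hy₀Z⟩ := SetLike.not_le_iff_exists.1 (X.wF_not_le hne)
  have hWW := X.wF_le_wE hne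
  have hy₀Ω : y₀ ∈ OmE p E := wE_le_omE E (hWW hy₀)
  have hψ0 : n.ψ y₀ ≠ 0 := fun h => hy₀Z ((n.ψ_ker _ hy₀Ω).1 h)
  have hinv := inv_wE q.n₁ hker hf₀F hy₀ hf
  have hv : M *ᵥ n.ψ y₀ = - n.ψ y₀ := by
    rw [← hM, ← hat_pr n _ _ hf₀N hy₀Ω, hinv]
    have := (dd n).pr_inv hy₀Ω
    rwa [NatSec.sec_pr] at this
  have hdet0 : (M + 1).det = 0 := by
    rw [← Matrix.exists_mulVec_eq_zero_iff]
    refine ⟨n.ψ y₀, hψ0, ?_⟩
    rw [Matrix.add_mulVec, Matrix.one_mulVec, hv, neg_add_cancel]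
  have hdet1 : (M - 1).det = 1 := by
    rw [Matrix.det_fin_two] at hd hdet0 ⊢
    simp only [Matrix.add_apply, Matrix.sub_apply, Matrix.one_apply_eq, Matrix.one_apply_ne,
      ne_eq, zero_ne_one, one_ne_zero, not_false_eq_true, add_zero, sub_zero] at hdet0 ⊢
    linear_combination (-1 : K) * hdet0 + 2 * hd + h3K
  have hsurj : ∀ x : Fin 2 → K, ∃ y ∈ WE p F, n.ψ y = x := by
    intro x
    obtain ⟨t, ht⟩ : ∃ t, t = (M - 1)⁻¹ *ᵥ x := ⟨_, rfl⟩
    have hunit : IsUnit (M - 1).det := by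
      rw [hdet1]
      exact isUnit_one
    have hxt : (M - 1) *ᵥ t = x := by
      rw [ht, Matrix.mulVec_mulVec, Matrix.mul_nonsing_inv _ hunit, Matrix.one_mulVec]
    clear ht
    obtain ⟨u, hu, rfl⟩ := n.ψ_surj t
    obtain ⟨w, hw, z, hz, rfl⟩ := exists_decomp X.hE hu
    have hwΩ := wE_le_omE E hw
    have hzΩ := zE_le_omE E hz
    have hψw : n.ψ (w * z) = n.ψ w := by
      rw [n.ψ_mul _ hwΩ _ hzΩ, (n.ψ_ker _ hzΩ).2 hz, add_zero]
    rw [hψw] at hxt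
    refine ⟨f₀ * w * f₀⁻¹ * w⁻¹, ?_, ?_⟩
    · rw [X.wF_eq hne]
      have h1 : ⁅w, f₀⁆ ∈ (⁅WE p E, F⁆ : Subgroup G) := commutator_mem_commutator hw hf₀F
      have e1 : f₀ * w * f₀⁻¹ * w⁻¹ = ⁅w, f₀⁆⁻¹ := by
        rw [commutatorElement_def]
        group
      rw [e1]
      exact inv_mem h1
    · have h5 : f₀ * w * f₀⁻¹ ∈ OmE p E := conj_mem_of_mem_normalizer (X.FO hf₀F) hwΩ
      have h6 := (dd n).pr_div h5 hwΩ
      rw [NatSec.sec_pr] at h6
      rw [h6, hat_pr n (normalizer_le_omE E) (normalizer_le_zE E) hf₀N hwΩ, hM, ← hxt, Matrix.sub_mulVec, Matrix.one_mulVec]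
  have hcenF : ∀ y ∈ WE p F, y ∈ centralizer (F : Set G) → y = 1 := fun y hy hc =>
    wE_cen_of_neg hp3 q.n₁ hker hf₀F hf hy hc
  have hcard := card_wE_of_nat X.hF inferInstance q.n₁ hcenF
  have hle : Nat.card (Fin 2 → K) ≤ Nat.card (WE p F) := by
    apply Nat.card_le_card_of_surjective (fun y : WE p F => n.ψ (y : G))
    intro x
    obtain ⟨y, hy, hyx⟩ := hsurj x
    exact ⟨⟨y, hy⟩, hyx⟩
  rw [hcard, Nat.card_fun, Nat.card_fun, Nat.card_fin, Nat.card_eq_fintype_card (α := K₂), q.hF] at hle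
  have : 4 ^ 2 ≤ Nat.card K ^ 2 := Nat.pow_le_pow_left h4 2
  omega

end

end Cfsg.Agent.Lib.BBlk.SemiF
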