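/-
Blocks: `F` with `F / O₂(F)` of order three cannot act nontrivially on a natural section of
`SL₂(K)`, `|K| ≥ 4`.
-/
import Cfsg.Agent.Lib.BBlk.SemiF

set_option autoImplicit false
set_option linter.unusedSectionVars false
set_option linter.unusedVariables false

namespace Cfsg.Agent.Lib.BBlk.SemiT

open Subgroup Cfsg Matrix
open Cfsg.Agent.Lib.PLocal.Thompson
open Cfsg.Agent.Lib.LocalEven.Util
open Cfsg.Agent.Lib.LocalEven.Baumann
open Cfsg.Agent.Lib.LocalEven.BaumannBlock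
open Cfsg.Agent.Lib.LocalEven.SecIrr
open Cfsg.Agent.Lib.LocalStruct.PCoreOf
open Cfsg.Agent.Lib.FG85.BB
open Cfsg.Agent.Lib.BPair.Basic
open Cfsg.Agent.Lib.BPair.Small
open Cfsg.Agent.Lib.BPair.Types
open Cfsg.Agent.Lib.BPair.Sec
open Cfsg.Agent.Lib.BPair.Inv
open Cfsg.Agent.Lib.BPair.Comm
open Cfsg.Agent.Lib.BBlk.Tools
open Cfsg.Agent.Lib.BBlk.FF
open Cfsg.Agent.Lib.BBlk.Sec
open Cfsg.Agent.Lib.BBlk.Key
open Cfsg.Agent.Lib.BBlk.CaseA
open Cfsg.Agent.Lib.BBlk.B0
open Cfsg.Agent.Lib.BBlk.Semi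
open Cfsg.Agent.Lib.BBlk.SemiF
open Cfsg.Agent.Lib.Components.Basic
open Cfsg.Agent.Lib.PReduced.RelNorm (mem_normalizer_inf mem_normalizer_sup mem_normalizer_centralizer)
open scoped commutatorElement

universe u

section Field

variable {K : Type} [Field K]

/-- An eigenvector of an additive map of `p`-power order. -/
theorem eigen_eq_one {p : ℕ} [hp : Fact p.Prime] (hpK : (p : K) = 0)
    {φ : AddMonoid.End (Fin 2 → K)} {v : Fin 2 → K} {l : K} (hv : v ≠ 0) (hφ : φ v = l • v)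
    (hlin : ∀ (c : K) x, φ (c • x) = c • φ x) {k : ℕ} (hk : φ ^ (p ^ k) = 1) : l = 1 := by
  have hpow : ∀ m : ℕ, (φ ^ m) v = l ^ m • v := by
    intro m
    induction m with
    | zero => simp
    | succ m ih =>
      rw [pow_succ']
      show φ ((φ ^ m) v) = _
      rw [ih, hlin, hφ, smul_smul, pow_succ]
  have h1 := hpow (p ^ k)
  rw [hk] at h1
  have h2 : (l ^ (p ^ k) - 1) • v = 0 := by
    rw [sub_smul, one_smul, ← h1]
    exact sub_self _
  have h3 : l ^ (p ^ k) = 1 := by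
    rcases smul_eq_zero.1 h2 with h | h
    · exact sub_eq_zero.1 h
    · exact absurd h hv
  exact eq_one_of_pow_prime hpK h3

/-- Two independent fixed vectors of a linear map. -/
theorem fix_of_dt {φ : AddMonoid.End (Fin 2 → K)} {v w : Fin 2 → K}
    (hlin : ∀ (c : K) x, φ (c • x) = c • φ x) (hv : φ v = v) (hw : φ w = w) (hd : dt v w ≠ 0)
    (x : Fin 2 → K) : φ x = x := by
  have h1 : x = (dt x w / dt v w) • v + (dt v x / dt v w) • w := by
    ext i
    simp only [Pi.add_apply, Pi.smul_apply, smul_eq_mul]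
    rw [div_mul_eq_mul_div, div_mul_eq_mul_div, ← add_div, eq_div_iff hd]
    fin_cases i
    · simp only [dt, Fin.zero_eta]
      ring
    · simp only [dt, Fin.mk_one]
      ring
  rw [h1, map_add, hlin, hlin, hv, hw]

/-- Dependence. -/
theorem dep_of_dt {v w : Fin 2 → K} (hv : v ≠ 0) (hd : dt v w = 0) : ∃ m : K, w = m • v := by
  simp only [dt] at hd
  by_cases h0 : v 0 = 0
  · have h1 : v 1 ≠ 0 := by
      intro h1
      apply hv
      ext i
      fin_cases i
      · exact h0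
      · exact h1
    refine ⟨w 1 / v 1, ?_⟩
    ext i
    fin_cases i
    · simp only [Pi.smul_apply, smul_eq_mul, Fin.zero_eta]
      rw [h0] at hd ⊢
      field_simp
      linear_combination -hd
    · simp only [Pi.smul_apply, smul_eq_mul, Fin.mk_one]
      field_simp
  · refine ⟨w 0 / v 0, ?_⟩
    ext i
    fin_cases i
    · simp only [Pi.smul_apply, smul_eq_mul, Fin.zero_eta]
      field_simp
    · simp only [Pi.smul_apply, smul_eq_mul, Fin.mk_one]
      field_simp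
      linear_combination hd

/-! ### The field with four elements -/

theorem f4_roots [Finite K] (hc : Nat.card K = 4) (x : K) : x = 0 ∨ x = 1 ∨ x ^ 2 + x + 1 = 0 := by
  classical
  haveI := Fintype.ofFinite K
  have h1 : x ^ 4 = x := by
    have := FiniteField.pow_card x
    rwa [← Nat.card_eq_fintype_card, hc] at this
  have h2 : x * ((x - 1) * (x ^ 2 + x + 1)) = 0 := by
    linear_combination h1
  rcases mul_eq_zero.1 h2 with h | h
  · exact Or.inl h
  · rcases mul_eq_zero.1 h with h | h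
    · exact Or.inr (Or.inl (sub_eq_zero.1 h))
    · exact Or.inr (Or.inr h)

theorem f4_exists [Finite K] (hc : Nat.card K = 4) : ∃ w : K, w ≠ 0 ∧ w ≠ 1 := by
  classical
  haveI := Fintype.ofFinite K
  by_contra hcon
  push Not at hcon
  have h1 : (Finset.univ : Finset K) ⊆ {0, 1} := by
    intro x _
    by_cases hx : x = 0
    · simp [hx]
    · simp [hcon x hx]
  have h2 := Finset.card_le_card h1
  rw [Finset.card_univ, ← Nat.card_eq_fintype_card, hc] at h2
  have h3 : ({0, 1} : Finset K).card ≤ 2 := Finset.card_le_two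
  omega

/-- Field automorphisms of the field with four elements. -/
theorem f4_sigma [Finite K] (hc : Nat.card K = 4) (h2 : (2 : K) = 0) (σ : K →+* K)
    (hσ : ∃ c, σ c ≠ c) : ∀ x, x ≠ 0 → x ≠ 1 → σ x = x + 1 := by
  have hfac : ∀ x y : K, x ^ 2 + x + 1 = 0 → y ^ 2 + y + 1 = 0 → y = x ∨ y = x + 1 := by
    intro x y hx hy
    have h3 : (y - x) * (y - (x + 1)) = 0 := by
      linear_combination hy - hx + (-x * y - y + x ^ 2 + x) * h2
    rcases mul_eq_zero.1 h3 with h | h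
    · exact Or.inl (sub_eq_zero.1 h)
    · exact Or.inr (sub_eq_zero.1 h)
  intro x hx0 hx1
  have hx : x ^ 2 + x + 1 = 0 := ((f4_roots hc x).resolve_left hx0).resolve_left hx1
  have hy : (σ x) ^ 2 + σ x + 1 = 0 := by
    have := congrArg σ hx
    simpa using this
  rcases hfac x (σ x) hx hy with h | h
  · exfalso
    obtain ⟨c, hc'⟩ := hσ
    apply hc'
    rcases f4_roots hc c with h0 | h0 | h0
    · rw [h0, map_zero]
    · rw [h0, map_one]
    · rcases hfac x c hx h0 with h1 | h1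
      · rw [h1, h]
      · rw [h1, map_add, h, map_one]
  · exact h

theorem f4_comp [Finite K] (hc : Nat.card K = 4) (h2 : (2 : K) = 0) (σ τ : K →+* K)
    (hσ : ∃ c, σ c ≠ c) (hτ : ∃ c, τ c ≠ c) (c : K) : σ (τ c) = c := by
  by_cases h0 : c = 0
  · rw [h0, map_zero, map_zero]
  by_cases h1 : c = 1
  · rw [h1, map_one, map_one]
  rw [f4_sigma hc h2 τ hτ c h0 h1, map_add, map_one, f4_sigma hc h2 σ hσ c h0 h1]
  linear_combination h2

end Field

variable {G : Type u} [Group G] [Finite G] {p : ℕ} [hp : Fact p.Prime]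

variable {K : Type} [Field K] {E F : Subgroup G} {T : Sylow p G} (X : Pr0 p T E F)

include X

/-- The image of `[W_E, F]`. -/
theorem comm_image (hne : ¬ F ≤ secTriv (OmE p E) (ZE p E)) (n : NatSec K E (OmE p E) (ZE p E))
    {g : G} (hg : g ∈ F) (x : Fin 2 → K) : ∃ y ∈ WE p F, n.ψ y = (dd n).hat g x - x := by
  have hgN := X.FE hg
  obtain ⟨u, hu, rfl⟩ := n.ψ_surj x
  obtain ⟨w, hw, z, hz, rfl⟩ := exists_decomp X.hE hu
  have hwΩ := wE_le_omE E hw
  have hzΩ := zE_le_omE E hz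
  have hψw : n.ψ (w * z) = n.ψ w := by
    rw [n.ψ_mul _ hwΩ _ hzΩ, (n.ψ_ker _ hzΩ).2 hz, add_zero]
  rw [hψw]
  refine ⟨g * w * g⁻¹ * w⁻¹, ?_, ?_⟩
  · rw [X.wF_eq hne]
    have h1 : ⁅w, g⁆ ∈ (⁅WE p E, F⁆ : Subgroup G) := commutator_mem_commutator hw hg
    have e1 : g * w * g⁻¹ * w⁻¹ = ⁅w, g⁆⁻¹ := by
      rw [commutatorElement_def]
      group
    rw [e1]
    exact inv_mem h1
  · have h5 : g * w * g⁻¹ ∈ OmE p E := conj_mem_of_mem_normalizer (X.FO hg) hwΩ
    have h6 := (dd n).pr_div h5 hwΩ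
    rw [NatSec.sec_pr] at h6
    rw [h6, hat_pr n (normalizer_le_omE E) (normalizer_le_zE E) hgN hwΩ]

/-- Elements of `F` acting trivially. -/
theorem not_triv (hne : ¬ F ≤ secTriv (OmE p E) (ZE p E)) (n : NatSec K E (OmE p E) (ZE p E)) :
    ¬ ∀ g ∈ F, ∀ x, (dd n).hat g x = x := by
  intro h
  apply hne
  intro g hg
  have hgN := X.FE hg
  exact ⟨X.FO hg, X.FZ hg, ((dd n).hat_eq_one_iff hgN (X.FO hg)).1 (AddMonoidHom.ext (h g hg))⟩

/-- `F` with `F / O₂(F)` of order three cannot act nontrivially when `|K| ≥ 4`. -/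
theorem semi_three [Finite K] (hne : ¬ F ≤ secTriv (OmE p E) (ZE p E)) (tF : Three p F)
    (n : NatSec K E (OmE p E) (ZE p E)) (h4 : 4 ≤ Nat.card K) (hpK : (p : K) = 0) : False := by
  classical
  have hp2 : p = 2 := tF.1
  have h2K : (2 : K) = 0 := by
    rw [hp2] at hpK
    exact_mod_cast hpK
  have hS : SS K = ⊤ := SS_eq_top h4
  have huu : ∀ a : K, uu a ∈ SS K := fun a => by rw [hS]; trivial
  have hL := le_Lin X n hS
  set d := dd n with hd
  have hN₁ : normalizer (E : Set G) ≤ normalizer (OmE p E : Set G) := normalizer_le_omE E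
  have hN₂ : normalizer (E : Set G) ≤ normalizer (ZE p E : Set G) := normalizer_le_zE E
  have hWQ : WE p F = pCoreOf p F := three_wE X.hF tF
  have hWW := X.wF_le_wE hne
  have hcardW : Nat.card (WE p F) = 4 := by
    rw [hWQ]
    exact three_card X.hF tF
  have hψhat : ∀ {g u : G}, g ∈ normalizer (E : Set G) → u ∈ OmE p E →
      n.ψ (g * u * g⁻¹) = d.hat g (n.ψ u) := fun hg hu => hat_pr n hN₁ hN₂ hg hu
  -- `O₂(F)` acts trivially
  have hQtriv : ∀ q ∈ pCoreOf p F, ∀ x, d.hat q x = x := by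
    intro q hq x
    rw [← hWQ] at hq
    obtain ⟨u, hu, rfl⟩ := n.ψ_surj x
    have hqW := wE_le_omE E (hWW hq)
    have hqN : q ∈ normalizer (E : Set G) := X.FE (by
      rw [hWQ] at hq
      exact pCoreOf_le F hq)
    rw [← hψhat hqN hu, omE_comm E hqW (omE_le_core E hu)]
    congr 1
    group
  -- a `2'`-element outside `O₂(F)`
  obtain ⟨f, hf, hco, hfQ⟩ : ∃ f ∈ F, (orderOf f).Coprime p ∧ f ∉ pCoreOf p F := by
    by_contra hcon
    push Not at hcon
    apply not_triv X hne n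
    have hle : F ≤ pCoreOf p F := by
      conv_lhs => rw [← block_gen X.hF]
      rw [closure_le]
      rintro g ⟨hg, hgc⟩
      exact hcon g hg hgc
    intro g hg x
    exact hQtriv g (hle hg) x
  have hfN := X.FE hf
  have hf3 : f ^ 3 = 1 := by
    have h1 := pow_three_core tF hf
    obtain ⟨k, hk⟩ := (isPGroup_pCoreOf (p := p) F) ⟨_, h1⟩
    have h2 : (f ^ 3) ^ (p ^ k) = 1 := by
      have := congrArg Subtype.val hk
      simpa using this
    have h3 : orderOf f ∣ 3 * p ^ k := by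
      apply orderOf_dvd_of_pow_eq_one
      rw [pow_mul]
      exact h2
    have h4' : orderOf f ∣ 3 := (Nat.Coprime.pow_right k hco).dvd_of_dvd_mul_right h3
    exact orderOf_dvd_iff_pow_eq_one.1 h4'
  have hFsup := three_le_sup tF hf hfQ
  -- vectors fixed by `f` are fixed by `F`
  have hfixF : ∀ v, d.hat f v = v → ∀ g ∈ F, d.hat g v = v := by
    intro v hv
    let S : Subgroup G :=
      { carrier := {g | g ∈ normalizer (E : Set G) ∧ d.hat g v = v}
        mul_mem' := by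
          rintro a b ⟨ha, ha'⟩ ⟨hb, hb'⟩
          refine ⟨mul_mem ha hb, ?_⟩
          rw [d.hat_mul _ ha _ hb]
          show d.hat a (d.hat b v) = v
          rw [hb', ha']
        one_mem' := ⟨one_mem _, by rw [d.hat_one]; rfl⟩
        inv_mem' := by
          rintro a ⟨ha, ha'⟩
          refine ⟨inv_mem ha, ?_⟩
          conv_lhs => rw [← ha']
          exact d.hat_inv_apply ha v }
    have hle : zpowers f ⊔ pCoreOf p F ≤ S := by
      refine sup_le ?_ ?_
      · rw [zpowers_le]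
        exact ⟨hfN, hv⟩
      · intro q hq
        exact ⟨X.FE (pCoreOf_le F hq), hQtriv q hq v⟩
    intro g hg
    exact (hle (hFsup hg)).2
  -- a vector moved by `f`
  obtain ⟨x₀, hx₀⟩ : ∃ x₀, d.hat f x₀ ≠ x₀ := by
    by_contra hcon
    push Not at hcon
    exact not_triv X hne n (fun g hg x => hfixF x (hcon x) g hg)
  set b₀ := d.hat f x₀ - x₀ with hb₀
  have hb₀0 : b₀ ≠ 0 := sub_ne_zero.2 hx₀
  have hflin := (hL hf).2
  have hline₁ : ∀ c : K, ∃ y ∈ WE p F, n.ψ y = c • b₀ := by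
    intro c
    obtain ⟨y, hy, hyv⟩ := comm_image X hne n hf (c • x₀)
    refine ⟨y, hy, ?_⟩
    rw [hyv, hb₀, smul_sub]
    show d.hat f (c • x₀) - c • x₀ = _
    rw [hflin]
  choose θ hθ hθ' using hline₁
  let θ' : K → WE p F := fun c => ⟨θ c, hθ c⟩
  have hθinj : Function.Injective θ' := by
    intro c c' h
    have h1 : θ c = θ c' := congrArg Subtype.val h
    have h2 : c • b₀ = c' • b₀ := by rw [← hθ', ← hθ', h1]
    have h3 : (c - c') • b₀ = 0 := by rw [sub_smul, h2, sub_self]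
    rcases smul_eq_zero.1 h3 with h | h
    · exact sub_eq_zero.1 h
    · exact absurd h hb₀0
  have hcardK : Nat.card K = 4 := by
    have := Nat.card_le_card_of_injective θ' hθinj
    omega
  have hθbij := hθinj.bijective_of_nat_card_le (by rw [hcardK, hcardW])
  have hline : ∀ y ∈ WE p F, ∃ c : K, n.ψ y = c • b₀ := by
    intro y hy
    obtain ⟨c, hc⟩ := hθbij.2 ⟨y, hy⟩
    refine ⟨c, ?_⟩
    have : θ c = y := congrArg Subtype.val hc
    rw [← this, hθ']
  have hcomm_line : ∀ g ∈ F, ∀ x, ∃ c : K, d.hat g x - x = c • b₀ := by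
    intro g hg x
    obtain ⟨y, hy, hyv⟩ := comm_image X hne n hg x
    obtain ⟨c, hc⟩ := hline y hy
    exact ⟨c, by rw [← hyv, hc]⟩
  -- a maximal elementary abelian subgroup
  obtain ⟨A, hA, a, haA, haW⟩ : ∃ A, IsMaxIn p (T : Subgroup G) A ∧ ∃ a ∈ A, a ∉ centralizer (WE p F : Set G) := by
    by_contra hcon
    push Not at hcon
    apply block_comm_ne X.hG X.hF
    rw [thompsonSubgroupOf_eq, commutator_comm, commutator_eq_bot_iff_le_centralizer]
    exact sSup_le fun A hA a ha => hcon A hA a ha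
  have hAN : A ≤ normalizer (E : Set G) := isMax_le_normalizer X.hG X.hE X.hEs (keyP X.hE) T hA
  have hAF : A ≤ normalizer (F : Set G) :=
    (hA.le_jOf).trans ((jOf_le_baumann _).trans (baumann_le_normalizer_block X.hF))
  have hAp : ∀ a' ∈ A, ∃ k : ℕ, a' ^ (p ^ k) = 1 := by
    intro a' ha'
    obtain ⟨k, hk⟩ := (T.isPGroup'.to_le hA.1) ⟨a', ha'⟩
    exact ⟨k, by simpa using congrArg Subtype.val hk⟩
  have hAab : ∀ x ∈ A, ∀ y ∈ A, x * y = y * x := by
    have := hA.2.1.1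
    rw [mulComm_iff] at this
    exact this
  -- linear elements of `A` act trivially
  have hA₁triv : ∀ a' ∈ A, a' ∈ Lin n hN₁ hN₂ → ∀ x, d.hat a' x = x := by
    intro a' ha' hlin x
    have ha'N := hAN ha'
    obtain ⟨k, hk⟩ := hAp a' ha'
    have hpow : (d.hat a') ^ (p ^ k) = 1 := by
      rw [← d.hat_pow ha'N, hk, d.hat_one]
    -- on the line
    have hb : d.hat a' b₀ = b₀ := by
      have hy := hθ 1
      have hψy : n.ψ (θ 1) = b₀ := by rw [hθ', one_smul]
      have hyE : θ 1 ∈ OmE p E := wE_le_omE E (hWW hy)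
      have h1 : a' * θ 1 * a'⁻¹ ∈ WE p F :=
        conj_mem_of_mem_normalizer (normalizer_le_wE F (hAF ha')) hy
      obtain ⟨l, hl⟩ := hline _ h1
      rw [hψhat ha'N hyE, hψy] at hl
      have := eigen_eq_one hpK hb₀0 hl hlin.2 hpow
      rw [hl, this, one_smul]
    have hbc : ∀ c : K, d.hat a' (c • b₀) = c • b₀ := fun c => by rw [hlin.2, hb]
    -- on fixed vectors
    have hfix : ∀ v, d.hat f v = v → d.hat a' v = v := by
      intro v hv
      by_cases hv0 : v = 0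
      · rw [hv0, map_zero]
      have hfw : d.hat f (d.hat a' v) = d.hat a' v := by
        have hg : a'⁻¹ * f * a' ∈ F := by
          have := conj_mem_of_mem_normalizer (inv_mem (hAF ha')) hf
          simpa using this
        have h1 := hfixF v hv _ hg
        have e1 : f * a' = a' * (a'⁻¹ * f * a') := by group
        have h2 : d.hat (f * a') = d.hat (a' * (a'⁻¹ * f * a')) := by rw [← e1]
        rw [d.hat_mul _ hfN _ ha'N, d.hat_mul _ ha'N _ (X.FE hg)] at h2
        have h3 := congrArg (fun φ : AddMonoid.End (Fin 2 → K) => φ v) h2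
        show d.hat f (d.hat a' v) = d.hat a' v
        have h4' : d.hat f (d.hat a' v) = d.hat a' (d.hat (a'⁻¹ * f * a') v) := h3
        rw [h4', h1]
      have hdt : dt v (d.hat a' v) = 0 := by
        by_contra hne'
        exact hx₀ (fix_of_dt hflin hv hfw hne' x₀)
      obtain ⟨l, hl⟩ := dep_of_dt hv0 hdt
      have := eigen_eq_one hpK hv0 hl hlin.2 hpow
      rw [hl, this, one_smul]
    -- the decomposition
    set z := d.hat f⁻¹ x with hz
    have hzx : d.hat f z = x := d.hat_apply_inv hfN x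
    have hf3' : d.hat f (d.hat f (d.hat f z)) = z := by
      have h1 : d.hat (f ^ 3) = d.hat f ^ 3 := d.hat_pow hfN 3
      rw [hf3, d.hat_one] at h1
      have h2 := congrArg (fun φ : AddMonoid.End (Fin 2 → K) => φ z) h1
      simp only [pow_succ, pow_zero, one_mul] at h2
      exact h2.symm
    set u' := z + d.hat f z + d.hat f (d.hat f z) with hu'
    have hu'fix : d.hat f u' = u' := by
      rw [hu', map_add, map_add, hf3']
      abel
    obtain ⟨c₁, hc₁⟩ := hcomm_line f hf z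
    obtain ⟨c₂, hc₂⟩ := hcomm_line f hf (d.hat f z)
    have hsmul2 : ∀ t : Fin 2 → K, t + t = 0 := by
      intro t
      ext i
      simp only [Pi.add_apply, Pi.zero_apply]
      have : t i + t i = 2 * t i := by ring
      rw [this, h2K, zero_mul]
    have hneg : ∀ t : Fin 2 → K, - t = t := fun t => neg_eq_of_add_eq_zero_left (hsmul2 t)
    have hx : x = u' + (c₁ + c₂) • b₀ := by
      rw [add_smul, ← hc₁, ← hc₂, hu', ← hzx]
      have e1 : z = - z := (hneg z).symm
      have e2 : d.hat f (d.hat f z) = - d.hat f (d.hat f z) := (hneg _).symm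
      have e3 : d.hat f z + d.hat f z = 0 := hsmul2 _
      have e4 : z + z = 0 := hsmul2 _
      have e5 : d.hat f (d.hat f z) + d.hat f (d.hat f z) = 0 := hsmul2 _
      have : z + d.hat f z + d.hat f (d.hat f z) + (d.hat f z - z + (d.hat f (d.hat f z) - d.hat f z)) =
          d.hat f z + (d.hat f (d.hat f z) + d.hat f (d.hat f z)) := by abel
      rw [this, e5, add_zero]
    rw [hx, map_add, hfix u' hu'fix, hbc]
  have haL : a ∉ Lin n hN₁ hN₂ := by
    intro h
    apply haW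
    have h1 : a ∈ CW p E := cw_of_hat X.hE n (hAN haA) (hA₁triv a haA h)
    exact centralizer_le hWW h1
  -- field automorphisms
  have hsig : ∀ g ∈ A, g ∉ Lin n hN₁ hN₂ → ∃ σ : K →+* K,
      (∀ (c : K) x, d.hat g (c • x) = σ c • d.hat g x) ∧ ∃ c, σ c ≠ c := by
    intro g hg hgL
    obtain ⟨σ, hσ⟩ := exists_ringHom n hN₁ hN₂ huu (hAN hg)
    refine ⟨σ, hσ, ?_⟩
    by_contra hcon
    push Not at hcon
    apply hgL
    refine ⟨hAN hg, fun c x => ?_⟩
    rw [hσ, hcon]
  have hmulL : ∀ a₁ ∈ A, a₁ ∉ Lin n hN₁ hN₂ → ∀ a₂ ∈ A, a₂ ∉ Lin n hN₁ hN₂ →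
      a₁ * a₂ ∈ Lin n hN₁ hN₂ := by
    intro a₁ ha₁ ha₁L a₂ ha₂ ha₂L
    obtain ⟨σ₁, h₁, hne₁⟩ := hsig a₁ ha₁ ha₁L
    obtain ⟨σ₂, h₂, hne₂⟩ := hsig a₂ ha₂ ha₂L
    refine ⟨mul_mem (hAN ha₁) (hAN ha₂), fun c x => ?_⟩
    rw [d.hat_mul _ (hAN ha₁) _ (hAN ha₂)]
    show d.hat a₁ (d.hat a₂ (c • x)) = c • d.hat a₁ (d.hat a₂ x)
    rw [h₂, h₁, f4_comp hcardK h2K σ₁ σ₂ hne₁ hne₂]
  -- the index
  set A₁ : Subgroup G := A ⊓ Lin n hN₁ hN₂ with hA₁
  have hindex : (A₁.subgroupOf A).index = 2 := by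
    rw [Subgroup.index_eq_two_iff]
    refine ⟨⟨a, haA⟩, fun b => ?_⟩
    by_cases hb : (b : G) ∈ Lin n hN₁ hN₂
    · right
      refine ⟨mem_subgroupOf.2 (mem_inf.2 ⟨b.2, hb⟩), fun h => ?_⟩
      have h1 := (mem_inf.1 (mem_subgroupOf.1 h)).2
      apply haL
      have e : a = (b : G)⁻¹ * ((b * ⟨a, haA⟩ : A) : G) := by simp
      rw [e]
      exact mul_mem (inv_mem hb) h1
    · left
      refine ⟨mem_subgroupOf.2 (mem_inf.2 ⟨mul_mem b.2 haA, hmulL b b.2 hb a haA haL⟩), fun h => ?_⟩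
      exact hb (mem_inf.1 (mem_subgroupOf.1 h)).2
  have hcardA : Nat.card A = 2 * Nat.card A₁ := by
    have h1 := Subgroup.card_mul_index (A₁.subgroupOf A)
    have h3 : Nat.card (A₁.subgroupOf A) = Nat.card A₁ :=
      Nat.card_congr (subgroupOfEquivOfLe inf_le_left).toEquiv
    rw [hindex, h3] at h1
    rw [← h1, mul_comm]
  have hA₁CW : ∀ c ∈ A₁, c ∈ CW p E := fun c hc =>
    cw_of_hat X.hE n (hAN (mem_inf.1 hc).1) (hA₁triv c (mem_inf.1 hc).1 (mem_inf.1 hc).2)
  have hUab : IsAbExp p (WE p E) := by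
    refine ⟨?_, fun u hu => wE_pow hu⟩
    rw [mulComm_iff]
    exact fun x hx y hy => omE_comm' E (wE_le_omE E hx) (wE_le_omE E hy)
  have hUT : WE p E ≤ (T : Subgroup G) :=
    (wE_le_vV₀ X.hG X.hE).trans ((omegaOneCenter_le _).trans (Cfsg.Agent.Lib.Core.Basic.pCore_le_sylow T))
  have hff := ff_ineq hA hUab hUT (A' := A₁) inf_le_left (fun u hu c hc =>
    mem_centralizer_iff.1 (hA₁CW c hc) u hu)
  set D : Subgroup G := WE p E ⊓ A₁ with hD
  have hcardU : Nat.card (WE p E) ≤ 2 * Nat.card D := by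
    have hpos : 0 < Nat.card A₁ := Nat.card_pos
    apply Nat.le_of_mul_le_mul_right _ hpos
    calc Nat.card (WE p E) * Nat.card A₁ ≤ Nat.card A * Nat.card D := hff
      _ = _ := by rw [hcardA]; ring
  -- the index of `D` in `W_E`
  have hDtwo : ∀ w₁ ∈ WE p E, ∀ w₂ ∈ WE p E, w₁ ∉ D → w₂ ∉ D → w₁ * w₂ ∈ D := by
    intro w₁ hw₁ w₂ hw₂ h₁ h₂
    have h1 := Subgroup.card_mul_index (D.subgroupOf (WE p E))
    have h3 : Nat.card (D.subgroupOf (WE p E)) = Nat.card D :=
      Nat.card_congr (subgroupOfEquivOfLe inf_le_left).toEquiv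
    rw [h3] at h1
    have hposD : 0 < Nat.card D := Nat.card_pos
    have hle : (D.subgroupOf (WE p E)).index ≤ 2 := by
      apply Nat.le_of_mul_le_mul_left _ hposD
      rw [h1]
      omega
    have hne0 : (D.subgroupOf (WE p E)).index ≠ 0 := Subgroup.index_ne_zero_of_finite
    have hne1 : (D.subgroupOf (WE p E)).index ≠ 1 := by
      intro h
      rw [Subgroup.index_eq_one] at h
      apply h₁
      have : (⟨w₁, hw₁⟩ : ↥(WE p E)) ∈ D.subgroupOf (WE p E) := by rw [h]; trivial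
      exact mem_subgroupOf.1 this
    have h2' : (D.subgroupOf (WE p E)).index = 2 := by omega
    have h5 := (Subgroup.mul_mem_iff_of_index_two h2' (a := (⟨w₁, hw₁⟩ : ↥(WE p E)))
      (b := (⟨w₂, hw₂⟩ : ↥(WE p E)))).2 (iff_of_false (fun h => h₁ (mem_subgroupOf.1 h))
        (fun h => h₂ (mem_subgroupOf.1 h)))
    exact mem_subgroupOf.1 h5
  -- fixed vectors of `a`
  have haN := hAN haA
  have hPD : ∀ w ∈ D, d.hat a (n.ψ w) = n.ψ w := by
    intro w hw
    have hwΩ := wE_le_omE E (mem_inf.1 hw).1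
    rw [← hψhat haN hwΩ, hAab a haA w (mem_inf.1 (mem_inf.1 hw).2).1]
    congr 1
    group
  have hvec : ∀ x : Fin 2 → K, ∃ w ∈ WE p E, n.ψ w = x := by
    intro x
    obtain ⟨u, hu, rfl⟩ := n.ψ_surj x
    obtain ⟨w, hw, z, hz, rfl⟩ := exists_decomp X.hE hu
    refine ⟨w, hw, ?_⟩
    rw [n.ψ_mul _ (wE_le_omE E hw) _ (zE_le_omE E hz), (n.ψ_ker _ (zE_le_omE E hz)).2 hz, add_zero]
  have hP2 : ∀ x y, d.hat a x ≠ x → d.hat a y ≠ y → d.hat a (x + y) = x + y := by
    intro x y hx hy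
    obtain ⟨w₁, hw₁, rfl⟩ := hvec x
    obtain ⟨w₂, hw₂, rfl⟩ := hvec y
    have h1 : w₁ ∉ D := fun h => hx (hPD w₁ h)
    have h2 : w₂ ∉ D := fun h => hy (hPD w₂ h)
    have h3 := hPD _ (hDtwo w₁ hw₁ w₂ hw₂ h1 h2)
    rwa [n.ψ_mul _ (wE_le_omE E hw₁) _ (wE_le_omE E hw₂)] at h3
  obtain ⟨σ, hσ, hσne⟩ := hsig a haA haL
  obtain ⟨ω, hω0, hω1⟩ := f4_exists hcardK
  have hσω := f4_sigma hcardK h2K σ hσne ω hω0 hω1
  have hQ1 : ∀ x, d.hat a x = x → x ≠ 0 → d.hat a (ω • x) ≠ ω • x := by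
    intro x hx hx0 h
    rw [hσ, hσω, hx, add_smul, one_smul] at h
    exact hx0 (left_eq_add.1 h.symm)
  have hω2 : (1 : K) + ω ≠ 0 := by
    intro h
    apply hω1
    linear_combination h - h2K
  have hQ2 : ∀ v : Fin 2 → K, v ≠ 0 → ∃ m : K, m ≠ 0 ∧ d.hat a (m • v) = m • v := by
    intro v hv
    by_cases h1 : d.hat a v = v
    · exact ⟨1, one_ne_zero, by rw [one_smul, h1]⟩
    by_cases h2 : d.hat a (ω • v) = ω • v
    · exact ⟨ω, hω0, h2⟩
    refine ⟨1 + ω, hω2, ?_⟩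
    have := hP2 v (ω • v) h1 h2
    have e : (1 + ω) • v = v + ω • v := by rw [add_smul, one_smul]
    rw [e]
    exact this
  have he₁ : (![1, 0] : Fin 2 → K) ≠ 0 := by
    intro h
    have := congrFun h 0
    simp at this
  have he₂ : (![0, 1] : Fin 2 → K) ≠ 0 := by
    intro h
    have := congrFun h 1
    simp at this
  obtain ⟨m₁, hm₁, h₁⟩ := hQ2 _ he₁
  obtain ⟨m₂, hm₂, h₂⟩ := hQ2 _ he₂
  set v₁ : Fin 2 → K := m₁ • ![1, 0] with hv₁
  set v₂ : Fin 2 → K := m₂ • ![0, 1] with hv₂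
  have hv₁0 : v₁ ≠ 0 := smul_ne_zero hm₁ he₁
  have hv₂0 : v₂ ≠ 0 := smul_ne_zero hm₂ he₂
  have hsum0 : v₁ + v₂ ≠ 0 := by
    intro h
    have := congrFun h 0
    simp [hv₁, hv₂] at this
    exact hm₁ this
  have hsum : d.hat a (v₁ + v₂) = v₁ + v₂ := by rw [map_add, h₁, h₂]
  apply hQ1 _ hsum hsum0
  rw [smul_add]
  exact hP2 _ _ (hQ1 _ h₁ hv₁0) (hQ1 _ h₂ hv₂0)

end Cfsg.Agent.Lib.BBlk.SemiT
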