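/-
Blocks: `p'`-elements of the normalizer of a block with `|W_E| = 4`, or with quaternion quotient.
-/
import Cfsg.Agent.Lib.BBlk.SemiT

set_option autoImplicit false
set_option linter.unusedSectionVars false
set_option linter.unusedVariables false

namespace Cfsg.Agent.Lib.BBlk.B1S

open Subgroup Cfsg Matrix
open Cfsg.Agent.Lib.LocalEven.Util
open Cfsg.Agent.Lib.LocalEven.Baumann
open Cfsg.Agent.Lib.LocalEven.BaumannBlock
open Cfsg.Agent.Lib.LocalEven.SecIrr
open Cfsg.Agent.Lib.LocalStruct.PCoreOf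
open Cfsg.Agent.Lib.FG85.BB
open Cfsg.Agent.Lib.BPair.Basic
open Cfsg.Agent.Lib.BPair.Small
open Cfsg.Agent.Lib.BPair.Types
open Cfsg.Agent.Lib.BPair.Sec
open Cfsg.Agent.Lib.BPair.Inv
open Cfsg.Agent.Lib.BPair.Comm
open Cfsg.Agent.Lib.BBlk.Sec
open Cfsg.Agent.Lib.BBlk.CaseA
open Cfsg.Agent.Lib.BBlk.B0
open Cfsg.Agent.Lib.BBlk.Semi
open Cfsg.Agent.Lib.BBlk.SemiF
open Cfsg.Agent.Lib.BBlk.SemiT
open Cfsg.Agent.Lib.Components.Basic
open Cfsg.Agent.Lib.PReduced.RelNorm (mem_normalizer_inf mem_normalizer_sup mem_normalizer_centralizer)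
open scoped commutatorElement

universe u

variable {G : Type u} [Group G] [Finite G] {p : ℕ} [hp : Fact p.Prime]

/-- Odd order: squares determine. -/
theorem odd_fix {f a : G} (hco : (orderOf f).Coprime 2) (h : f * (f * a * f⁻¹) * f⁻¹ = a) :
    f * a * f⁻¹ = a := by
  have hc : Commute (f ^ 2) a := by
    show f ^ 2 * a = a * f ^ 2
    calc f ^ 2 * a = (f * (f * a * f⁻¹) * f⁻¹) * f ^ 2 := by
          simp only [pow_two]
          group
      _ = a * f ^ 2 := by rw [h]
  have hodd : ¬ 2 ∣ orderOf f := by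
    intro h2
    have := Nat.Coprime.eq_one_of_dvd hco.symm h2
    omega
  obtain ⟨j, hj⟩ : ∃ j, orderOf f = 2 * j + 1 := ⟨orderOf f / 2, by omega⟩
  have h1 : f * (f ^ 2) ^ j = 1 := by
    rw [← pow_mul, ← pow_succ', add_comm]
    rw [add_comm 1, ← hj]
    exact pow_orderOf_eq_one f
  have h2 : f⁻¹ = (f ^ 2) ^ j := (eq_inv_of_mul_eq_one_right h1).symm ▸ by group
  have hc2 : Commute f⁻¹ a := by
    rw [h2]
    exact hc.pow_left j
  have hc3 : Commute f a := (Commute.inv_left_iff).1 hc2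
  rw [hc3.eq]
  group

section Three

variable {T₀ E : Subgroup G}

/-- Nontrivial orbits. -/
theorem three_distinct (hE : IsBaumannBlock p T₀ E) (tE : Three p E) {e a : G} (he : e ∈ E)
    (heQ : e ∉ pCoreOf p E) (ha : a ∈ pCoreOf p E) (ha1 : a ≠ 1) :
    e * a * e⁻¹ ≠ 1 ∧ e * (e * a * e⁻¹) * e⁻¹ ≠ 1 ∧ a ≠ e * a * e⁻¹ ∧ a ≠ e * (e * a * e⁻¹) * e⁻¹ ∧
      e * a * e⁻¹ ≠ e * (e * a * e⁻¹) * e⁻¹ := by
  have hcon : ∀ q ∈ pCoreOf p E, e * q * e⁻¹ ∈ pCoreOf p E := fun q hq =>
    conj_mem_of_mem_normalizer (le_normalizer_pCoreOf E he) hq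
  have hnot1 : ∀ q, q ≠ 1 → e * q * e⁻¹ ≠ 1 := by
    intro q hq h
    apply hq
    have e1 : q = e⁻¹ * (e * q * e⁻¹) * e := by group
    rw [e1, h]
    group
  have hb1 := hnot1 a ha1
  have hc1 := hnot1 _ hb1
  have hab : a ≠ e * a * e⁻¹ := fun h => ha1 (three_fpf hE tE he heQ ha h.symm)
  have hbc : e * a * e⁻¹ ≠ e * (e * a * e⁻¹) * e⁻¹ := fun h =>
    hb1 (three_fpf hE tE he heQ (hcon a ha) h.symm)
  refine ⟨hb1, hc1, hab, ?_, hbc⟩
  intro h
  -- `e³` lies in the core
  have h3 := pow_three_core tE he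
  have hab' : ∀ r ∈ pCoreOf p E, ∀ s ∈ pCoreOf p E, r * s = s * r := by
    intro r hr s hs
    rw [tE.2.2.1] at hr
    exact omE_comm E hr hs
  have h4 : e ^ 3 * a * (e ^ 3)⁻¹ = a := by
    rw [hab' _ h3 a ha]
    group
  have e1 : e ^ 3 * a * (e ^ 3)⁻¹ = e * (e * (e * a * e⁻¹) * e⁻¹) * e⁻¹ := by
    simp only [pow_succ, pow_zero, one_mul]
    group
  rw [e1, ← h] at h4
  exact hab h4.symm

/-- `k` fixing two elements of the four. -/
theorem agree_all {Q : Subgroup G} (hc : Nat.card Q = 4) {a b c k : G} (ha : a ∈ Q) (hb : b ∈ Q)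
    (hcQ : c ∈ Q) (ha1 : a ≠ 1) (hb1 : b ≠ 1) (hc1 : c ≠ 1) (hab : a ≠ b) (hac : a ≠ c) (hbc : b ≠ c)
    (hk : k ∈ normalizer (Q : Set G)) (h1 : k * a * k⁻¹ = a) (h2 : k * b * k⁻¹ = b) :
    k ∈ centralizer (Q : Set G) := by
  have hinj : ∀ x y, k * x * k⁻¹ = k * y * k⁻¹ → x = y := by
    intro x y h
    have e1 : x = k⁻¹ * (k * x * k⁻¹) * k := by group
    have e2 : y = k⁻¹ * (k * y * k⁻¹) * k := by group
    rw [e1, e2, h]
  have hfour : ∀ w ∈ Q, w = 1 ∨ w = a ∨ w = b ∨ w = c := by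
    intro w hw
    have := four_elts (A := ↥Q) hc (e := 1) (a := ⟨a, ha⟩) (b := ⟨b, hb⟩) (c := ⟨c, hcQ⟩)
      (d := ⟨w, hw⟩) (fun h => ha1 (congrArg Subtype.val h).symm)
      (fun h => hb1 (congrArg Subtype.val h).symm) (fun h => hc1 (congrArg Subtype.val h).symm)
      (fun h => hab (congrArg Subtype.val h)) (fun h => hac (congrArg Subtype.val h))
      (fun h => hbc (congrArg Subtype.val h))
    rcases this with h | h | h | h
    · exact Or.inl (congrArg Subtype.val h)
    · exact Or.inr (Or.inl (congrArg Subtype.val h))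
    · exact Or.inr (Or.inr (Or.inl (congrArg Subtype.val h)))
    · exact Or.inr (Or.inr (Or.inr (congrArg Subtype.val h)))
  have h3 : k * c * k⁻¹ = c := by
    rcases hfour _ (conj_mem_of_mem_normalizer hk hcQ) with h | h | h | h
    · exfalso
      apply hc1
      apply hinj
      rw [h]
      group
    · exact (hac (hinj a c (by rw [h1, h])).symm.symm).elim
    · exact (hbc (hinj b c (by rw [h2, h])).symm.symm).elim
    · exact h
  rw [mem_centralizer_iff]
  intro w hw
  have h4 : k * w * k⁻¹ = w := by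
    rcases hfour w hw with rfl | rfl | rfl | rfl
    · group
    · exact h1
    · exact h2
    · exact h3
  calc w * k = (k * w * k⁻¹) * k := by rw [h4]
    _ = k * w := by group

/-- Odd elements normalizing a block with `|W_E| = 4` act as elements of `E`. -/
theorem three_case (hE : IsBaumannBlock p T₀ E) (tE : Three p E) {f : G}
    (hfN : f ∈ normalizer (E : Set G)) (hco : (orderOf f).Coprime p) : f ∈ E ⊔ CW p E := by
  have hp2 : p = 2 := tE.1
  subst hp2
  have hcard := three_card hE tE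
  have hWQ := three_wE hE tE
  have hQN : f ∈ normalizer (pCoreOf 2 E : Set G) := normalizer_le_normalizer_pCoreOf E hfN
  have hCW : centralizer (pCoreOf 2 E : Set G) = CW 2 E := by rw [CW, hWQ]
  obtain ⟨x, hx, hxQ⟩ := three_exists hE tE
  obtain ⟨a, ha, ha1⟩ : ∃ a ∈ pCoreOf 2 E, a ≠ 1 := by
    by_contra hcon
    push Not at hcon
    have h1 : pCoreOf 2 E = ⊥ := eq_bot_iff.2 (fun y hy => mem_bot.2 (hcon y hy))
    rw [h1, Subgroup.card_bot] at hcard
    omega
  have hinj : ∀ y z, f * y * f⁻¹ = f * z * f⁻¹ → y = z := by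
    intro y z h
    have e1 : y = f⁻¹ * (f * y * f⁻¹) * f := by group
    have e2 : z = f⁻¹ * (f * z * f⁻¹) * f := by group
    rw [e1, e2, h]
  have hfour : ∀ w ∈ pCoreOf 2 E, ∀ b c, b ∈ pCoreOf 2 E → c ∈ pCoreOf 2 E → a ≠ b → a ≠ c → b ≠ c →
      b ≠ 1 → c ≠ 1 → w = 1 ∨ w = a ∨ w = b ∨ w = c := by
    intro w hw b c hb hc hab hac hbc hb1 hc1
    have := four_elts (A := ↥(pCoreOf 2 E)) hcard (e := 1) (a := ⟨a, ha⟩) (b := ⟨b, hb⟩) (c := ⟨c, hc⟩)
      (d := ⟨w, hw⟩) (fun h => ha1 (congrArg Subtype.val h).symm)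
      (fun h => hb1 (congrArg Subtype.val h).symm) (fun h => hc1 (congrArg Subtype.val h).symm)
      (fun h => hab (congrArg Subtype.val h)) (fun h => hac (congrArg Subtype.val h))
      (fun h => hbc (congrArg Subtype.val h))
    rcases this with h | h | h | h
    · exact Or.inl (congrArg Subtype.val h)
    · exact Or.inr (Or.inl (congrArg Subtype.val h))
    · exact Or.inr (Or.inr (Or.inl (congrArg Subtype.val h)))
    · exact Or.inr (Or.inr (Or.inr (congrArg Subtype.val h)))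
  have hnot1 : ∀ q, q ≠ 1 → f * q * f⁻¹ ≠ 1 := by
    intro q hq h
    apply hq
    apply hinj
    rw [h]
    group
  have hconf : ∀ q ∈ pCoreOf 2 E, f * q * f⁻¹ ∈ pCoreOf 2 E := fun q hq =>
    conj_mem_of_mem_normalizer hQN hq
  by_cases hfa : f * a * f⁻¹ = a
  · -- `f` fixes `a`
    obtain ⟨h1, h2, h3, h4, h5⟩ := three_distinct hE tE hx hxQ ha ha1
    set b := x * a * x⁻¹ with hb
    set c := x * b * x⁻¹ with hc
    have hbQ : b ∈ pCoreOf 2 E := conj_mem_of_mem_normalizer (le_normalizer_pCoreOf E hx) ha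
    have hcQ : c ∈ pCoreOf 2 E := conj_mem_of_mem_normalizer (le_normalizer_pCoreOf E hx) hbQ
    have hfb : f * b * f⁻¹ = b := by
      rcases hfour _ (hconf b hbQ) b c hbQ hcQ h3 h4 h5 h1 h2 with h | h | h | h
      · exact (hnot1 b h1 h).elim
      · exact (h3 (hinj a b (by rw [hfa, h])).symm.symm).elim
      · exact h
      · -- `f` swaps `b` and `c`
        have hfc : f * c * f⁻¹ = b := by
          rcases hfour _ (hconf c hcQ) b c hbQ hcQ h3 h4 h5 h1 h2 with h' | h' | h' | h'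
          · exact (hnot1 c h2 h').elim
          · exact (h4 (hinj a c (by rw [hfa, h'])).symm.symm).elim
          · exact h'
          · exact (h5 (hinj b c (by rw [h, h'])).symm.symm).elim
        have := odd_fix (f := f) (a := b) hco (by rw [h, hfc])
        rw [h] at this
        exact this.symm ▸ (h5 this.symm).elim
    have hk := agree_all hcard ha hbQ hcQ ha1 h1 h2 h3 h4 h5 hQN hfa hfb
    rw [hCW] at hk
    exact mem_sup_right hk
  · -- `f` moves `a`: it acts as `x` or `x²`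
    obtain ⟨h1, h2, h3, h4, h5⟩ := three_distinct hE tE hx hxQ ha ha1
    obtain ⟨e, he, heQ, hea⟩ : ∃ e ∈ E, e ∉ pCoreOf 2 E ∧ e * a * e⁻¹ = f * a * f⁻¹ := by
      set b := x * a * x⁻¹ with hb
      set c := x * b * x⁻¹ with hc
      have hbQ : b ∈ pCoreOf 2 E := conj_mem_of_mem_normalizer (le_normalizer_pCoreOf E hx) ha
      have hcQ : c ∈ pCoreOf 2 E := conj_mem_of_mem_normalizer (le_normalizer_pCoreOf E hx) hbQ
      rcases hfour _ (hconf a ha) b c hbQ hcQ h3 h4 h5 h1 h2 with h | h | h | h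
      · exact (hnot1 a ha1 h).elim
      · exact (hfa h).elim
      · exact ⟨x, hx, hxQ, h.symm⟩
      · refine ⟨x ^ 2, pow_mem hx 2, ?_, ?_⟩
        · intro h2'
          apply hxQ
          have e3 : x = x ^ 3 * (x ^ 2)⁻¹ := by
            simp only [pow_succ, pow_zero, one_mul]
            group
          rw [e3]
          exact mul_mem (pow_three_core tE hx) (inv_mem h2')
        · rw [h, hc, hb]
          simp only [pow_two]
          group
    obtain ⟨h1', h2', h3', h4', h5'⟩ := three_distinct hE tE he heQ ha ha1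
    set b := e * a * e⁻¹ with hb
    set c := e * b * e⁻¹ with hc
    have hbQ : b ∈ pCoreOf 2 E := conj_mem_of_mem_normalizer (le_normalizer_pCoreOf E he) ha
    have hcQ : c ∈ pCoreOf 2 E := conj_mem_of_mem_normalizer (le_normalizer_pCoreOf E he) hbQ
    have hfb : f * b * f⁻¹ = c := by
      rcases hfour _ (hconf b hbQ) b c hbQ hcQ h3' h4' h5' h1' h2' with h | h | h | h
      · exact (hnot1 b h1' h).elim
      · exfalso
        have := odd_fix (f := f) (a := a) hco (by rw [← hea, h])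
        exact hfa this
      · exfalso
        apply h3'
        apply hinj
        rw [← hea, h]
      · exact h
    have heN : e⁻¹ * f ∈ normalizer (pCoreOf 2 E : Set G) :=
      mul_mem (inv_mem (le_normalizer_pCoreOf E he)) hQN
    have hk1 : (e⁻¹ * f) * a * (e⁻¹ * f)⁻¹ = a := by
      calc (e⁻¹ * f) * a * (e⁻¹ * f)⁻¹ = e⁻¹ * (f * a * f⁻¹) * e := by group
        _ = e⁻¹ * (e * a * e⁻¹) * e := by rw [← hea]
        _ = a := by group
    have hk2 : (e⁻¹ * f) * b * (e⁻¹ * f)⁻¹ = b := by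
      calc (e⁻¹ * f) * b * (e⁻¹ * f)⁻¹ = e⁻¹ * (f * b * f⁻¹) * e := by group
        _ = e⁻¹ * (e * b * e⁻¹) * e := by rw [hfb]
        _ = b := by group
    have hk := agree_all hcard ha hbQ hcQ ha1 h1' h2' h3' h4' h5' heN hk1 hk2
    rw [hCW] at hk
    have e1 : f = e * (e⁻¹ * f) := by group
    rw [e1]
    exact mul_mem (mem_sup_left he) (mem_sup_right hk)

end Three

section QB

variable {K : Type} [Field K] [Fintype K]

/-- Elements of `SL₂(K)`, `|K| = 3`, of order prime to three lie in the derived group. -/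
theorem mem_SS_of_pow (hK : Fintype.card K = 3) (r : SpecialLinearGroup (Fin 2) K) {m : ℕ}
    (hm : m.Coprime 3) (hr : r ^ m = 1) : r ∈ SS K := by
  have h3 := char3 hK
  obtain ⟨s, hs, t, rfl⟩ := exists_comm_mul r
  have hnorm : (SS K).Normal := inferInstance
  have hquot : ((s * uu t : SpecialLinearGroup (Fin 2) K) : SpecialLinearGroup (Fin 2) K ⧸ SS K) =
      ((uu t : SpecialLinearGroup (Fin 2) K) : SpecialLinearGroup (Fin 2) K ⧸ SS K) := by
    rw [QuotientGroup.eq]
    have e : (s * uu t)⁻¹ * uu t = (uu t)⁻¹ * s⁻¹ * uu t := by group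
    rw [e]
    have := hnorm.conj_mem _ (inv_mem hs) (uu t)⁻¹
    simpa using this
  have h1 : uu ((m : K) * t) ∈ SS K := by
    rw [← uu_pow_eq, ← QuotientGroup.eq_one_iff]
    have h4 : (((s * uu t) ^ m : SpecialLinearGroup (Fin 2) K) : SpecialLinearGroup (Fin 2) K ⧸ SS K) = 1 := by
      rw [hr]
      rfl
    have h5 : (((s * uu t) ^ m : SpecialLinearGroup (Fin 2) K) : SpecialLinearGroup (Fin 2) K ⧸ SS K) =
        ((s * uu t : SpecialLinearGroup (Fin 2) K) : SpecialLinearGroup (Fin 2) K ⧸ SS K) ^ m := rfl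
    rw [h5, hquot] at h4
    exact h4
  have h2ne := two_ne_zero' h3
  have hmt : (m : K) * t = 0 := by
    rcases shape_three hK h1 with h | h | h
    · have := congrFun (congrFun h 0) 1
      simpa [uu] using this
    · exfalso
      have := congrFun (congrFun h 0) 0
      simp [uu] at this
      apply h2ne
      linear_combination this
    · exfalso
      have := congrFun (congrFun h 0) 0
      simp [uu, Matrix.mul_apply, Fin.sum_univ_two] at this
      apply h2ne
      linear_combination this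
  have hm0 : (m : K) ≠ 0 := by
    intro h
    have hc3 : Nat.Coprime m 3 := hm
    obtain ⟨a, b, hab⟩ : ∃ a b : ℤ, a * (m : ℤ) + b * (3 : ℤ) = 1 := by
      have := Nat.isCoprime_iff_coprime.2 hc3
      obtain ⟨a, b, h'⟩ := this
      exact ⟨a, b, by exact_mod_cast h'⟩
    have := congrArg (Int.cast : ℤ → K) hab
    push_cast at this
    rw [h, h3, mul_zero, mul_zero, add_zero] at this
    exact zero_ne_one this
  have ht : t = 0 := (mul_eq_zero.1 hmt).resolve_left hm0
  have hu1 : uu (0 : K) = 1 := by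
    apply Subtype.ext
    show !![1, 0; 0, 1] = (1 : Matrix (Fin 2) (Fin 2) K)
    rw [Matrix.one_fin_two]
  rw [ht, hu1, mul_one]
  exact hs

variable {E F : Subgroup G} {T : Sylow p G} (X : Pr0 p T E F)

include X

/-- `E` with quaternion quotient: the `p'`-elements of `F`. -/
theorem qb_case (hp3 : p = 3) (hK : Fintype.card K = 3) (n₁ : NatSec K E (OmE p E) (ZE p E)) {f : G}
    (hf : f ∈ F) (hco : (orderOf f).Coprime p) : f ∈ E ⊔ CW p E := by
  subst hp3
  have h3 := char3 hK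
  have hsm := small3 hK
  have hN₁ : normalizer (E : Set G) ≤ normalizer (OmE 3 E : Set G) := normalizer_le_omE E
  have hN₂ : normalizer (E : Set G) ≤ normalizer (ZE 3 E : Set G) := normalizer_le_zE E
  have hLin : ∀ g ∈ normalizer (E : Set G), g ∈ Lin n₁ hN₁ hN₂ := by
    intro g hg
    refine ⟨hg, fun c x => ?_⟩
    rcases hsm c with h | h | h <;> rw [h]
    · simp
    · simp
    · simp
  -- `F` has determinant one
  let L : Subgroup G :=
    { carrier := {g | g ∈ normalizer (E : Set G) ∧ ∃ M : Matrix (Fin 2) (Fin 2) K,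
        (∀ x, (hat₀ n₁ hN₁ hN₂).hat g x = M *ᵥ x) ∧ M.det = 1}
      mul_mem' := by
        rintro a b ⟨ha, A, hA, hdA⟩ ⟨hb, B, hB, hdB⟩
        refine ⟨mul_mem ha hb, A * B, fun x => ?_, by rw [Matrix.det_mul, hdA, hdB, one_mul]⟩
        rw [(hat₀ n₁ hN₁ hN₂).hat_mul _ ha _ hb]
        show (hat₀ n₁ hN₁ hN₂).hat a ((hat₀ n₁ hN₁ hN₂).hat b x) = _
        rw [hB, hA, Matrix.mulVec_mulVec]
      one_mem' := ⟨one_mem _, 1, fun x => by
        rw [(hat₀ n₁ hN₁ hN₂).hat_one, Matrix.one_mulVec]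
        rfl, Matrix.det_one⟩
      inv_mem' := by
        rintro a ⟨ha, A, hA, hdA⟩
        obtain ⟨C, hC⟩ := exists_matrix_of_lin _ (hLin a⁻¹ (inv_mem ha)).2
        refine ⟨inv_mem ha, C, hC, ?_⟩
        have hAC : A * C = 1 := by
          apply matrix_eq_one_of_mulVec
          intro x
          rw [← Matrix.mulVec_mulVec, ← hC, ← hA, (hat₀ n₁ hN₁ hN₂).hat_apply_inv ha]
        have h1 : A.det * C.det = 1 := by rw [← Matrix.det_mul, hAC, Matrix.det_one]
        rw [hdA, one_mul] at h1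
        exact h1 }
  have hFL : F ≤ L := by
    rw [← X.hF.2.1, commutator_le]
    intro a ha b hb
    have hbN := baumann_le_normalizer_block X.hE hb
    obtain ⟨M, hM, hd⟩ := det_comm n₁ hN₁ hN₂ (hLin a (X.FE ha)) (hLin b hbN)
    exact ⟨mul_mem (mul_mem (mul_mem (X.FE ha) hbN) (inv_mem (X.FE ha))) (inv_mem hbN), M, hM, hd⟩
  obtain ⟨hfN, M, hM, hd⟩ := hFL hf
  set r : SpecialLinearGroup (Fin 2) K := ⟨M, hd⟩ with hr
  have hrm : r ^ orderOf f = 1 := by
    apply Subtype.ext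
    rw [coe_pow']
    apply matrix_eq_one_of_mulVec
    intro x
    show (M ^ orderOf f) *ᵥ x = x
    rw [← hat_pow_mat hM, ← (hat₀ n₁ hN₁ hN₂).hat_pow hfN, pow_orderOf_eq_one,
      (hat₀ n₁ hN₁ hN₂).hat_one]
    rfl
  obtain ⟨e, he, hee⟩ := n₁.ρ_surj r (mem_SS_of_pow hK r hco hrm)
  apply sup_of_hat X.hE n₁ hfN he
  intro x
  show (hat₀ n₁ hN₁ hN₂).hat f x = (hat₀ n₁ hN₁ hN₂).hat e x
  rw [hM, hat_mem n₁ hN₁ hN₂ he, hee]

end QB

end Cfsg.Agent.Lib.BBlk.B1S
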