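/-
Blocks of alternating type: the normalizer of the block acts on the even-weight module by
permutations.
-/
import Cfsg.Agent.Lib.BBlk.B1S
import Cfsg.Agent.Lib.BBlk.AltZ

set_option autoImplicit false
set_option linter.unusedSectionVars false
set_option linter.unusedVariables false

namespace Cfsg.Agent.Lib.BBlk.AltM

open Subgroup Cfsg Matrix
open Cfsg.Agent.Lib.LocalEven.Util
open Cfsg.Agent.Lib.LocalEven.BaumannBlock
open Cfsg.Agent.Lib.LocalEven.SecIrr
open Cfsg.Agent.Lib.LocalStruct.PCoreOf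
open Cfsg.Agent.Lib.FG85.BB
open Cfsg.Agent.Lib.BPair.Basic
open Cfsg.Agent.Lib.BPair.Types
open Cfsg.Agent.Lib.BBlk.Sec
open Cfsg.Agent.Lib.BBlk.AltZ
open Cfsg.Agent.Lib.Components.Basic
open Cfsg.Agent.Lib.PReduced.RelNorm (mem_normalizer_inf mem_normalizer_sup mem_normalizer_centralizer)
open scoped commutatorElement

universe u

section Comb

variable {n : ℕ}

/-- Even vectors. -/
def VV (n : ℕ) : AddSubgroup (Fin n → ZMod 2) where
  carrier := {v | ∑ i, v i = 0}
  add_mem' := by
    intro a b ha hb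
    show ∑ i, (a i + b i) = 0
    rw [Finset.sum_add_distrib, ha, hb, add_zero]
  zero_mem' := by
    show ∑ i : Fin n, (0 : ZMod 2) = 0
    simp
  neg_mem' := by
    intro a ha
    show ∑ i, - a i = 0
    rw [Finset.sum_neg_distrib, ha, neg_zero]

theorem mem_VV {v : Fin n → ZMod 2} : v ∈ VV n ↔ ∑ i, v i = 0 := Iff.rfl

/-- Permutations acting on even vectors. -/
def act (σ : Equiv.Perm (Fin n)) (v : VV n) : VV n :=
  ⟨fun i => (v : Fin n → ZMod 2) (σ⁻¹ i), by
    rw [mem_VV]
    have := Equiv.sum_comp (σ⁻¹) (fun i => (v : Fin n → ZMod 2) i)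
    rw [this]
    exact v.2⟩

@[simp] theorem act_apply (σ : Equiv.Perm (Fin n)) (v : VV n) (i : Fin n) :
    (act σ v : Fin n → ZMod 2) i = (v : Fin n → ZMod 2) (σ⁻¹ i) := rfl

theorem act_mul (σ τ : Equiv.Perm (Fin n)) (v : VV n) : act (σ * τ) v = act σ (act τ v) := by
  apply Subtype.ext
  funext i
  simp [_root_.mul_inv_rev]

theorem act_one (v : VV n) : act 1 v = v := by
  apply Subtype.ext
  funext i
  simp

theorem act_pow (σ : Equiv.Perm (Fin n)) (k : ℕ) (v : VV n) :
    act (σ ^ k) v = (act σ)^[k] v := by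
  induction k generalizing v with
  | zero => simp [act_one]
  | succ k ih =>
    rw [pow_succ, act_mul, ih, Function.iterate_succ_apply]

/-- The orbit under the alternating group. -/
def orb (v : VV n) : Set (VV n) := {w | ∃ σ ∈ alternatingGroup (Fin n), w = act σ v}

/-- The weight `n - 1` vectors. -/
def uE (hodd : Odd n) (i : Fin n) : VV n := ⟨uv i, sum_uv hodd i⟩

theorem act_uE (hodd : Odd n) (σ : Equiv.Perm (Fin n)) (i : Fin n) :
    act σ (uE hodd i) = uE hodd (σ i) := by
  apply Subtype.ext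
  funext j
  show uv i (σ⁻¹ j) = uv (σ i) j
  exact uv_comp σ i j

theorem uv_self (i : Fin n) : uv i i = 0 := by
  simp [uv]
  decide

theorem uv_ne {i j : Fin n} (h : j ≠ i) : uv i j = 1 := by
  simp [uv, Pi.single_eq_of_ne h]

theorem ncard_orb_uE (hodd : Odd n) (i : Fin n) : (orb (uE hodd i)).ncard ≤ n := by
  have hsub : orb (uE hodd i) ⊆ (uE hodd) '' Set.univ := by
    rintro _ ⟨σ, -, rfl⟩
    exact ⟨σ i, trivial, (act_uE hodd σ i).symm⟩
  calc (orb (uE hodd i)).ncard ≤ ((uE hodd) '' Set.univ).ncard :=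
        Set.ncard_le_ncard hsub (Set.toFinite _)
    _ ≤ (Set.univ : Set (Fin n)).ncard := Set.ncard_image_le (Set.toFinite _)
    _ = n := by rw [Set.ncard_univ, Nat.card_eq_fintype_card, Fintype.card_fin]

theorem zmod2_cases (x : ZMod 2) : x = 0 ∨ x = 1 := by
  revert x
  decide

/-- The parity of the weight. -/
theorem even_weight (v : VV n) :
    2 ∣ (Finset.univ.filter (fun i => (v : Fin n → ZMod 2) i ≠ 0)).card := by
  have h1 : (∑ i, (v : Fin n → ZMod 2) i) =
      ∑ i, (if (v : Fin n → ZMod 2) i ≠ 0 then (1 : ZMod 2) else 0) := by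
    apply Finset.sum_congr rfl
    intro i _
    rcases zmod2_cases ((v : Fin n → ZMod 2) i) with h | h <;> simp [h]
  rw [Finset.sum_boole] at h1
  have h2 : (((Finset.univ.filter (fun i => (v : Fin n → ZMod 2) i ≠ 0)).card : ℕ) : ZMod 2) = 0 := by
    rw [← h1]
    exact v.2
  exact (ZMod.natCast_eq_zero_iff _ _).1 h2

/-- Weight two vectors. -/
def e₂V (a b : Fin n) : VV n := ⟨PermSec.e₂ a b, PermSec.sum_e₂ a b⟩

/-- The orbits other than that of `0` and of the weight `n - 1` vectors are large. -/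
theorem orbit_large (hodd : Odd n) (v : VV n) (h0 : v ≠ 0) (hu : ∀ j, v ≠ uE hodd j) :
    n < (orb v).ncard := by
  classical
  set S : Finset (Fin n) := Finset.univ.filter (fun i => (v : Fin n → ZMod 2) i ≠ 0) with hS
  have hmemS : ∀ i, i ∈ S ↔ (v : Fin n → ZMod 2) i = 1 := by
    intro i
    simp only [hS, Finset.mem_filter, Finset.mem_univ, true_and]
    rcases zmod2_cases ((v : Fin n → ZMod 2) i) with h | h <;> simp [h]
  have hnotS : ∀ i, i ∉ S ↔ (v : Fin n → ZMod 2) i = 0 := by
    intro i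
    rw [hmemS]
    rcases zmod2_cases ((v : Fin n → ZMod 2) i) with h | h <;> simp [h]
  have hev := even_weight v
  rw [← hS] at hev
  have hcard : S.card + Sᶜ.card = n := by
    rw [Finset.card_add_card_compl, Fintype.card_fin]
  have hw0 : S.card ≠ 0 := by
    intro h
    rw [Finset.card_eq_zero] at h
    apply h0
    apply Subtype.ext
    funext i
    exact (hnotS i).1 (by rw [h]; simp)
  have hw2 : 2 ≤ S.card := by
    obtain ⟨c, hc⟩ := hev
    omega
  obtain ⟨l, hl⟩ := hodd
  have hk1 : Sᶜ.card ≠ 1 := by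
    intro h
    obtain ⟨j, hj⟩ := Finset.card_eq_one.1 h
    apply hu j
    apply Subtype.ext
    funext i
    show _ = uv j i
    by_cases hij : i = j
    · subst hij
      rw [uv_self]
      have : i ∈ Sᶜ := by rw [hj]; simp
      exact (hnotS i).1 (Finset.mem_compl.1 this)
    · rw [uv_ne hij]
      have : i ∉ Sᶜ := by rw [hj]; simpa using hij
      rw [Finset.mem_compl, not_not] at this
      exact (hmemS i).1 this
  have hk3 : 3 ≤ Sᶜ.card := by
    obtain ⟨c, hc⟩ := hev
    omega
  -- the image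
  let Φ : Fin n × Fin n → VV n := fun x => v + e₂V x.1 x.2
  have hinj : Set.InjOn Φ ((S ×ˢ Sᶜ : Finset (Fin n × Fin n)) : Set (Fin n × Fin n)) := by
    rintro ⟨a, b⟩ hx ⟨a', b'⟩ hy hxy
    simp only [Finset.coe_product, Set.mem_prod, Finset.mem_coe, Finset.mem_compl] at hx hy
    obtain ⟨ha, hb⟩ := hx
    obtain ⟨ha', hb'⟩ := hy
    have hab : a ≠ b := fun h => hb (h ▸ ha)
    have hab' : a' ≠ b' := fun h => hb' (h ▸ ha')
    have h1 : e₂V a b = e₂V a' b' := add_left_cancel hxy
    have h2 : ∀ i, PermSec.e₂ a b i = PermSec.e₂ a' b' i := fun i => by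
      have := congrArg (fun x : VV n => (x : Fin n → ZMod 2) i) h1
      exact this
    have ha1 : a = a' := by
      by_contra hne
      have h3 := h2 a
      rw [PermSec.e₂_left hab] at h3
      by_cases hb2 : a = b'
      · exact hb' (hb2 ▸ ha)
      · rw [PermSec.e₂_other hne hb2] at h3
        exact one_ne_zero h3
    have hb1 : b = b' := by
      by_contra hne
      have h3 := h2 b
      rw [PermSec.e₂_right hab] at h3
      by_cases ha2 : b = a'
      · exact hb (ha2 ▸ ha')
      · rw [PermSec.e₂_other ha2 hne] at h3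
        exact one_ne_zero h3
    rw [ha1, hb1]
  have himg : ((S ×ˢ Sᶜ).image Φ : Finset (VV n)) ⊆ (orb v).toFinite.toFinset := by
    intro w hw
    rw [Finset.mem_image] at hw
    obtain ⟨⟨a, b⟩, hx, rfl⟩ := hw
    rw [Finset.mem_product, Finset.mem_compl] at hx
    obtain ⟨ha, hb⟩ := hx
    have hab : a ≠ b := fun h => hb (h ▸ ha)
    have hvb := (hnotS b).1 hb
    have hva := (hmemS a).1 ha
    -- two other elements outside the support
    have hc2 : 1 < (Sᶜ.erase b).card := by
      rw [Finset.card_erase_of_mem (Finset.mem_compl.2 hb)]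
      omega
    obtain ⟨c, hc, d, hd, hcd⟩ := Finset.one_lt_card.1 hc2
    rw [Finset.mem_erase, Finset.mem_compl] at hc hd
    have hvc := (hnotS c).1 hc.2
    have hvd := (hnotS d).1 hd.2
    have hac : a ≠ c := fun h => hc.2 (h ▸ ha)
    have had : a ≠ d := fun h => hd.2 (h ▸ ha)
    have hbc : b ≠ c := hc.1.symm
    have hbd : b ≠ d := hd.1.symm
    rw [Set.Finite.mem_toFinset]
    refine ⟨Equiv.swap a b * Equiv.swap c d, ?_, ?_⟩
    · rw [Equiv.Perm.mem_alternatingGroup, map_mul, Equiv.Perm.sign_swap hab, Equiv.Perm.sign_swap hcd]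
      rfl
    · apply Subtype.ext
      funext i
      show (v : Fin n → ZMod 2) i + PermSec.e₂ a b i = (v : Fin n → ZMod 2) ((Equiv.swap a b * Equiv.swap c d)⁻¹ i)
      rw [_root_.mul_inv_rev, Equiv.swap_inv, Equiv.swap_inv, Equiv.Perm.mul_apply]
      by_cases hia : i = a
      · subst hia
        rw [Equiv.swap_apply_left, Equiv.swap_apply_of_ne_of_ne hbc hbd, hvb, hva, PermSec.e₂_left hab]
        decide
      by_cases hib : i = b
      · subst hib
        rw [Equiv.swap_apply_right, Equiv.swap_apply_of_ne_of_ne hac had, hvb, hva, PermSec.e₂_right hab,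
          zero_add]
      rw [PermSec.e₂_other hia hib, add_zero, Equiv.swap_apply_of_ne_of_ne hia hib]
      by_cases hic : i = c
      · subst hic
        rw [Equiv.swap_apply_left, hvc, hvd]
      by_cases hid : i = d
      · subst hid
        rw [Equiv.swap_apply_right, hvc, hvd]
      rw [Equiv.swap_apply_of_ne_of_ne hic hid]
  have hle := Finset.card_le_card himg
  rw [Finset.card_image_of_injOn hinj, Finset.card_product, ← Set.ncard_eq_toFinset_card _ _] at hle
  have key : ∀ w k : ℕ, 2 ≤ w → 3 ≤ k → w + k < w * k := by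
    intro w k hw hk
    obtain ⟨x, rfl⟩ := Nat.exists_eq_add_of_le hw
    obtain ⟨y, rfl⟩ := Nat.exists_eq_add_of_le hk
    nlinarith [Nat.zero_le (x * y)]
  have hlt : n < S.card * Sᶜ.card := by
    have := key _ _ hw2 hk3
    omega
  omega

/-- The expansion in the weight `n - 1` vectors. -/
theorem expand (hodd : Odd n) (f : Fin n → VV n) (σ : Equiv.Perm (Fin n))
    (hf : ∀ i, f i = uE hodd (σ i)) (v : VV n) :
    ∑ i, ((v : Fin n → ZMod 2) i).val • f i = act σ v := by
  apply Subtype.ext
  funext j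
  have h1 : ((∑ i, ((v : Fin n → ZMod 2) i).val • f i : VV n) : Fin n → ZMod 2) j =
      ∑ i, (v : Fin n → ZMod 2) i * uv (σ i) j := by
    rw [AddSubmonoidClass.coe_finset_sum, Finset.sum_apply]
    apply Finset.sum_congr rfl
    intro i _
    rw [hf i]
    have e1 : ((((v : Fin n → ZMod 2) i).val • uE hodd (σ i) : VV n) : Fin n → ZMod 2) j =
        ((v : Fin n → ZMod 2) i).val • (uv (σ i) j) := rfl
    rw [e1, nsmul_eq_mul, ZMod.natCast_zmod_val]
  rw [h1]
  have h2 : ∀ i, (v : Fin n → ZMod 2) i * uv (σ i) j =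
      (v : Fin n → ZMod 2) i + if i = σ⁻¹ j then (v : Fin n → ZMod 2) i else 0 := by
    intro i
    by_cases hi : i = σ⁻¹ j
    · subst hi
      have e2 : σ (σ⁻¹ j) = j := by simp
      rw [if_pos rfl, e2, uv_self]
      rcases zmod2_cases ((v : Fin n → ZMod 2) (σ⁻¹ j)) with h | h <;> rw [h] <;> decide
    · have hne : j ≠ σ i := by
        rintro rfl
        apply hi
        simp
      rw [uv_ne hne, if_neg hi, mul_one, add_zero]
  rw [Finset.sum_congr rfl (fun i _ => h2 i), Finset.sum_add_distrib, Finset.sum_ite_eq']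
  have h3 : ∑ i, (v : Fin n → ZMod 2) i = 0 := v.2
  rw [h3, zero_add]
  simp

/-- The expansion with `f = uE`. -/
theorem expand_self (hodd : Odd n) (v : VV n) :
    ∑ i, ((v : Fin n → ZMod 2) i).val • uE hodd i = v := by
  have := expand hodd (fun i => uE hodd i) 1 (fun i => rfl) v
  rw [act_one] at this
  exact this

end Comb

section Grp

variable {G : Type u} [Group G] [Finite G] {p : ℕ} [hp : Fact p.Prime]
variable {n : ℕ} {E U U₀ : Subgroup G} (s : PermSec n E U U₀)

/-- Coordinates in even vectors. -/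
noncomputable def prV : G → VV n := by
  classical
  exact fun x => if hx : x ∈ U then ⟨s.ψ x, s.ψ_sum x hx⟩ else 0

theorem prV_of_mem {x : G} (hx : x ∈ U) : prV s x = ⟨s.ψ x, s.ψ_sum x hx⟩ := by
  classical
  unfold prV
  exact dif_pos hx

/-- The action of the normalizer. -/
noncomputable def hatV (hN₁ : normalizer (E : Set G) ≤ normalizer (U : Set G))
    (hN₂ : normalizer (E : Set G) ≤ normalizer (U₀ : Set G)) :
    SecData (normalizer (E : Set G)) U U₀ (VV n) :=
  SecData.ofPr (prV s)
    (fun x hx y hy => by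
      rw [prV_of_mem s (mul_mem hx hy), prV_of_mem s hx, prV_of_mem s hy]
      exact Subtype.ext (s.ψ_mul x hx y hy))
    (fun a => by
      obtain ⟨x, hx, he⟩ := s.ψ_surj a a.2
      refine ⟨x, hx, ?_⟩
      rw [prV_of_mem s hx]
      exact Subtype.ext he)
    (fun x hx => by
      rw [prV_of_mem s hx, ← s.ψ_ker x hx]
      constructor
      · intro h
        exact congrArg Subtype.val h
      · intro h
        exact Subtype.ext h)
    hN₁ hN₂

variable (hN₁ : normalizer (E : Set G) ≤ normalizer (U : Set G))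
  (hN₂ : normalizer (E : Set G) ≤ normalizer (U₀ : Set G))

@[simp] theorem hatV_pr : (hatV s hN₁ hN₂).pr = prV s := rfl

theorem hatV_mem {e : G} (he : e ∈ E) (v : VV n) :
    (hatV s hN₁ hN₂).hat e v = act (s.ρ e) v := by
  obtain ⟨u, hu, rfl⟩ := (hatV s hN₁ hN₂).pr_surj v
  have heN : e ∈ normalizer (E : Set G) := le_normalizer he
  have h1 := (hatV s hN₁ hN₂).hat_spec e heN u hu
  rw [← h1]
  have hm : e * u * e⁻¹ ∈ U := conj_mem_of_mem_normalizer (hN₁ heN) hu
  rw [hatV_pr, prV_of_mem s hm, prV_of_mem s hu]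
  apply Subtype.ext
  funext i
  exact s.ψ_eq e he u hu i

theorem hatV_comm {g e : G} (hg : g ∈ normalizer (E : Set G)) (he : e ∈ E) (v : VV n) :
    (hatV s hN₁ hN₂).hat g (act (s.ρ e) v) =
      act (s.ρ (g * e * g⁻¹)) ((hatV s hN₁ hN₂).hat g v) := by
  set d := hatV s hN₁ hN₂ with hd
  have he' : g * e * g⁻¹ ∈ E := conj_mem_of_mem_normalizer hg he
  have hen : e ∈ normalizer (E : Set G) := le_normalizer he
  have h1 : d.hat (g * e) = d.hat (g * e * g⁻¹) * d.hat g := by
    rw [← d.hat_mul _ (le_normalizer he') _ hg]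
    congr 1
    group
  have h2 := congrArg (fun f : AddMonoid.End (VV n) => f v) h1
  simp only [d.hat_mul _ hg _ hen] at h2
  rw [← hatV_mem s hN₁ hN₂ he, ← hatV_mem s hN₁ hN₂ he']
  exact h2

theorem ncard_orb_hat {g : G} (hg : g ∈ normalizer (E : Set G)) (v : VV n) :
    (orb ((hatV s hN₁ hN₂).hat g v)).ncard ≤ (orb v).ncard := by
  set d := hatV s hN₁ hN₂ with hd
  have hsub : orb (d.hat g v) ⊆ (d.hat g) '' orb v := by
    rintro _ ⟨σ, hσ, rfl⟩
    obtain ⟨e, he, rfl⟩ := s.ρ_surj σ hσ
    have he' : g⁻¹ * e * g ∈ E := by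
      have := conj_mem_of_mem_normalizer (inv_mem hg) he
      simpa using this
    refine ⟨act (s.ρ (g⁻¹ * e * g)) v, ⟨_, s.ρ_mem _ he', rfl⟩, ?_⟩
    rw [hatV_comm s hN₁ hN₂ hg he']
    have e1 : g * (g⁻¹ * e * g) * g⁻¹ = e := by group
    rw [e1]
  calc (orb (d.hat g v)).ncard ≤ ((d.hat g) '' orb v).ncard :=
        Set.ncard_le_ncard hsub (Set.toFinite _)
    _ ≤ (orb v).ncard := Set.ncard_image_le (Set.toFinite _)

/-- Elements of the normalizer act by permutations. -/
theorem exists_perm (hodd : Odd n) (hn : 3 ≤ n) {g : G} (hg : g ∈ normalizer (E : Set G)) :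
    ∃ σ : Equiv.Perm (Fin n), ∀ v, (hatV s hN₁ hN₂).hat g v = act σ v := by
  classical
  set d := hatV s hN₁ hN₂ with hd
  have hinj : Function.Injective (d.hat g) := fun x y h => by
    have := congrArg (d.hat g⁻¹) h
    rwa [d.hat_inv_apply hg, d.hat_inv_apply hg] at this
  have hu0 : ∀ i, uE hodd i ≠ 0 := by
    intro i h
    obtain ⟨j, hj⟩ : ∃ j : Fin n, j ≠ i := by
      have : 1 < Fintype.card (Fin n) := by rw [Fintype.card_fin]; omega
      haveI := Fintype.one_lt_card_iff_nontrivial.1 this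
      exact exists_ne i
    have h1 : uv i j = 0 := congrFun (congrArg Subtype.val h) j
    rw [uv_ne hj] at h1
    exact one_ne_zero h1
  have hex : ∀ i, ∃ j, d.hat g (uE hodd i) = uE hodd j := by
    intro i
    by_contra hcon
    push Not at hcon
    have h1 := orbit_large hodd (d.hat g (uE hodd i)) (fun h => hu0 i (hinj (by rw [h, map_zero])))
      hcon
    have h2 : (orb (d.hat g (uE hodd i))).ncard ≤ _ := ncard_orb_hat s hN₁ hN₂ hg (uE hodd i)
    have h3 := ncard_orb_uE hodd i
    omega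
  choose π hπ using hex
  have hπinj : Function.Injective π := by
    intro i j hij
    have h1 : uE hodd i = uE hodd j := hinj (by rw [hπ, hπ, hij])
    by_contra hne
    have h2 : uv i i = uv j i := congrFun (congrArg Subtype.val h1) i
    rw [uv_self, uv_ne hne] at h2
    exact zero_ne_one h2
  let σ : Equiv.Perm (Fin n) := Equiv.ofBijective π (Finite.injective_iff_bijective.1 hπinj)
  refine ⟨σ, fun v => ?_⟩
  have h1 := expand hodd (fun i => d.hat g (uE hodd i)) σ (fun i => hπ i) v
  rw [← h1]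
  conv_lhs => rw [← expand_self hodd v]
  rw [map_sum]
  simp only [map_nsmul]

end Grp

section Block

variable {G : Type u} [Group G] [Finite G] {p : ℕ} [hp : Fact p.Prime] {T₀ E : Subgroup G}

/-- Odd elements of the normalizer of a block of alternating type act as elements of the block. -/
theorem alt_case (hE : IsBaumannBlock p T₀ E) (hp2 : p = 2) {n : ℕ} (hodd : Odd n) (hn : 3 ≤ n)
    (s : PermSec n E (OmE p E) (ZE p E)) {f : G} (hfN : f ∈ normalizer (E : Set G))
    (hco : (orderOf f).Coprime p) : f ∈ E ⊔ CW p E := by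
  classical
  have hN₁ : normalizer (E : Set G) ≤ normalizer (OmE p E : Set G) := normalizer_le_omE E
  have hN₂ : normalizer (E : Set G) ≤ normalizer (ZE p E : Set G) := normalizer_le_zE E
  set d := hatV s hN₁ hN₂ with hd
  obtain ⟨σ, hσ⟩ := exists_perm s hN₁ hN₂ hodd hn hfN
  -- `σ` is an even permutation
  have hpow : ∀ (k : ℕ) v, (d.hat f ^ k) v = act (σ ^ k) v := by
    intro k
    induction k with
    | zero =>
      intro v
      simp [act_one]
    | succ k ih =>
      intro v
      rw [pow_succ, pow_succ, act_mul, ← hσ]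
      exact ih _
  have hσm : σ ^ orderOf f = 1 := by
    apply PermSec.perm_eq_one hn
    intro v hv i
    have h1 := hpow (orderOf f) ⟨v, hv⟩
    rw [← d.hat_pow hfN, pow_orderOf_eq_one, d.hat_one] at h1
    have h2 := congrFun (congrArg Subtype.val h1) i
    exact h2.symm
  have hsign : Equiv.Perm.sign σ = 1 := by
    have h1 : Equiv.Perm.sign σ ^ orderOf f = 1 := by
      rw [← map_pow, hσm, map_one]
    rcases Int.units_eq_one_or (Equiv.Perm.sign σ) with h | h
    · exact h
    · exfalso
      rw [h] at h1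
      have hcop : Nat.Coprime (orderOf f) 2 := hp2 ▸ hco
      have hodd' : Odd (orderOf f) := Nat.Coprime.odd_of_right hcop
      rw [hodd'.neg_one_pow] at h1
      exact absurd h1 (by decide)
  obtain ⟨e, he, hee⟩ := s.ρ_surj σ (Equiv.Perm.mem_alternatingGroup.2 hsign)
  have heN : e ∈ normalizer (E : Set G) := le_normalizer he
  have hk : e⁻¹ * f ∈ CW p E := by
    apply cen_of_sec hE (mul_mem (inv_mem heN) hfN)
    have h1 : d.hat (e⁻¹ * f) = 1 := by
      apply AddMonoidHom.ext
      intro v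
      rw [d.hat_mul _ (inv_mem heN) _ hfN]
      show d.hat e⁻¹ (d.hat f v) = v
      rw [hσ, ← hee, ← hatV_mem s hN₁ hN₂ he, d.hat_inv_apply heN]
    exact (d.hat_eq_one_iff (mul_mem (inv_mem heN) hfN) (hN₁ (mul_mem (inv_mem heN) hfN))).1 h1
  have e1 : f = e * (e⁻¹ * f) := by group
  rw [e1]
  exact mul_mem (mem_sup_left he) (mem_sup_right hk)

end Block

end Cfsg.Agent.Lib.BBlk.AltM
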