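/-
Blocks: `F` normalizing a subnormal block `E`, acting nontrivially on `Ω / Z`, lies in `E C(W_E)`; the
final reduction to `F ≤ E`.
-/
import Cfsg.Agent.Lib.BBlk.AltM

set_option autoImplicit false
set_option linter.unusedSectionVars false
set_option linter.unusedVariables false

namespace Cfsg.Agent.Lib.BBlk

open Subgroup Cfsg Matrix
open Cfsg.Agent.Lib.LocalEven.Util
open Cfsg.Agent.Lib.LocalEven.BaumannBlock
open Cfsg.Agent.Lib.LocalEven.SecIrr
open Cfsg.Agent.Lib.LocalStruct.PCoreOf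
open Cfsg.Agent.Lib.FG85.BB
open Cfsg.Agent.Lib.BPair.Basic
open Cfsg.Agent.Lib.BPair.Small
open Cfsg.Agent.Lib.BPair.Types
open Cfsg.Agent.Lib.BPair.Sec
open Cfsg.Agent.Lib.BPair.Inv
open Cfsg.Agent.Lib.BPair.Comm
open Cfsg.Agent.Lib.BBlk.Sec
open Cfsg.Agent.Lib.BBlk.Sl2X
open Cfsg.Agent.Lib.BBlk.B0
open Cfsg.Agent.Lib.BBlk.Semi
open Cfsg.Agent.Lib.BBlk.SemiF
open Cfsg.Agent.Lib.BBlk.SemiT
open Cfsg.Agent.Lib.BBlk.B1S
open Cfsg.Agent.Lib.BBlk.AltM
open Cfsg.Agent.Lib.Components.Basic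
open Cfsg.Agent.Lib.PReduced.RelNorm (mem_normalizer_inf mem_normalizer_sup mem_normalizer_centralizer)
open scoped commutatorElement

universe u

variable {G : Type u} [Group G] [Finite G] {p : ℕ} [hp : Fact p.Prime]

namespace CaseA.Pr0

variable {T : Sylow p G} {E F : Subgroup G} (X : Pr0 p T E F)

include X

/-- **`F` lies in `E C(W_E)`.** -/
theorem b1 (hne : ¬ F ≤ secTriv (OmE p E) (ZE p E)) : F ≤ E ⊔ CW p E := by
  classical
  have hpp : p.Prime := Fact.out
  rcases X.hE.2.2.2.2 with ⟨K, i1, i2, m, hK, hiso, hs, hcase⟩ | ⟨hp2, m, hiso, hs, hq⟩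
  · obtain ⟨n⟩ := exists_natSec hs
    haveI : Finite K := Finite.of_fintype K
    have hm : m ≠ 0 := by
      rintro rfl
      rw [pow_zero] at hK
      have := Fintype.one_lt_card (α := K)
      omega
    have hdvd : p ∣ Nat.card K := by
      rw [Nat.card_eq_fintype_card, hK]
      exact dvd_pow_self p hm
    have hpK : (p : K) = 0 := cast_zero_of_dvd hdvd
    by_cases h4 : 4 ≤ Nat.card K
    · rcases block_types X.hF with hqF | tF | ⟨K₂, i3, i4, ⟨q⟩⟩
      · exact semi_quasi X hqF n (SS_eq_top h4) hpK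
      · exact (semi_three X hne tF n h4 hpK).elim
      · exact (semi_qb X hne q n h4 hpK).elim
    · have hlt : Fintype.card K < 4 := by
        rw [← Nat.card_eq_fintype_card]
        omega
      have h1 := Fintype.one_lt_card (α := K)
      have hdvd' : p ∣ Fintype.card K := by rwa [← Nat.card_eq_fintype_card]
      have hc : Fintype.card K = 2 ∨ Fintype.card K = 3 := by omega
      conv_lhs => rw [← block_gen X.hF]
      rw [closure_le]
      rintro f ⟨hf, hco⟩
      rcases hc with hc | hc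
      · have hp2 : p = 2 := by
          rw [hc] at hdvd'
          exact (Nat.prime_dvd_prime_iff_eq hpp Nat.prime_two).1 hdvd'
        have hqE : pCoreOf p E = OmE p E := by
          rcases hcase with hq | ⟨hp3, -⟩
          · exact hq
          · omega
        obtain ⟨φ⟩ := hiso
        have tE : Three p E := by
          refine ⟨hp2, ?_, hqE, ?_⟩
          · rw [Nat.card_congr φ.toEquiv]
            exact card_SS_two hc
          · rw [card_of_sl2 hs, hc]
            norm_num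
        exact three_case X.hE tE (X.FE hf) hco
      · have hp3 : p = 3 := by
          rw [hc] at hdvd'
          exact (Nat.prime_dvd_prime_iff_eq hpp Nat.prime_three).1 hdvd'
        exact qb_case X hp3 hc n hf hco
  · have hm : m ≠ 0 := by
      rintro rfl
      exact alt_ne_zero X.hE hiso
    obtain ⟨s⟩ := exists_permSec hs
    conv_lhs => rw [← block_gen X.hF]
    rw [closure_le]
    rintro f ⟨hf, hco⟩
    exact alt_case X.hE hp2 ⟨m, rfl⟩ (by omega) s (X.FE hf) hco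

/-- Elements of `F` in terms of `E` and `C(W_E)`. -/
theorem exists_dec (hne : ¬ F ≤ secTriv (OmE p E) (ZE p E)) {f : G} (hf : f ∈ F) :
    ∃ e ∈ E, e⁻¹ * f ∈ CW p E := by
  have h1 := X.b1 hne hf
  have hEC : E ≤ normalizer (CW p E : Set G) := (le_normalizer_rC X.hE).1
  obtain ⟨e, he, k, hk, rfl⟩ := mem_sup_of_le_normalizer hEC h1
  refine ⟨e, he, ?_⟩
  simpa using hk

/-- The final reduction. -/
theorem le_of_K0 (h : ∀ f ∈ F, (orderOf f).Coprime p → ∃ e ∈ E,
    e⁻¹ * f ∈ secTriv (pCore p G) (pCoreOf p E) ∧ e⁻¹ * f ∈ secTriv (pCoreOf p E) (OmE p E) ∧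
      e⁻¹ * f ∈ centralizer (OmE p E : Set G)) : F ≤ E := by
  set K₀ : Subgroup G := secTriv (pCore p G) (pCoreOf p E) ⊓ secTriv (pCoreOf p E) (OmE p E) ⊓
    centralizer (OmE p E : Set G) with hK₀
  have hpel : ∀ y ∈ K₀, ∃ k : ℕ, y ^ (p ^ k) = 1 := by
    apply pelt_of_coprime_mem (D := (⊥ : Subgroup G)) IsPGroup.of_bot
    intro y hy hco
    obtain ⟨⟨h1, h2⟩, h3⟩ := mem_inf.1 hy |>.imp (mem_inf.1) id
    have hfix := chain_two (isPGroup_omE E) hco h1 h2 (fun b hb => by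
      have := mem_centralizer_iff.1 h3 b hb
      rw [← this]
      group) (isPGroup_pCoreOf E)
    have hyP : y ∈ pCore p G := by
      apply X.hG
      rw [mem_centralizer_iff]
      intro u hu
      calc u * y = (y * u * y⁻¹) * y := by rw [hfix u hu]
        _ = y * u := by group
    obtain ⟨k, hk⟩ := Cfsg.Agent.Lib.Core.Basic.pCore_isPGroup (p := p) (G := G) ⟨y, hyP⟩
    have hk' : y ^ (p ^ k) = 1 := by simpa using congrArg Subtype.val hk
    have h4 : orderOf y ∣ p ^ k := orderOf_dvd_of_pow_eq_one hk'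
    have h5 : orderOf y = 1 := Nat.Coprime.eq_one_of_dvd (Nat.Coprime.pow_right k hco) h4
    exact mem_bot.2 (orderOf_eq_one_iff.1 h5)
  have hK₀p : IsPGroup p K₀ := by
    rintro ⟨y, hy⟩
    obtain ⟨k, hk⟩ := hpel y hy
    exact ⟨k, Subtype.ext (by simpa using hk)⟩
  have hK₀N : K₀ ≤ normalizer (E : Set G) := by
    intro y hy
    apply centralizer_wE_le_normalizer X.hG T E X.hE
    exact centralizer_le (wE_le_omE E) (mem_inf.1 hy).2
  conv_lhs => rw [← block_gen X.hF]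
  rw [closure_le]
  rintro f ⟨hf, hco⟩
  obtain ⟨e, he, h1, h2, h3⟩ := h f hf hco
  have hk : e⁻¹ * f ∈ K₀ := mem_inf.2 ⟨mem_inf.2 ⟨h1, h2⟩, h3⟩
  apply mem_of_coprime_of_mem_sup hK₀p hK₀N _ hco
  have e1 : f = e * (e⁻¹ * f) := by group
  rw [e1]
  exact mul_mem (mem_sup_left he) (mem_sup_right hk)

/-- `E` in the section `O_p(G) / O_p(E)`. -/
theorem E_secP {e : G} (he : e ∈ E) : e ∈ secTriv (pCore p G) (pCoreOf p E) :=
  ⟨mem_normalizer_pCore e, le_normalizer_pCoreOf E he, fun u hu => comm_core X.hE hu he⟩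

/-- **The case of abelian `O_p(E)`.** -/
theorem le_of_gen (hne : ¬ F ≤ secTriv (OmE p E) (ZE p E)) (hqE : pCoreOf p E = OmE p E)
    (hP : ∀ f ∈ F, ∀ u ∈ pCore p G, f * u * f⁻¹ * u⁻¹ ∈ pCoreOf p E) : F ≤ E := by
  have hWQ : WE p E = OmE p E := by
    show ⁅OmE p E, E⁆ = OmE p E
    rw [← hqE]
    exact X.hE.2.2.1
  apply X.le_of_K0
  intro f hf hco
  obtain ⟨e, he, hk⟩ := X.exists_dec hne hf
  have heN : e ∈ normalizer (E : Set G) := le_normalizer he
  have hkN : e⁻¹ * f ∈ normalizer (E : Set G) := mul_mem (inv_mem heN) (X.FE hf)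
  refine ⟨e, he, ?_, ?_, ?_⟩
  · exact mul_mem (inv_mem (X.E_secP he))
      ⟨mem_normalizer_pCore f, X.FQ hf, hP f hf⟩
  · refine ⟨normalizer_le_normalizer_pCoreOf E hkN, normalizer_le_omE E hkN, fun a ha => ?_⟩
    rw [← hqE]
    exact mul_mem (conj_mem_of_mem_normalizer (normalizer_le_normalizer_pCoreOf E hkN) ha) (inv_mem ha)
  · rw [← hWQ]
    exact hk

/-- `[O_p(G), F] ≤ O_p(F)`; if this is `W_F` then it lies in `O_p(E)`. -/
theorem hP_of_gen (hne : ¬ F ≤ secTriv (OmE p E) (ZE p E)) (hqF : pCoreOf p F = OmE p F) :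
    ∀ f ∈ F, ∀ u ∈ pCore p G, f * u * f⁻¹ * u⁻¹ ∈ pCoreOf p E := by
  have hWQ : WE p F = OmE p F := by
    show ⁅OmE p F, F⁆ = OmE p F
    rw [← hqF]
    exact X.hF.2.2.1
  intro f hf u hu
  have h1 : f * u * f⁻¹ * u⁻¹ ∈ pCoreOf p F := comm_core X.hF hu hf
  rw [hqF, ← hWQ] at h1
  exact wE_le_omE E (X.wF_le_wE hne h1) |> omE_le_core E

end CaseA.Pr0

end Cfsg.Agent.Lib.BBlk
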