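/-
Exceptional blocks with `O_p(F)` in `O_p(G)`: an element of `B(T)` quadratic on both sections.
-/
import Cfsg.Agent.Lib.BBlk.B1

set_option autoImplicit false
set_option linter.unusedSectionVars false
set_option linter.unusedVariables false

namespace Cfsg.Agent.Lib.BBlk.ExQ

open Subgroup Cfsg Matrix
open Cfsg.Agent.Lib.LocalEven.Util
open Cfsg.Agent.Lib.LocalEven.Baumann
open Cfsg.Agent.Lib.LocalEven.BaumannBlock
open Cfsg.Agent.Lib.LocalEven.SecIrr
open Cfsg.Agent.Lib.LocalStruct.PCoreOf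
open Cfsg.Agent.Lib.FG85.BB
open Cfsg.Agent.Lib.BPair.Basic
open Cfsg.Agent.Lib.BPair.Types
open Cfsg.Agent.Lib.BPair.Comm
open Cfsg.Agent.Lib.BBlk.Sl2X
open Cfsg.Agent.Lib.BBlk.B0
open scoped commutatorElement

universe u

variable {G : Type u} [Group G] [Finite G]

/-- An exceptional block `F` with `O_3(F) ≤ O_3(G)`. -/
theorem exists_quad {p : ℕ} [hp : Fact p.Prime] (hG : centralizer (pCore p G : Set G) ≤ pCore p G)
    {T : Sylow p G} {F : Subgroup G} (hF : IsBaumannBlock p (T : Subgroup G) F)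
    {K : Type} [Field K] [Fintype K] (m : ExD p K (T : Subgroup G) F) (hQP : pCoreOf p F ≤ pCore p G) :
    ∃ b ∈ baumannSubgroupOf p (T : Subgroup G), b ∉ centralizer (OmE p F : Set G) ∧
      (∀ w ∈ OmE p F, b * (b * w * b⁻¹ * w⁻¹) * b⁻¹ * (b * w * b⁻¹ * w⁻¹)⁻¹ ∈ ZE p F) ∧
      (∀ a ∈ pCoreOf p F, b * (b * a * b⁻¹ * a⁻¹) * b⁻¹ * (b * a * b⁻¹ * a⁻¹)⁻¹ ∈ OmE p F) := by
  classical
  have hp3 : p = 3 := m.hp
  subst hp3
  haveI hFfin : Finite K := Finite.of_fintype K
  have hEN := le_normalizer_rC hF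
  have hWQ : OmE 3 F ≤ pCoreOf 3 F := omegaOneCenter_le _
  have hWc : ∀ w ∈ OmE 3 F, ∀ a ∈ pCoreOf 3 F, w * a = a * w := fun w hw a ha =>
    (mem_centralizer_iff.1 (mem_omegaOneCenter.1 hw).2.1 a ha).symm
  have hQE : pCoreOf 3 F ≤ F := pCoreOf_le F
  have hcardE := card_block (p := 3) m.hiso
  have hQp : IsPGroup 3 (pCoreOf 3 F) := isPGroup_pCoreOf _
  have hcardK : Nat.card (ZE 3 F) = Fintype.card K := m.hcardZ
  have hZp : IsPGroup 3 (ZE 3 F) := hQp.to_le (inf_le_left.trans hWQ)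
  have hh3 : (3 : K) = 0 := by
    obtain ⟨k, hk⟩ := IsPGroup.iff_card.1 hZp
    have h1 := Fintype.one_lt_card (α := K)
    have hk0 : k ≠ 0 := by
      rintro rfl
      rw [hcardK] at hk
      omega
    have hdvd : 3 ∣ Nat.card K := by
      rw [Nat.card_eq_fintype_card, ← hcardK, hk]
      exact dvd_pow_self 3 hk0
    have := cast_zero_of_dvd (p := 3) (K := K) hdvd
    exact_mod_cast this
  have X : Exc K F (pCoreOf 3 F) (OmE 3 F) (OmE 3 F ⊓ centralizer (F : Set G)) (WE 3 F) (CW 3 F)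
      (RC 3 F) (pCore 3 G) (baumannSubgroupOf 3 (T : Subgroup G)) :=
    { n₁ := m.n₁
      n₂ := m.n₂
      h3 := hh3
      hWQ := hWQ
      hZW := inf_le_left
      hQE := hQE
      hWcent := hWc
      hWexp := fun w hw => (mem_omegaOneCenter.1 hw).2.2
      hWchar := fun x hx hc h3 => mem_omegaOneCenter.2
        ⟨hx, mem_centralizer_iff.2 (fun a ha => (hc a ha).symm), h3⟩
      hZE := fun x => by
        rw [mem_inf, mem_centralizer_iff]
        rfl
      hQQ := m.hQQ
      hQ3 := fun a ha => by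
        show a ^ 3 ∈ ZE 3 F
        rw [← m.hfr]
        exact ⟨(⟨a, ha⟩ : pCoreOf 3 F) ^ 3,
          Cfsg.Agent.Lib.PGroups.Basic.pow_mem_frattini hQp _, by simp⟩
      hQcore := fun D hDE hED hDp => le_pCoreOf hDE hED hDp
      hker₁ := m.n₁.ker_iff hQE hcardE (fun a ha u hu => by
        have h1 : a * u = u * a := (hWc u hu a ha).symm
        have h2 : a * u * a⁻¹ * u⁻¹ = 1 := by
          rw [h1]
          group
        rw [h2]
        exact one_mem _) inf_le_left
      hker₂ := m.n₂.ker_iff hQE hcardE (fun a ha u hu => by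
        have : a * u * a⁻¹ * u⁻¹ ∈ (⁅pCoreOf 3 F, pCoreOf 3 F⁆ : Subgroup G) :=
          commutator_mem_commutator ha hu
        rw [m.hQQ] at this
        exact (mem_inf.1 this).1) hWQ
      hWE := rfl
      hZcard := by
        rw [hcardK, Nat.card_eq_fintype_card]
      hgen := block_gen hF
      hQEc := hF.2.2.1
      hNQ := normalizer_le_normalizer_pCoreOf F
      hNW := normalizer_le_omE F
      hNZ := normalizer_le_zE F
      hirr₂ := m.hirr₂
      hC := rfl
      hRC := rC_le_cW F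
      hRp := isPGroup_rC F
      hCR := cW_le_normalizer_rC F
      hEC := hEN.1
      hER := hEN.2
      hRE := rC_le_normalizer hF
      hQR := hQP.trans (pCore_le_rC hG hF)
      hRcore := fun D hDC hCD hDp => le_pCoreOf hDC hCD hDp
      hPp := Cfsg.Agent.Lib.Core.Basic.pCore_isPGroup
      hCP := centralizer_rC_le hG hF
      hBE := baumann_le_normalizer_block hF
      hBC := (baumann_le_normalizer_block hF).trans (normalizer_le_cW F)
      hBR := (baumann_le_normalizer_block hF).trans (normalizer_le_rC F)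
      hBp := T.isPGroup'.to_le (baumann_le _)
      hBnot := block_hBnot hF
      hnq := m.hnq
      hSyl := block_hSyl T hF }
  exact X.exists_b

end Cfsg.Agent.Lib.BBlk.ExQ
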