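/-
Blocks: `E` with abelian `O_3(E)`, `F` exceptional.
-/
import Cfsg.Agent.Lib.BBlk.ExQ

set_option autoImplicit false
set_option linter.unusedSectionVars false
set_option linter.unusedVariables false

namespace Cfsg.Agent.Lib.BBlk

open Subgroup Cfsg Matrix
open Cfsg.Agent.Lib.LocalEven.Util
open Cfsg.Agent.Lib.LocalEven.Baumann
open Cfsg.Agent.Lib.LocalEven.BaumannBlock
open Cfsg.Agent.Lib.LocalEven.SecIrr
open Cfsg.Agent.Lib.LocalStruct.PCoreOf
open Cfsg.Agent.Lib.FG85.BB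
open Cfsg.Agent.Lib.BPair.Basic
open Cfsg.Agent.Lib.BPair.Small
open Cfsg.Agent.Lib.BPair.Types
open Cfsg.Agent.Lib.BPair.Sec
open Cfsg.Agent.Lib.BPair.Inv
open Cfsg.Agent.Lib.BPair.Comm
open Cfsg.Agent.Lib.BBlk.Sec
open Cfsg.Agent.Lib.BBlk.Sl2X
open Cfsg.Agent.Lib.BBlk.B0
open Cfsg.Agent.Lib.BBlk.ExQ
open Cfsg.Agent.Lib.Components.Basic
open Cfsg.Agent.Lib.PReduced.RelNorm (mem_normalizer_inf mem_normalizer_sup mem_normalizer_centralizer)
open scoped commutatorElement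

universe u

variable {G : Type u} [Group G] [Finite G] {p : ℕ} [hp : Fact p.Prime]

namespace AlphaX

/-- The central involution modulo `O_3(E)`. -/
theorem exists_z {T₀ E : Subgroup G} (hE : IsBaumannBlock p T₀ E) (hp3 : p = 3) :
    ∃ z ∈ E, (∀ y ∈ WE p E, z * y * z⁻¹ = y⁻¹) ∧ ∀ e ∈ E, e * z * e⁻¹ * z⁻¹ ∈ pCoreOf p E := by
  have hpp : p.Prime := Fact.out
  rcases hE.2.2.2.2 with ⟨K, i1, i2, m, hK, hiso, hs, -⟩ | ⟨hp2, -⟩
  · obtain ⟨n⟩ := exists_natSec hs
    haveI : Finite K := Finite.of_fintype K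
    have hker := ker_om n hiso
    have hm : m ≠ 0 := by
      rintro rfl
      rw [pow_zero] at hK
      have := Fintype.one_lt_card (α := K)
      omega
    obtain ⟨z, hz, hzm⟩ : ∃ z ∈ E, (n.ρ z : Matrix (Fin 2) (Fin 2) K) = -1 := by
      by_cases h4 : 4 ≤ Nat.card K
      · obtain ⟨z, hz, hzρ⟩ := n.ρ_surj (ww * ww) (by rw [SS_eq_top h4]; trivial)
        exact ⟨z, hz, by rw [hzρ]; exact ww_mul_ww⟩
      · have hc : Fintype.card K = 3 := by
          rw [Nat.card_eq_fintype_card] at h4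
          have h6 : p ^ 1 ≤ p ^ m := Nat.pow_le_pow_right hpp.pos (by omega)
          rw [pow_one] at h6
          omega
        obtain ⟨i₁, hi₁, j₁, hj₁, hn⟩ := exists_neg (char3 hc) n
        exact ⟨_, mul_mem (mul_mem (mul_mem hi₁ hj₁) (inv_mem hi₁)) (inv_mem hj₁), hn⟩
    exact ⟨z, hz, fun y hy => inv_wE n hker hz hy hzm, fun e he => central_mod n hker hz he hzm⟩
  · omega

end AlphaX

open AlphaX

namespace CaseA.Pr0

variable {T : Sylow p G} {E F : Subgroup G} (X : Pr0 p T E F)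

include X

/-- `[O_3(G), F] ≤ O_3(E)` for `O_3(E)` abelian and `F` exceptional. -/
theorem hP_of_exc (hne : ¬ F ≤ secTriv (OmE p E) (ZE p E)) (hqE : pCoreOf p E = OmE p E)
    {K₂ : Type} [Field K₂] [Fintype K₂] (m : ExD p K₂ (T : Subgroup G) F) :
    ∀ f ∈ F, ∀ u ∈ pCore p G, f * u * f⁻¹ * u⁻¹ ∈ pCoreOf p E := by
  classical
  have hp3 : p = 3 := m.hp
  obtain ⟨z, hz, hzinv, hzc⟩ := exists_z X.hE hp3
  have hWQ : WE p E = pCoreOf p E := by
    show ⁅OmE p E, E⁆ = pCoreOf p E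
    rw [← hqE]
    exact X.hE.2.2.1
  have hcube : ∀ y ∈ WE p E, y ^ 3 = 1 := fun y hy => by
    have := wE_pow hy
    rwa [hp3] at this
  have hsq : ∀ y ∈ WE p E, z * y * z⁻¹ = y → y = 1 := by
    intro y hy h
    have h1 := hzinv y hy
    rw [h] at h1
    have h2 : y * y = 1 := by
      nth_rw 1 [h1]
      group
    exact eq_one_of_sq (hcube y hy) h2
  have hcap : ∀ y ∈ WE p E, y ∈ centralizer (E : Set G) → y = 1 := by
    intro y hy hc
    apply hsq y hy
    rw [mem_centralizer_iff.1 hc z hz]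
    group
  have hWV := wE_le_vV₀ X.hG X.hE
  have hWP : WE p E ≤ pCore p G := hWV.trans (omegaOneCenter_le _)
  set C : Subgroup G := pCore p G ⊓ centralizer (E : Set G) with hC
  have hdec : ∀ x ∈ pCore p G, ∃ w ∈ WE p E, ∃ c ∈ C, x = w * c := by
    intro x hx
    set w₀ := z * x * z⁻¹ * x⁻¹ with hw₀
    have hw₀W : w₀ ∈ WE p E := by
      rw [hWQ]
      exact comm_core X.hE hx hz
    set v := w₀ * w₀ with hv
    have hvW : v ∈ WE p E := mul_mem hw₀W hw₀W
    have h3 : w₀ * (w₀ * w₀) = 1 := by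
      have := hcube w₀ hw₀W
      simpa [pow_succ, mul_assoc] using this
    have hzfix : z * (v * x) * z⁻¹ = v * x := by
      have e1 : z * (v * x) * z⁻¹ = (z * v * z⁻¹) * (z * x * z⁻¹) := by group
      have e2 : z * x * z⁻¹ = w₀ * x := by rw [hw₀]; group
      rw [e1, hzinv v hvW, e2]
      have e3 : v⁻¹ * w₀ = v := by
        have : (w₀ * w₀)⁻¹ * w₀ = w₀ * w₀ := by
          have h4 : w₀⁻¹ = w₀ * w₀ := eq_comm.1 (eq_inv_of_mul_eq_one_left (by
            rw [← h3]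
            group))
          calc (w₀ * w₀)⁻¹ * w₀ = w₀⁻¹ := by group
            _ = _ := h4
        exact this
      calc v⁻¹ * (w₀ * x) = (v⁻¹ * w₀) * x := by group
        _ = v * x := by rw [e3]
    have hcP : v * x ∈ pCore p G := mul_mem (hWP hvW) hx
    refine ⟨v⁻¹, inv_mem hvW, v * x, mem_inf.2 ⟨hcP, ?_⟩, by group⟩
    rw [mem_centralizer_iff]
    intro e he
    set c := v * x with hc
    set d := e * c * e⁻¹ * c⁻¹ with hd
    have hdW : d ∈ WE p E := by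
      rw [hWQ]
      exact comm_core X.hE hcP he
    have hq : e⁻¹ * z * e⁻¹⁻¹ * z⁻¹ ∈ WE p E := by
      rw [hWQ]
      exact hzc e⁻¹ (inv_mem he)
    set q := e⁻¹ * z * e⁻¹⁻¹ * z⁻¹ with hqd
    have hqc : q * c = c * q := vV₀_central (hWV hq) hcP
    have hzd : z * d * z⁻¹ = d := by
      have e1 : z * e * z⁻¹ = e * q := by rw [hqd]; group
      have e2 : z * d * z⁻¹ = (z * e * z⁻¹) * (z * c * z⁻¹) * (z * e * z⁻¹)⁻¹ * (z * c * z⁻¹)⁻¹ := by
        rw [hd]; group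
      rw [e2, e1, hzfix, hd]
      calc e * q * c * (e * q)⁻¹ * c⁻¹ = e * (q * c) * q⁻¹ * e⁻¹ * c⁻¹ := by group
        _ = e * (c * q) * q⁻¹ * e⁻¹ * c⁻¹ := by rw [hqc]
        _ = _ := by group
    have hd1 := hsq d hdW hzd
    have h5 : e * c * e⁻¹ = c := by
      have : e * c * e⁻¹ * c⁻¹ = 1 := hd1
      exact mul_inv_eq_one.1 this
    calc e * c = (e * c * e⁻¹) * e := by group
      _ = c * e := by rw [h5]
  have hFC : F ≤ normalizer (C : Set G) := fun f hf =>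
    mem_normalizer_inf (mem_normalizer_pCore f) (normalizer_le_centralizer E (X.FE hf))
  set R₀ : Subgroup G := ⁅C, F⁆ with hR₀
  have hR₀C : R₀ ≤ C := Cfsg.Agent.Lib.QuadAct.Basic.commutator_le_of_le_normalizer hFC
  have hR₀Q : R₀ ≤ pCoreOf p F := by
    rw [hR₀, commutator_le]
    intro c hc f hf
    exact comm_core' X.hF (mem_inf.1 hc).1 hf
  have hFR : F ≤ normalizer (R₀ : Set G) := fun f hf =>
    mem_normalizer_commutator (hFC hf) (le_normalizer hf)
  have hWW := X.wF_le_wE hne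
  by_cases hR : R₀ ≤ OmE p F
  · -- `[C, F] = 1`
    have hRF : ∀ b ∈ R₀, ∀ f ∈ F, f * b * f⁻¹ = b := by
      intro b hb f hf
      have h1 : ⁅b, f⁆ ∈ (⁅R₀, F⁆ : Subgroup G) := commutator_mem_commutator hb hf
      have h2 : ⁅b, f⁆ ∈ WE p E := hWW (commutator_mono hR le_rfl h1)
      have h3 : ⁅b, f⁆ ∈ C :=
        (Cfsg.Agent.Lib.QuadAct.Basic.commutator_le_of_le_normalizer hFR).trans hR₀C h1
      have h4 := hcap _ h2 (mem_inf.1 h3).2
      rw [commutatorElement_eq_one_iff_commute] at h4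
      rw [← h4.eq]
      group
    have hFcen : F ≤ centralizer (C : Set G) := by
      conv_lhs => rw [← block_gen X.hF]
      rw [closure_le]
      rintro f ⟨hf, hco⟩
      rw [SetLike.mem_coe, mem_centralizer_iff]
      intro c hc
      have hR₀p : IsPGroup p R₀ := (isPGroup_pCoreOf (p := p) F).to_le hR₀Q
      have h1 := fixes_of_secTriv hR₀p hco (A := C) ⟨hFC hf, hFR hf, fun a ha => by
        have h2 : ⁅a, f⁆ ∈ R₀ := commutator_mem_commutator ha hf
        have e : f * a * f⁻¹ * a⁻¹ = ⁅a, f⁆⁻¹ := by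
          rw [commutatorElement_def]
          group
        rw [e]
        exact inv_mem h2⟩ (fun b hb => hRF b hb f hf) c hc
      calc c * f = (f * c * f⁻¹) * f := by rw [h1]
        _ = f * c := by group
    intro f hf u hu
    obtain ⟨w, hw, c, hc, rfl⟩ := hdec u hu
    have h1 : f * c * f⁻¹ = c := by
      rw [← mem_centralizer_iff.1 (hFcen hf) c hc]
      group
    have e : f * (w * c) * f⁻¹ * (w * c)⁻¹ = (f * w * f⁻¹) * (f * c * f⁻¹) * c⁻¹ * w⁻¹ := by group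
    rw [e, h1, ← hWQ]
    have e2 : f * w * f⁻¹ * c * c⁻¹ * w⁻¹ = (f * w * f⁻¹) * w⁻¹ := by group
    rw [e2]
    exact mul_mem (conj_mem_of_mem_normalizer (X.FW hf) hw) (inv_mem hw)
  · -- a contradiction
    exfalso
    obtain ⟨hdec₂, hZF⟩ := exc_dec m hR₀Q hFR hR
    have hZFC : ZE p F ≤ C := by
      refine hZF.trans (le_trans ?_ hR₀C)
      rw [commutator_le]
      intro a ha b hb
      exact mul_mem (mul_mem (mul_mem ha hb) (inv_mem ha)) (inv_mem hb)
    have hΩP : OmE p F ≤ pCore p G := by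
      intro w hw
      obtain ⟨v, hv, z', hz', rfl⟩ := exists_decomp X.hF hw
      exact mul_mem (hWP (hWW hv)) (mem_inf.1 (hZFC hz')).1
    have hQP : pCoreOf p F ≤ pCore p G := by
      intro a ha
      obtain ⟨v, hv, y, hy, rfl⟩ := hdec₂ a ha
      exact mul_mem (hΩP hv) (mem_inf.1 (hR₀C hy)).1
    obtain ⟨b, hb, hbW, hb1, hb2⟩ := exists_quad X.hG X.hF m hQP
    apply m.hnq b hb hbW
    have hbE : b ∈ normalizer (E : Set G) := baumann_le_normalizer_block X.hE hb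
    have hbF : b ∈ normalizer (F : Set G) := baumann_le_normalizer_block X.hF hb
    have hbR : b ∈ normalizer (R₀ : Set G) :=
      mem_normalizer_commutator
        (mem_normalizer_inf (mem_normalizer_pCore b) (normalizer_le_centralizer E hbE)) hbF
    have hcapZ : ∀ t ∈ R₀, t ∈ OmE p F → t ∈ ZE p F := by
      intro t ht ht'
      obtain ⟨v, hv, z', hz', rfl⟩ := exists_decomp X.hF ht'
      have h1 : v ∈ C := by
        have e : v = (v * z') * z'⁻¹ := by group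
        rw [e]
        exact mul_mem (hR₀C ht) (inv_mem (hZFC hz'))
      have h2 := hcap v (hWW hv) (mem_inf.1 h1).2
      rw [h2, one_mul]
      exact hz'
    have hZQ : ZE p F ≤ pCoreOf p F := (zE_le_omE F).trans (omE_le_core F)
    have hQnZ : pCoreOf p F ≤ normalizer (ZE p F : Set G) := fun a ha =>
      le_normalizer_zE F (pCoreOf_le F ha)
    have hcomm : ∀ x ∈ pCoreOf p F, ∀ y ∈ pCoreOf p F, x * y * x⁻¹ * y⁻¹ ∈ ZE p F := by
      intro x hx y hy
      have : x * y * x⁻¹ * y⁻¹ ∈ (⁅pCoreOf p F, pCoreOf p F⁆ : Subgroup G) :=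
        commutator_mem_commutator hx hy
      rwa [m.hQQ] at this
    obtain ⟨A, iA, hfA, ⟨dQ⟩⟩ := exists_section (K := normalizer (pCoreOf p F : Set G) ⊓ normalizer (ZE p F : Set G))
      hZQ hQnZ hcomm inf_le_left inf_le_right
    have hbQ : b ∈ normalizer (pCoreOf p F : Set G) := normalizer_le_normalizer_pCoreOf F hbF
    have hbK : b ∈ normalizer (pCoreOf p F : Set G) ⊓ normalizer (ZE p F : Set G) :=
      mem_inf.2 ⟨hbQ, normalizer_le_zE F hbF⟩
    apply quad_to_comm dQ hbK hbQ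
    have hβ1 : ∀ u ∈ pCoreOf p F, (dQ.hat b - 1) (dQ.pr u) = dQ.pr (b * u * b⁻¹ * u⁻¹) := by
      intro u hu
      rw [dQ.pr_div (conj_mem_of_mem_normalizer hbQ hu) hu, dQ.hat_spec b hbK u hu]
      rfl
    have hQb : ∀ u ∈ pCoreOf p F, b * u * b⁻¹ * u⁻¹ ∈ pCoreOf p F := fun u hu =>
      mul_mem (conj_mem_of_mem_normalizer hbQ hu) (inv_mem hu)
    apply end_ext
    intro x
    obtain ⟨a, ha, rfl⟩ := dQ.pr_surj x
    obtain ⟨v, hv, y, hy, rfl⟩ := hdec₂ a ha
    show (dQ.hat b - 1) ((dQ.hat b - 1) (dQ.pr (v * y))) = 0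
    have hvQ := omE_le_core F hv
    have hyQ := hR₀Q hy
    rw [dQ.pr_mul _ hvQ _ hyQ, map_add, map_add, hβ1 v hvQ, hβ1 y hyQ, hβ1 _ (hQb v hvQ),
      hβ1 _ (hQb y hyQ)]
    have h1 := hb1 v hv
    have h2 : b * (b * y * b⁻¹ * y⁻¹) * b⁻¹ * (b * y * b⁻¹ * y⁻¹)⁻¹ ∈ R₀ := by
      have h3 : b * y * b⁻¹ * y⁻¹ ∈ R₀ := mul_mem (conj_mem_of_mem_normalizer hbR hy) (inv_mem hy)
      exact mul_mem (conj_mem_of_mem_normalizer hbR h3) (inv_mem h3)
    have h3 := hcapZ _ h2 (hb2 y hyQ)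
    rw [(dQ.pr_ker _ (hZQ h1)).2 h1, (dQ.pr_ker _ (hZQ h3)).2 h3, add_zero]

end CaseA.Pr0

end Cfsg.Agent.Lib.BBlk
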