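/-
Blocks: `E` exceptional, `F` normalizing `E` and acting nontrivially on `Ω / Z`.
-/
import Cfsg.Agent.Lib.BBlk.AlphaX

set_option autoImplicit false
set_option linter.unusedSectionVars false
set_option linter.unusedVariables false

namespace Cfsg.Agent.Lib.BBlk

open Subgroup Cfsg Matrix
open Cfsg.Agent.Lib.LocalEven.Util
open Cfsg.Agent.Lib.LocalEven.Baumann
open Cfsg.Agent.Lib.LocalEven.BaumannBlock
open Cfsg.Agent.Lib.LocalEven.SecIrr
open Cfsg.Agent.Lib.LocalStruct.PCoreOf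
open Cfsg.Agent.Lib.FG85.BB
open Cfsg.Agent.Lib.BPair.Basic
open Cfsg.Agent.Lib.BPair.Small
open Cfsg.Agent.Lib.BPair.Types
open Cfsg.Agent.Lib.BPair.Sec
open Cfsg.Agent.Lib.BPair.Inv
open Cfsg.Agent.Lib.BPair.Comm
open Cfsg.Agent.Lib.BBlk.Sec
open Cfsg.Agent.Lib.BBlk.Sl2X
open Cfsg.Agent.Lib.BBlk.CaseA
open Cfsg.Agent.Lib.BBlk.B0
open Cfsg.Agent.Lib.BBlk.Semi
open Cfsg.Agent.Lib.BBlk.SemiF
open Cfsg.Agent.Lib.BBlk.SemiT
open Cfsg.Agent.Lib.BBlk.ExQ
open Cfsg.Agent.Lib.Components.Basic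
open Cfsg.Agent.Lib.PReduced.RelNorm (mem_normalizer_inf mem_normalizer_sup mem_normalizer_centralizer)
open scoped commutatorElement

universe u

variable {G : Type u} [Group G] [Finite G] {p : ℕ} [hp : Fact p.Prime]

namespace Beta

variable {K : Type} [Field K] [Fintype K] {T₀ E : Subgroup G}

theorem exd_dvd (n : ExD p K T₀ E) : p ∣ Nat.card K := by
  have hZp : IsPGroup p (ZE p E) := (isPGroup_pCoreOf (p := p) E).to_le (inf_le_left.trans (omE_le_core E))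
  obtain ⟨k, hk⟩ := IsPGroup.iff_card.1 hZp
  have hcardK : Nat.card (ZE p E) = Fintype.card K := n.hcardZ
  have h1 := Fintype.one_lt_card (α := K)
  have hk0 : k ≠ 0 := by
    rintro rfl
    rw [hcardK, pow_zero] at hk
    omega
  rw [Nat.card_eq_fintype_card, ← hcardK, hk]
  exact dvd_pow_self p hk0

/-- The action on `O_p(E) / Ω`. -/
noncomputable abbrev dd₂ (n : ExD p K T₀ E) :
    SecData (normalizer (E : Set G)) (pCoreOf p E) (OmE p E) (Fin 2 → K) :=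
  hat₀ n.n₂ (normalizer_le_normalizer_pCoreOf E) (normalizer_le_omE E)

theorem core_comm₂ (n : ExD p K T₀ E) {a u : G} (ha : a ∈ pCoreOf p E) (hu : u ∈ pCoreOf p E) :
    a * u * a⁻¹ * u⁻¹ ∈ OmE p E := by
  have : a * u * a⁻¹ * u⁻¹ ∈ (⁅pCoreOf p E, pCoreOf p E⁆ : Subgroup G) :=
    commutator_mem_commutator ha hu
  rw [n.hQQ] at this
  exact (mem_inf.1 this).1

theorem ker₂ (n : ExD p K T₀ E) : ∀ e ∈ E, n.n₂.ρ e = 1 ↔ e ∈ pCoreOf p E :=
  n.n₂.ker_iff (pCoreOf_le E) (card_block (p := p) n.hiso) (fun a ha u hu => core_comm₂ n ha hu)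
    (omE_le_core E)

/-- Elements of `E` trivial on `O_p(E) / Ω` lie in `O_p(E)`. -/
theorem ker_sec₂ (n : ExD p K T₀ E) {e : G} (he : e ∈ E)
    (h : ∀ u ∈ pCoreOf p E, e * u * e⁻¹ * u⁻¹ ∈ OmE p E) : e ∈ pCoreOf p E := by
  rw [← ker₂ n e he]
  apply Subtype.ext
  apply matrix_eq_one_of_mulVec
  intro x
  obtain ⟨u, hu, rfl⟩ := n.n₂.ψ_surj x
  rw [← n.n₂.ψ_eq e he u hu]
  have hc := h u hu
  have hcQ := omE_le_core E hc
  have h1 : e * u * e⁻¹ = (e * u * e⁻¹ * u⁻¹) * u := by group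
  rw [h1, n.n₂.ψ_mul _ hcQ _ hu, (n.n₂.ψ_ker _ hcQ).2 hc, zero_add]

/-- `O_p(E)` acts trivially on `O_p(E) / Ω`. -/
theorem core_triv₂ (n : ExD p K T₀ E) {q : G} (hq : q ∈ pCoreOf p E) (x : Fin 2 → K) :
    (dd₂ n).hat q x = x := by
  have hqN : q ∈ normalizer (E : Set G) := le_normalizer (pCoreOf_le E hq)
  have h1 := ((dd₂ n).hat_eq_one_iff hqN (normalizer_le_normalizer_pCoreOf E hqN)).2
    (fun u hu => core_comm₂ n hq hu)
  rw [h1]
  rfl

/-- `O_p(E)` acts trivially on `Ω / Z`. -/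
theorem core_triv₁ (n : NatSec K E (OmE p E) (ZE p E)) {q : G} (hq : q ∈ pCoreOf p E) (x : Fin 2 → K) :
    (dd n).hat q x = x := by
  have hqN : q ∈ normalizer (E : Set G) := le_normalizer (pCoreOf_le E hq)
  have h1 := ((dd n).hat_eq_one_iff hqN (normalizer_le_omE E hqN)).2
    (fun u hu => core_comm_mem E hq hu)
  rw [h1]
  rfl

/-- Elements centralizing `W_E` and normalizing `E` act trivially on `Ω / Z`. -/
theorem sec_of_cw (hE : IsBaumannBlock p T₀ E) {k : G} (hkN : k ∈ normalizer (E : Set G))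
    (hk : k ∈ CW p E) : k ∈ secTriv (OmE p E) (ZE p E) := by
  refine ⟨normalizer_le_omE E hkN, normalizer_le_zE E hkN, fun u hu => ?_⟩
  obtain ⟨w, hw, z, hz, rfl⟩ := exists_decomp hE hu
  have h1 : k * w * k⁻¹ = w := cW_fix hk hw
  have h2 : k * z * k⁻¹ * z⁻¹ ∈ ZE p E :=
    mul_mem (conj_mem_of_mem_normalizer (normalizer_le_zE E hkN) hz) (inv_mem hz)
  have e : k * (w * z) * k⁻¹ * (w * z)⁻¹ =
      (k * w * k⁻¹) * (k * z * k⁻¹ * z⁻¹) * w⁻¹ := by group
  rw [e, h1]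
  exact conj_mem_of_mem_normalizer (le_normalizer_zE E (pCoreOf_le E (omE_le_core E (wE_le_omE E hw)))) h2

/-- Commutators with `E` of elements centralizing `W_E`. -/
theorem comm_of_cw (hE : IsBaumannBlock p T₀ E) {k e : G} (hkN : k ∈ normalizer (E : Set G))
    (hk : k ∈ CW p E) (he : e ∈ E) : k * e * k⁻¹ * e⁻¹ ∈ pCoreOf p E := by
  apply ker_sec hE
  · exact mul_mem (conj_mem_of_mem_normalizer hkN he) (inv_mem he)
  · have hs := sec_of_cw hE hkN hk
    have h2 : k * e * k⁻¹ * e⁻¹ ∈ secTriv (OmE p E) (ZE p E) := by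
      have e1 : k * e * k⁻¹ * e⁻¹ = k * (e * k⁻¹ * e⁻¹) := by group
      rw [e1]
      exact mul_mem hs (conj_mem_secTriv (le_normalizer_omE E he) (le_normalizer_zE E he) (inv_mem hs))
    exact h2.2.2

/-- Elements centralizing `W_E` and normalizing `E` act by scalars on `O_p(E) / Ω`. -/
theorem scalar_of_cw (hE : IsBaumannBlock p T₀ E) (n : ExD p K T₀ E) {k : G}
    (hkN : k ∈ normalizer (E : Set G)) (hk : k ∈ CW p E) :
    ∃ τ : K, ∀ x, (dd₂ n).hat k x = τ • x := by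
  have hN₁ := normalizer_le_normalizer_pCoreOf (p := p) E
  have hN₂ := normalizer_le_omE (p := p) E
  have hcomm : ∀ s ∈ SS K, ∀ x, (dd₂ n).hat k ((s : SpecialLinearGroup (Fin 2) K) *ᵥ x) =
      (s : SpecialLinearGroup (Fin 2) K) *ᵥ (dd₂ n).hat k x := by
    intro s hs x
    obtain ⟨e, he, rfl⟩ := n.n₂.ρ_surj s hs
    have h1 := hat_comm n.n₂ hN₁ hN₂ hkN he x
    have h2 : k * e * k⁻¹ = (k * e * k⁻¹ * e⁻¹) * e := by group
    have hq := comm_of_cw hE hkN hk he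
    have h3 : n.n₂.ρ (k * e * k⁻¹) = n.n₂.ρ e := by
      rw [h2, n.n₂.ρ_mul _ (pCoreOf_le E hq) _ he, (ker₂ n _ (pCoreOf_le E hq)).2 hq, one_mul]
    rw [h3] at h1
    exact h1
  have hdvd := exd_dvd n
  have hp3 : p = 3 := n.hp
  have h3 : (3 : K) = 0 := by
    have := cast_zero_of_dvd (p := p) (K := K) hdvd
    rw [hp3] at this
    exact_mod_cast this
  by_cases h4 : 4 ≤ Nat.card K
  · exact scalar_of_comm (fun a => by rw [SS_eq_top h4]; trivial) _ hcomm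
  · have hc : Fintype.card K = 3 := by
      rw [hp3] at hdvd
      rw [Nat.card_eq_fintype_card] at h4 hdvd
      have := Fintype.one_lt_card (α := K)
      omega
    have hsm := small3 hc
    obtain ⟨M, hM⟩ := exists_matrix_of_small hsm ((dd₂ n).hat k)
    obtain ⟨i, j, hi, hj, hi', hj'⟩ := exists_ij (F := K) h3
    have hcm : ∀ s ∈ SS K, M * (s : Matrix (Fin 2) (Fin 2) K) = (s : Matrix (Fin 2) (Fin 2) K) * M := by
      intro s hs
      apply Matrix.ext_of_mulVec_single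
      intro v
      rw [← Matrix.mulVec_mulVec, ← Matrix.mulVec_mulVec, ← hM, ← hM, hcomm s hs]
    have hsc := scalar_of_commute h3 M hi' hj' (hcm i hi) (hcm j hj)
    refine ⟨M 0 0, fun x => ?_⟩
    rw [hM]
    conv_lhs => rw [hsc]
    rw [Matrix.smul_mulVec, Matrix.one_mulVec]

/-- The subgroup of elements acting on both sections as an element of `E`. -/
def F3 (n : ExD p K T₀ E) : Subgroup G where
  carrier := {g | g ∈ normalizer (E : Set G) ∧ ∃ e ∈ E,
    (∀ x, (dd n.n₁).hat g x = (dd n.n₁).hat e x) ∧ (∀ x, (dd₂ n).hat g x = (dd₂ n).hat e x)}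
  mul_mem' := by
    rintro a b ⟨ha, e, he, h1, h2⟩ ⟨hb, e', he', h1', h2'⟩
    have hen : e ∈ normalizer (E : Set G) := le_normalizer he
    have hen' : e' ∈ normalizer (E : Set G) := le_normalizer he'
    refine ⟨mul_mem ha hb, e * e', mul_mem he he', fun x => ?_, fun x => ?_⟩
    · rw [(dd n.n₁).hat_mul _ ha _ hb, (dd n.n₁).hat_mul _ hen _ hen']
      show (dd n.n₁).hat a ((dd n.n₁).hat b x) = (dd n.n₁).hat e ((dd n.n₁).hat e' x)
      rw [h1', h1]
    · rw [(dd₂ n).hat_mul _ ha _ hb, (dd₂ n).hat_mul _ hen _ hen']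
      show (dd₂ n).hat a ((dd₂ n).hat b x) = (dd₂ n).hat e ((dd₂ n).hat e' x)
      rw [h2', h2]
  one_mem' := ⟨one_mem _, 1, one_mem _, fun x => rfl, fun x => rfl⟩
  inv_mem' := by
    rintro a ⟨ha, e, he, h1, h2⟩
    have hen : e ∈ normalizer (E : Set G) := le_normalizer he
    refine ⟨inv_mem ha, e⁻¹, inv_mem he, fun x => ?_, fun x => ?_⟩
    · have h3 := h1 ((dd n.n₁).hat e⁻¹ x)
      rw [(dd n.n₁).hat_apply_inv hen] at h3
      have h4 := congrArg ((dd n.n₁).hat a⁻¹) h3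
      rw [(dd n.n₁).hat_inv_apply ha] at h4
      exact h4.symm
    · have h3 := h2 ((dd₂ n).hat e⁻¹ x)
      rw [(dd₂ n).hat_apply_inv hen] at h3
      have h4 := congrArg ((dd₂ n).hat a⁻¹) h3
      rw [(dd₂ n).hat_inv_apply ha] at h4
      exact h4.symm

theorem mem_F3 (n : ExD p K T₀ E) {g : G} : g ∈ F3 n ↔ g ∈ normalizer (E : Set G) ∧ ∃ e ∈ E,
    (∀ x, (dd n.n₁).hat g x = (dd n.n₁).hat e x) ∧ (∀ x, (dd₂ n).hat g x = (dd₂ n).hat e x) := Iff.rfl

/-- The normalizer of `E` normalizes this subgroup. -/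
theorem le_normalizer_F3 (n : ExD p K T₀ E) : normalizer (E : Set G) ≤ normalizer (F3 n : Set G) := by
  intro b hb
  apply mem_normalizer_of_conj_le
  rintro g ⟨hg, e, he, h1, h2⟩
  have hen : e ∈ normalizer (E : Set G) := le_normalizer he
  refine ⟨mul_mem (mul_mem hb hg) (inv_mem hb), b * e * b⁻¹, conj_mem_of_mem_normalizer hb he,
    fun x => ?_, fun x => ?_⟩
  · rw [(dd n.n₁).hat_conj hb hg, (dd n.n₁).hat_conj hb hen]
    show (dd n.n₁).hat b ((dd n.n₁).hat g ((dd n.n₁).hat b⁻¹ x)) =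
      (dd n.n₁).hat b ((dd n.n₁).hat e ((dd n.n₁).hat b⁻¹ x))
    rw [h1]
  · rw [(dd₂ n).hat_conj hb hg, (dd₂ n).hat_conj hb hen]
    show (dd₂ n).hat b ((dd₂ n).hat g ((dd₂ n).hat b⁻¹ x)) =
      (dd₂ n).hat b ((dd₂ n).hat e ((dd₂ n).hat b⁻¹ x))
    rw [h2]

/-- A consequence of lying in `F3`. -/
theorem K0_of_F3 (hE : IsBaumannBlock p T₀ E) (n : ExD p K T₀ E) {g e : G}
    (hg : g ∈ normalizer (E : Set G)) (he : e ∈ E)
    (h1 : ∀ x, (dd n.n₁).hat g x = (dd n.n₁).hat e x) (h2 : ∀ x, (dd₂ n).hat g x = (dd₂ n).hat e x) :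
    e⁻¹ * g ∈ secTriv (pCoreOf p E) (OmE p E) ∧ e⁻¹ * g ∈ centralizer (OmE p E : Set G) := by
  have hen : e ∈ normalizer (E : Set G) := le_normalizer he
  have hkN : e⁻¹ * g ∈ normalizer (E : Set G) := mul_mem (inv_mem hen) hg
  set k := e⁻¹ * g with hk
  have hkQ := normalizer_le_normalizer_pCoreOf (p := p) E hkN
  have ht₁ : ∀ x, (dd n.n₁).hat k x = x := by
    intro x
    rw [hk, (dd n.n₁).hat_mul _ (inv_mem hen) _ hg]
    show (dd n.n₁).hat e⁻¹ ((dd n.n₁).hat g x) = x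
    rw [h1, (dd n.n₁).hat_inv_apply hen]
  have ht₂ : ∀ x, (dd₂ n).hat k x = x := by
    intro x
    rw [hk, (dd₂ n).hat_mul _ (inv_mem hen) _ hg]
    show (dd₂ n).hat e⁻¹ ((dd₂ n).hat g x) = x
    rw [h2, (dd₂ n).hat_inv_apply hen]
  have hcw : k ∈ CW p E := cw_of_hat hE n.n₁ hkN ht₁
  have hsec : ∀ a ∈ pCoreOf p E, k * a * k⁻¹ * a⁻¹ ∈ OmE p E :=
    ((dd₂ n).hat_eq_one_iff hkN hkQ).1 (AddMonoidHom.ext ht₂)
  refine ⟨⟨hkQ, normalizer_le_omE E hkN, hsec⟩, ?_⟩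
  -- `k` centralizes `Z`
  have hZ : ∀ z ∈ ZE p E, k * z * k⁻¹ = z := by
    have hle : ⁅pCoreOf p E, pCoreOf p E⁆ ≤ centralizer ({k} : Set G) := by
      rw [commutator_le]
      intro a ha b hb
      rw [mem_centralizer_singleton_iff]
      set v := k * a * k⁻¹ * a⁻¹ with hv
      set v' := k * b * k⁻¹ * b⁻¹ with hv'
      have hvO : v ∈ OmE p E := hsec a ha
      have hv'O : v' ∈ OmE p E := hsec b hb
      have e1 : k * a * k⁻¹ = v * a := by rw [hv]; group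
      have e2 : k * b * k⁻¹ = v' * b := by rw [hv']; group
      have e3 : k * ⁅a, b⁆ * k⁻¹ = (v * a) * (v' * b) * (v * a)⁻¹ * (v' * b)⁻¹ := by
        rw [← e1, ← e2, commutatorElement_def]
        group
      have e4 := comm_mul_central (omE_comm E hvO ha) (omE_comm E hvO hb)
        (omE_comm E hvO (omE_le_core E hv'O)) (omE_comm E hv'O ha) (omE_comm E hv'O hb)
      rw [e4] at e3
      have e6 : ⁅a, b⁆ = a * b * a⁻¹ * b⁻¹ := rfl
      rw [← e6] at e3
      calc ⁅a, b⁆ * k = (k * ⁅a, b⁆ * k⁻¹) * k := by rw [e3]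
        _ = k * ⁅a, b⁆ := by group
    intro z hz
    have hz' : z ∈ (⁅pCoreOf p E, pCoreOf p E⁆ : Subgroup G) := by
      rw [n.hQQ]
      exact hz
    have := mem_centralizer_singleton_iff.1 (hle hz')
    rw [← this]
    group
  rw [mem_centralizer_iff]
  intro u hu
  obtain ⟨w, hw, z, hz, rfl⟩ := exists_decomp hE hu
  have e3 : k * (w * z) * k⁻¹ = w * z := by
    have e4 : k * (w * z) * k⁻¹ = (k * w * k⁻¹) * (k * z * k⁻¹) := by group
    rw [e4, cW_fix hcw hw, hZ z hz]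
  calc w * z * k = (k * (w * z) * k⁻¹) * k := by rw [e3]
    _ = k * (w * z) := by group

theorem hat₂_smul (n : ExD p K T₀ E) {e : G} (he : e ∈ E) (c : K) (x : Fin 2 → K) :
    (dd₂ n).hat e (c • x) = c • (dd₂ n).hat e x := by
  have h := hat_mem n.n₂ (normalizer_le_normalizer_pCoreOf (p := p) E) (normalizer_le_omE (p := p) E) he
  rw [h, h, Matrix.mulVec_smul]

/-- Elements of `E C(W_E)` on the two sections. -/
theorem dec_cw (hE : IsBaumannBlock p T₀ E) (n : ExD p K T₀ E) {e k : G} (he : e ∈ E)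
    (hkN : k ∈ normalizer (E : Set G)) (hk : k ∈ CW p E) :
    (∀ x, (dd n.n₁).hat (e * k) x = (dd n.n₁).hat e x) ∧
      ∃ τ : K, ∀ x, (dd₂ n).hat (e * k) x = τ • (dd₂ n).hat e x := by
  have hen : e ∈ normalizer (E : Set G) := le_normalizer he
  constructor
  · intro x
    have h1 := ((dd n.n₁).hat_eq_one_iff hkN (normalizer_le_omE E hkN)).2 (sec_of_cw hE hkN hk).2.2
    rw [(dd n.n₁).hat_mul _ hen _ hkN, h1, mul_one]
  · obtain ⟨τ, hτ⟩ := scalar_of_cw hE n hkN hk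
    refine ⟨τ, fun x => ?_⟩
    rw [(dd₂ n).hat_mul _ hen _ hkN]
    show (dd₂ n).hat e ((dd₂ n).hat k x) = _
    rw [hτ, hat₂_smul n he]

/-- `p`-elements act on `O_p(E) / Ω` without a scalar factor. -/
theorem tau_eq_one (n : ExD p K T₀ E) {f e : G} {τ : K} (hfN : f ∈ normalizer (E : Set G)) (he : e ∈ E)
    {j : ℕ} (hf : f ^ (p ^ j) = 1) (h1 : ∀ x, (dd n.n₁).hat f x = (dd n.n₁).hat e x)
    (h2 : ∀ x, (dd₂ n).hat f x = τ • (dd₂ n).hat e x) : τ = 1 := by
  classical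
  have hen : e ∈ normalizer (E : Set G) := le_normalizer he
  have h3 : (dd n.n₁).hat (e ^ (p ^ j)) = 1 := by
    rw [(dd n.n₁).hat_pow hen]
    have h0 : (dd n.n₁).hat e = (dd n.n₁).hat f := AddMonoidHom.ext (fun x => (h1 x).symm)
    rw [h0, ← (dd n.n₁).hat_pow hfN, hf, (dd n.n₁).hat_one]
  have heN : e ^ (p ^ j) ∈ E := pow_mem he _
  have h4 : n.n₁.ρ (e ^ (p ^ j)) = 1 := by
    apply Subtype.ext
    apply matrix_eq_one_of_mulVec
    intro x
    rw [← hat_mem n.n₁ (normalizer_le_omE (p := p) E) (normalizer_le_zE (p := p) E) heN, h3]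
    rfl
  have h5 : e ^ (p ^ j) ∈ pCoreOf p E := (ker_om n.n₁ n.hiso _ heN).1 h4
  have h6 : ∀ x, (dd₂ n).hat (e ^ (p ^ j)) x = x := core_triv₂ n h5
  have h7 : ∀ (i : ℕ) x, ((dd₂ n).hat f ^ i) x = τ ^ i • ((dd₂ n).hat e ^ i) x := by
    intro i
    induction i with
    | zero =>
      intro x
      simp
    | succ i ih =>
      intro x
      rw [pow_succ', pow_succ' τ, pow_succ' ((dd₂ n).hat e)]
      show (dd₂ n).hat f (((dd₂ n).hat f ^ i) x) = (τ * τ ^ i) • (dd₂ n).hat e (((dd₂ n).hat e ^ i) x)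
      rw [ih, h2, hat₂_smul n he, mul_smul]
  have h8 := h7 (p ^ j) ![1, 0]
  rw [← (dd₂ n).hat_pow hfN, hf, (dd₂ n).hat_one, ← (dd₂ n).hat_pow hen, h6] at h8
  have h9 : τ ^ (p ^ j) = 1 := by
    have := congrFun h8 0
    simpa using this.symm
  exact eq_one_of_pow_prime (cast_zero_of_dvd (p := p) (K := K) (exd_dvd n)) h9

/-- Equality of maps passes to inverses. -/
theorem hat_inv_eq₁ (n : ExD p K T₀ E) {f e : G} (hfN : f ∈ normalizer (E : Set G))
    (hen : e ∈ normalizer (E : Set G)) (h1 : ∀ x, (dd n.n₁).hat f x = (dd n.n₁).hat e x) (x : Fin 2 → K) :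
    (dd n.n₁).hat f⁻¹ x = (dd n.n₁).hat e⁻¹ x := by
  have h3 := h1 ((dd n.n₁).hat e⁻¹ x)
  rw [(dd n.n₁).hat_apply_inv hen] at h3
  have h4 := congrArg ((dd n.n₁).hat f⁻¹) h3
  rw [(dd n.n₁).hat_inv_apply hfN] at h4
  exact h4.symm

theorem hat_inv_neg₂ (n : ExD p K T₀ E) {f e : G} (hfN : f ∈ normalizer (E : Set G))
    (hen : e ∈ normalizer (E : Set G)) (h1 : ∀ x, (dd₂ n).hat f x = - (dd₂ n).hat e x) (x : Fin 2 → K) :
    (dd₂ n).hat f⁻¹ x = - (dd₂ n).hat e⁻¹ x := by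
  have h3 : (dd₂ n).hat f (- (dd₂ n).hat e⁻¹ x) = x := by
    rw [h1, map_neg, neg_neg, (dd₂ n).hat_apply_inv hen]
  have h4 := congrArg ((dd₂ n).hat f⁻¹) h3
  rw [(dd₂ n).hat_inv_apply hfN] at h4
  exact h4.symm

/-- Commutators of elements acting as `±` elements of `E`. -/
theorem comm_mem_F3 (n : ExD p K T₀ E) {f b e : G} {σ : K} (hfN : f ∈ normalizer (E : Set G))
    (hbN : b ∈ normalizer (E : Set G)) (he : e ∈ E) (hσ : σ = 1 ∨ σ = -1)
    (h1 : ∀ x, (dd n.n₁).hat f x = (dd n.n₁).hat e x)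
    (h2 : ∀ x, (dd₂ n).hat f x = σ • (dd₂ n).hat e x) : f * b * f⁻¹ * b⁻¹ ∈ F3 n := by
  have hen : e ∈ normalizer (E : Set G) := le_normalizer he
  rcases hσ with rfl | rfl
  · have hf : f ∈ F3 n := ⟨hfN, e, he, h1, fun x => by rw [h2, one_smul]⟩
    have e1 : f * b * f⁻¹ * b⁻¹ = f * (b * f⁻¹ * b⁻¹) := by group
    rw [e1]
    exact mul_mem hf (conj_mem_of_mem_normalizer (le_normalizer_F3 n hbN) (inv_mem hf))
  · have h2' : ∀ x, (dd₂ n).hat f x = - (dd₂ n).hat e x := fun x => by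
      rw [h2, neg_smul, one_smul]
    have hfi := inv_mem hfN
    have hei := inv_mem hen
    have hbi := inv_mem hbN
    have hM : f * b * f⁻¹ * b⁻¹ ∈ normalizer (E : Set G) :=
      mul_mem (mul_mem (mul_mem hfN hbN) hfi) hbi
    refine ⟨hM, e * b * e⁻¹ * b⁻¹, ?_, fun x => ?_, fun x => ?_⟩
    · have e1 : e * b * e⁻¹ * b⁻¹ = e * (b * e⁻¹ * b⁻¹) := by group
      rw [e1]
      exact mul_mem he (conj_mem_of_mem_normalizer hbN (inv_mem he))
    · rw [(dd n.n₁).hat_mul _ (mul_mem (mul_mem hfN hbN) hfi) _ hbi,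
        (dd n.n₁).hat_mul _ (mul_mem hfN hbN) _ hfi, (dd n.n₁).hat_mul _ hfN _ hbN,
        (dd n.n₁).hat_mul _ (mul_mem (mul_mem hen hbN) hei) _ hbi,
        (dd n.n₁).hat_mul _ (mul_mem hen hbN) _ hei, (dd n.n₁).hat_mul _ hen _ hbN]
      show (dd n.n₁).hat f ((dd n.n₁).hat b ((dd n.n₁).hat f⁻¹ ((dd n.n₁).hat b⁻¹ x))) =
        (dd n.n₁).hat e ((dd n.n₁).hat b ((dd n.n₁).hat e⁻¹ ((dd n.n₁).hat b⁻¹ x)))
      rw [h1, hat_inv_eq₁ n hfN hen h1]
    · rw [(dd₂ n).hat_mul _ (mul_mem (mul_mem hfN hbN) hfi) _ hbi,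
        (dd₂ n).hat_mul _ (mul_mem hfN hbN) _ hfi, (dd₂ n).hat_mul _ hfN _ hbN,
        (dd₂ n).hat_mul _ (mul_mem (mul_mem hen hbN) hei) _ hbi,
        (dd₂ n).hat_mul _ (mul_mem hen hbN) _ hei, (dd₂ n).hat_mul _ hen _ hbN]
      show (dd₂ n).hat f ((dd₂ n).hat b ((dd₂ n).hat f⁻¹ ((dd₂ n).hat b⁻¹ x))) =
        (dd₂ n).hat e ((dd₂ n).hat b ((dd₂ n).hat e⁻¹ ((dd₂ n).hat b⁻¹ x)))
      rw [h2', hat_inv_neg₂ n hfN hen h2', map_neg, map_neg, neg_neg]

end Beta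

open Beta

namespace CaseA.Pr0

variable {T : Sylow p G} {E F : Subgroup G} (X : Pr0 p T E F)
variable {K : Type} [Field K] [Fintype K]

include X

/-- `F` acting trivially on `O_p(E) / Ω` and nontrivially on `Ω / Z` is impossible. -/
theorem beta_false (n : ExD p K (T : Subgroup G) E) (hne : ¬ F ≤ secTriv (OmE p E) (ZE p E))
    (hY : ⁅pCoreOf p E, F⁆ ≤ OmE p E) : False := by
  classical
  haveI : Finite K := Finite.of_fintype K
  have hp3 : p = 3 := n.hp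
  have hFs : F ≤ secTriv (pCoreOf p E) (OmE p E) := fun f hf => ⟨X.FQ hf, X.FO hf, fun u hu => by
    have h1 : ⁅u, f⁆ ∈ OmE p E := hY (commutator_mem_commutator hu hf)
    have e1 : f * u * f⁻¹ * u⁻¹ = ⁅u, f⁆⁻¹ := by
      rw [commutatorElement_def]
      group
    rw [e1]
    exact inv_mem h1⟩
  have hc : ∀ e ∈ E, ∀ f ∈ F, e * f * e⁻¹ * f⁻¹ ∈ pCoreOf p E := by
    intro e he f hf
    apply ker_sec₂ n
    · have e1 : e * f * e⁻¹ * f⁻¹ = e * (f * e⁻¹ * f⁻¹) := by group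
      rw [e1]
      exact mul_mem he (conj_mem_of_mem_normalizer (X.FE hf) (inv_mem he))
    · have h1 : e * f * e⁻¹ * f⁻¹ ∈ secTriv (pCoreOf p E) (OmE p E) :=
        mul_mem (conj_mem_secTriv (le_normalizer_pCoreOf E he) (le_normalizer_omE E he) (hFs hf))
          (inv_mem (hFs hf))
      exact h1.2.2
  have Y : Pr1 p T E F := ⟨X, hc⟩
  have hpK : (p : K) = 0 := cast_zero_of_dvd (exd_dvd n)
  rcases block_types X.hF with hq | ht | ⟨K₂, i1, i2, ⟨q⟩⟩
  · exact hne fun f hf => ⟨X.FO hf, X.FZ hf, Y.quasi_triv hq f hf⟩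
  · have := ht.1
    omega
  · by_cases h4 : 4 ≤ Nat.card K
    · exact semi_qb X hne q n.n₁ h4 hpK
    · have hc3 : Fintype.card K = 3 := by
        have hdvd := exd_dvd n
        rw [hp3] at hdvd
        rw [Nat.card_eq_fintype_card] at h4 hdvd
        have := Fintype.one_lt_card (α := K)
        omega
      obtain ⟨i₂, hi₂, j₂, hj₂, hf⟩ := exists_neg (char3 q.hF) q.n₁
      have hs := scalar_comm' (char3 hc3) (small3 hc3) n.n₁ X.FO X.FZ (le_normalizer_omE E)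
        (le_normalizer_zE E) hc
        (fun q' hq' u hu => by rw [X.core_comm hq' hu]; exact one_mem _) hi₂ hj₂
      have hfF : i₂ * j₂ * i₂⁻¹ * j₂⁻¹ ∈ F :=
        mul_mem (mul_mem (mul_mem hi₂ hj₂) (inv_mem hi₂)) (inv_mem hj₂)
      apply X.wF_not_le hne
      intro y hy
      have h1 := inv_wE q.n₁ (ker_om q.n₁ q.hiso) hfF hy hf
      have h2 := hs y (wE_le_omE E (X.wF_le_wE hne hy))
      rw [h1] at h2
      have h5 : y ^ 3 = 1 := by
        have := wE_pow hy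
        rwa [hp3] at this
      have h6 : y * (y * y) = 1 := by simpa [pow_succ, mul_assoc] using h5
      have e2 : y = y⁻¹ * y⁻¹ := by
        rw [← _root_.mul_inv_rev]
        exact eq_inv_of_mul_eq_one_left h6
      rw [e2]
      exact h2

/-- `[O_p(G), F] ≤ O_p(E)`, for `E` exceptional. -/
theorem beta_hP (n : ExD p K (T : Subgroup G) E) (hne : ¬ F ≤ secTriv (OmE p E) (ZE p E))
    (hY : ¬ ⁅pCoreOf p E, F⁆ ≤ OmE p E) :
    ∀ f ∈ F, ∀ u ∈ pCore p G, f * u * f⁻¹ * u⁻¹ ∈ pCoreOf p E := by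
  classical
  set D : Subgroup G := ⁅pCoreOf p E, F⁆ with hD
  have hDE : D ≤ pCoreOf p E := Cfsg.Agent.Lib.QuadAct.Basic.commutator_le_of_le_normalizer X.FQ
  have hDF : D ≤ pCoreOf p F := by
    rw [hD, commutator_le]
    intro a ha f hf
    exact comm_core' X.hF (X.coreE_le ha) hf
  have hFD : F ≤ normalizer (D : Set G) := fun f hf =>
    mem_normalizer_commutator (X.FQ hf) (le_normalizer hf)
  have hWW := X.wF_le_wE hne
  have hne' : ¬ D ≤ OmE p F := by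
    intro hle
    apply hY
    have hFs : F ≤ secTriv (pCoreOf p E) (OmE p E) := by
      conv_lhs => rw [← block_gen X.hF]
      rw [closure_le]
      rintro f ⟨hf, hco⟩
      refine ⟨X.FQ hf, X.FO hf, fun a ha => ?_⟩
      have hx : f * a * f⁻¹ * a⁻¹ ∈ D := by
        have h1 : ⁅a, f⁆ ∈ D := commutator_mem_commutator ha hf
        have e1 : f * a * f⁻¹ * a⁻¹ = ⁅a, f⁆⁻¹ := by
          rw [commutatorElement_def]
          group
        rw [e1]
        exact inv_mem h1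
      apply mem_of_coprime_comm hco (X.FO hf)
      · exact le_normalizer_omE E (pCoreOf_le E (hDE hx))
      · obtain ⟨k, hk⟩ := isPGroup_pCoreOf (p := p) E ⟨_, hDE hx⟩
        exact ⟨k, by simpa using congrArg Subtype.val hk⟩
      · have h2 : ⁅f * a * f⁻¹ * a⁻¹, f⁆ ∈ WE p F := commutator_mem_commutator (hle hx) hf
        have h3 := wE_le_omE E (hWW h2)
        have e1 : ∀ y : G, f * y * f⁻¹ * y⁻¹ = ⁅y, f⁆⁻¹ := fun y => by
          rw [commutatorElement_def]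
          group
        rw [e1]
        exact inv_mem h3
    rw [hD, commutator_le]
    intro a ha f hf
    have h1 := (hFs hf).2.2 a ha
    have e1 : ⁅a, f⁆ = (f * a * f⁻¹ * a⁻¹)⁻¹ := by
      rw [commutatorElement_def]
      group
    rw [e1]
    exact inv_mem h1
  rcases gen_or_ex X.hF with hqF | ⟨K₂, i1, i2, ⟨m⟩⟩
  · exact absurd (hqF ▸ hDF) hne'
  · obtain ⟨hdec, hZF⟩ := exc_dec m hDF hFD hne'
    have hZFE : ZE p F ≤ ZE p E := by
      refine hZF.trans ?_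
      rw [← n.hQQ]
      exact commutator_mono hDE hDE
    have hΩ : OmE p F ≤ OmE p E := by
      intro w hw
      obtain ⟨v, hv, z, hz, rfl⟩ := exists_decomp X.hF hw
      exact mul_mem (wE_le_omE E (hWW hv)) (zE_le_omE E (hZFE hz))
    intro f hf u hu
    have h1 : f * u * f⁻¹ * u⁻¹ ∈ pCoreOf p F := comm_core X.hF hu hf
    obtain ⟨v, hv, y, hy, e1⟩ := hdec _ h1
    rw [← e1]
    exact mul_mem (omE_le_core E (hΩ hv)) (hDE hy)

/-- `F` acts on both sections as elements of `E`. -/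
theorem le_F3 (n : ExD p K (T : Subgroup G) E) (hne : ¬ F ≤ secTriv (OmE p E) (ZE p E)) : F ≤ F3 n := by
  classical
  haveI : Finite K := Finite.of_fintype K
  have hp3 : p = 3 := n.hp
  have hpK : (p : K) = 0 := cast_zero_of_dvd (exd_dvd n)
  have key : ∀ f ∈ F, ∃ e ∈ E, (∀ x, (dd n.n₁).hat f x = (dd n.n₁).hat e x) ∧
      ∃ τ : K, ∀ x, (dd₂ n).hat f x = τ • (dd₂ n).hat e x := by
    intro f hf
    obtain ⟨e, he, hk⟩ := X.exists_dec hne hf
    have hen : e ∈ normalizer (E : Set G) := le_normalizer he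
    have hkN : e⁻¹ * f ∈ normalizer (E : Set G) := mul_mem (inv_mem hen) (X.FE hf)
    have := dec_cw X.hE n he hkN hk
    rw [mul_inv_cancel_left] at this
    exact ⟨e, he, this⟩
  rcases block_types X.hF with hq | ht | ⟨K₂, i1, i2, ⟨q⟩⟩
  · apply le_of_quasi hq (X.FE.trans (le_normalizer_F3 n))
    rintro f hf ⟨j, hj⟩
    obtain ⟨e, he, h1, τ, h2⟩ := key f hf
    have hτ := tau_eq_one n (X.FE hf) he hj h1 h2
    exact ⟨X.FE hf, e, he, h1, fun x => by rw [h2, hτ, one_smul]⟩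
  · have := ht.1
    omega
  · by_cases h4 : 4 ≤ Nat.card K
    · exact (semi_qb X hne q n.n₁ h4 hpK).elim
    · have hc3 : Fintype.card K = 3 := by
        have hdvd := exd_dvd n
        rw [hp3] at hdvd
        rw [Nat.card_eq_fintype_card] at h4 hdvd
        have := Fintype.one_lt_card (α := K)
        omega
      rw [← X.hF.2.1, commutator_le]
      intro f hf b hb
      obtain ⟨e, he, h1, τ, h2⟩ := key f hf
      have hτ : τ = 1 ∨ τ = -1 := by
        rcases small3 hc3 τ with h0 | h0 | h0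
        · exfalso
          have hen : e ∈ normalizer (E : Set G) := le_normalizer he
          have h5 := h2 ![1, 0]
          rw [h0, zero_smul] at h5
          have h6 := congrArg ((dd₂ n).hat f⁻¹) h5
          rw [(dd₂ n).hat_inv_apply (X.FE hf), map_zero] at h6
          have := congrFun h6 0
          simp at this
        · exact Or.inl h0
        · exact Or.inr h0
      exact comm_mem_F3 n (X.FE hf) (baumann_le_normalizer_block X.hE hb) he hτ h1 h2

/-- **`E` exceptional.** -/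
theorem beta_le (n : ExD p K (T : Subgroup G) E) (hne : ¬ F ≤ secTriv (OmE p E) (ZE p E)) : F ≤ E := by
  have hY : ¬ ⁅pCoreOf p E, F⁆ ≤ OmE p E := fun h => X.beta_false n hne h
  have hP := X.beta_hP n hne hY
  have h3 := X.le_F3 n hne
  apply X.le_of_K0
  intro f hf hco
  obtain ⟨hfN, e, he, h1, h2⟩ := h3 hf
  obtain ⟨h4, h5⟩ := K0_of_F3 X.hE n hfN he h1 h2
  exact ⟨e, he, mul_mem (inv_mem (X.E_secP he)) ⟨mem_normalizer_pCore f, X.FQ hf, hP f hf⟩, h4, h5⟩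

/-- **The dichotomy for blocks normalizing a subnormal block.** -/
theorem main : F ≤ E ∨ ⁅F, E⁆ = ⊥ := by
  by_cases hne : F ≤ secTriv (OmE p E) (ZE p E)
  · right
    rw [commutator_comm]
    exact X.case_A hne
  · left
    rcases gen_or_ex X.hE with hqE | ⟨K, i1, i2, ⟨n⟩⟩
    · rcases gen_or_ex X.hF with hqF | ⟨K₂, i1, i2, ⟨m⟩⟩
      · exact X.le_of_gen hne hqE (X.hP_of_gen hne hqF)
      · exact X.le_of_gen hne hqE (X.hP_of_exc hne hqE m)
    · exact X.beta_le n hne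

end CaseA.Pr0

end Cfsg.Agent.Lib.BBlk
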